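import Mathlib

set_option autoImplicit false

namespace Cfsg.Agent.Lib.Helper38

open Subgroup

/-- If an automorphism-like map `a` in a group of automorphisms inverts an element `X` with
`X ≠ X⁻¹`, then `a` has even order. -/
theorem two_dvd_orderOf_of_inverts {H : Type*} [Group H] (a : MulAut H) (X : H)
    (ha : a X = X⁻¹) (hX : X⁻¹ ≠ X) : 2 ∣ orderOf a := by
  by_contra hodd
  have hodd' : Odd (orderOf a) := by
    rcases Nat.even_or_odd (orderOf a) with h | h
    · exact absurd h.two_dvd hodd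
    · exact h
  obtain ⟨m, hm⟩ := hodd'
  have h2 : (a ^ 2) X = X := by
    rw [pow_two, MulAut.mul_apply, ha, map_inv, ha, inv_inv]
  have h3 : ∀ k : ℕ, ((a ^ 2) ^ k) X = X := by
    intro k
    induction k with
    | zero => simp
    | succ k ih => rw [pow_succ, MulAut.mul_apply, h2, ih]
  have h4 : a ^ (2 * m + 1) = 1 := by rw [← hm]; exact pow_orderOf_eq_one a
  have h5 : (a ^ (2 * m + 1)) X = X⁻¹ := by
    rw [pow_succ, pow_mul, MulAut.mul_apply, ha, map_inv, h3]
  rw [h4] at h5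
  exact hX h5.symm

/-- Burnside fusion consequence: if `P` is an abelian Sylow `p`-subgroup, `p` odd, and some
non-identity `x ∈ P` is conjugate in `G` to its inverse, then `|N(P) : C(P)|` is even. -/
theorem two_dvd_automizer_index {G : Type*} [Group G] [Finite G] {p : ℕ} [Fact p.Prime]
    (hp : p ≠ 2) (P : Sylow p G) (hP : IsMulCommutative (P : Subgroup G)) (x : G)
    (hx : x ∈ (P : Subgroup G)) (hx1 : x ≠ 1) (hconj : IsConj x x⁻¹) :
    2 ∣ ((centralizer ((P : Subgroup G) : Set G)).subgroupOf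
      (normalizer ((P : Subgroup G) : Set G))).index := by
  have hpp : p.Prime := Fact.out
  -- x⁻¹ ≠ x
  have hxx : x⁻¹ ≠ x := by
    intro h
    have h2 : x ^ 2 = 1 := by
      rw [pow_two]; nth_rewrite 1 [← h]; exact inv_mul_cancel x
    obtain ⟨k, hk⟩ := (IsPGroup.iff_orderOf.mp P.isPGroup') ⟨x, hx⟩
    have hk' : orderOf x = p ^ k := by
      rw [← hk]; exact (Subgroup.orderOf_mk x hx).symm
    have hd : p ^ k ∣ 2 := by rw [← hk']; exact orderOf_dvd_of_pow_eq_one h2
    rcases Nat.eq_zero_or_pos k with h0 | h0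
    · subst h0
      rw [pow_zero, orderOf_eq_one_iff] at hk'
      exact hx1 hk'
    · have : p ∣ 2 := dvd_trans (dvd_pow_self p h0.ne') hd
      exact hp ((Nat.prime_dvd_prime_iff_eq hpp Nat.prime_two).mp this)
  obtain ⟨c, hc⟩ := isConj_iff.mp hconj
  have hy : (c⁻¹)⁻¹ * x * c⁻¹ ∈ (P : Subgroup G) := by
    rw [inv_inv, hc]; exact inv_mem hx
  obtain ⟨n, hn, hn'⟩ := P.conj_eq_normalizer_conj_of_mem x c⁻¹ hx hy
  rw [inv_inv, hc] at hn'
  rw [← normalizerMonoidHom_ker, Subgroup.index_ker]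
  set φ := (P : Subgroup G).normalizerMonoidHom with hφ
  have hn1 : n⁻¹ ∈ normalizer ((P : Subgroup G) : Set G) := inv_mem hn
  set a := φ ⟨n⁻¹, hn1⟩ with ha
  have haX : a ⟨x, hx⟩ = (⟨x, hx⟩ : (P : Subgroup G))⁻¹ := by
    apply Subtype.ext
    simp only [ha, hφ, normalizerMonoidHom_apply_apply_coe, inv_inv, InvMemClass.coe_inv]
    exact hn'.symm
  have hXX : (⟨x, hx⟩ : (P : Subgroup G))⁻¹ ≠ ⟨x, hx⟩ := by
    intro h
    apply hxx
    have := congrArg Subtype.val h
    simpa using this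
  have h2 := two_dvd_orderOf_of_inverts a ⟨x, hx⟩ haX hXX
  refine dvd_trans h2 ?_
  have hmem : a ∈ φ.range := ⟨_, rfl⟩
  have : orderOf (⟨a, hmem⟩ : φ.range) = orderOf a := Subgroup.orderOf_mk a hmem
  rw [← this]
  exact orderOf_dvd_natCard _

end Cfsg.Agent.Lib.Helper38
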