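import Mathlib

set_option autoImplicit false

namespace Cfsg.Agent.Lib.Helper38

open Finset Nat

/-- `C(2^a, j)` is even for `0 < j < 2^a`. -/
theorem two_dvd_choose_two_pow {a j : ℕ} (h0 : 0 < j) (h1 : j < 2 ^ a) :
    2 ∣ (2 ^ a).choose j :=
  Nat.Prime.dvd_choose_pow Nat.prime_two h0.ne' h1.ne

/-- `C(2^k+1, j)` is even for `2 ≤ j ≤ 2^k - 1`. -/
theorem two_dvd_choose_two_pow_add_one {k j : ℕ} (h0 : 2 ≤ j) (h1 : j < 2 ^ k) :
    2 ∣ (2 ^ k + 1).choose j := by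
  obtain ⟨i, rfl⟩ : ∃ i, j = i + 1 := ⟨j - 1, by omega⟩
  rw [Nat.choose_succ_succ]
  exact dvd_add (two_dvd_choose_two_pow (by omega) (by omega))
    (two_dvd_choose_two_pow (by omega) h1)

/-- `C(2^a + r, r)` is odd for `r < 2^a`. -/
theorem not_two_dvd_choose_two_pow_add {a r : ℕ} (hr : r < 2 ^ a) :
    ¬ 2 ∣ (2 ^ a + r).choose r := by
  rw [Nat.add_choose_eq]
  have hmem : (0, r) ∈ antidiagonal r := by simp
  rw [← Finset.add_sum_erase _ _ hmem]
  simp only [Nat.choose_zero_right, Nat.choose_self, mul_one]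
  intro h
  have h2 : 2 ∣ ∑ x ∈ (antidiagonal r).erase (0, r), (2 ^ a).choose x.1 * r.choose x.2 := by
    apply Finset.dvd_sum
    rintro ⟨i, j⟩ hij
    simp only [Finset.mem_erase, ne_eq, Prod.mk.injEq, not_and, HasAntidiagonal.mem_antidiagonal] at hij
    have hi : 0 < i := by
      rcases Nat.eq_zero_or_pos i with h0 | h0
      · exfalso; exact hij.1 h0 (by omega)
      · exact h0
    exact Dvd.dvd.mul_right (two_dvd_choose_two_pow hi (by omega)) _
  have := (Nat.dvd_add_left h2).mp h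
  omega

/-- `C(2^a - 1, j)` is odd for `j ≤ 2^a - 1`. -/
theorem not_two_dvd_choose_two_pow_sub_one {a : ℕ} : ∀ {j : ℕ}, j ≤ 2 ^ a - 1 →
    ¬ 2 ∣ (2 ^ a - 1).choose j := by
  intro j
  induction j with
  | zero => intro _; simp
  | succ j ih =>
    intro hj
    have hpos : 0 < 2 ^ a := by positivity
    have h1 : 2 ∣ (2 ^ a).choose (j + 1) := two_dvd_choose_two_pow (by omega) (by omega)
    have h2 : (2 ^ a).choose (j + 1) = (2 ^ a - 1).choose j + (2 ^ a - 1).choose (j + 1) := by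
      obtain ⟨m, hm⟩ : ∃ m, 2 ^ a = m + 1 := ⟨2 ^ a - 1, by omega⟩
      rw [hm, Nat.choose_succ_succ]; simp
    rw [h2] at h1
    intro h3
    exact ih (by omega) ((Nat.dvd_add_left h3).mp h1)

/-- `(2h+1)‼` is odd. -/
theorem not_two_dvd_doubleFactorial_odd (h : ℕ) : ¬ 2 ∣ (2 * h + 1)‼ := by
  induction h with
  | zero => simp
  | succ h ih =>
    have : 2 * (h + 1) + 1 = (2 * h + 1) + 2 := by ring
    rw [this, Nat.doubleFactorial_add_two]
    intro hd
    rcases (Nat.Prime.dvd_mul Nat.prime_two).mp hd with h1 | h1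
    · omega
    · exact ih h1

/-- `(2(h+1))! = 2^(h+1) (h+1)! (2h+1)‼`. -/
theorem factorial_two_mul_succ (h : ℕ) :
    (2 * (h + 1))! = (2 * h + 1)‼ * (2 ^ (h + 1) * (h + 1)!) := by
  have : 2 * (h + 1) = (2 * h + 1) + 1 := by ring
  rw [this, Nat.factorial_eq_mul_doubleFactorial, ← this, Nat.doubleFactorial_two_mul, mul_comm]

/-- decomposition `n = 2^a + r`, `r < 2^a`. -/
theorem exists_two_pow_add {n : ℕ} (hn : 0 < n) : ∃ a r : ℕ, n = 2 ^ a + r ∧ r < 2 ^ a := by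
  refine ⟨Nat.log 2 n, n - 2 ^ Nat.log 2 n, ?_, ?_⟩
  · have := Nat.pow_log_le_self 2 hn.ne'
    omega
  · have := Nat.lt_pow_succ_log_self (b := 2) (by norm_num) n
    have h2 := Nat.pow_log_le_self 2 hn.ne'
    rw [pow_succ] at this
    omega

end Cfsg.Agent.Lib.Helper38
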