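import Mathlib
import Cfsg.Agent.Lib.Helper38.ChooseParity

set_option autoImplicit false

namespace Cfsg.Agent.Lib.Helper38

open Equiv Equiv.Perm MulAction
open scoped Pointwise

/-- A faithful action of a finite group `G` on `α` whose image contains the alternating group,
together with the facts from Mathlib which we need about it. -/
structure BigAction (G : Type*) (α : Type*) [Group G] [MulAction G α] [DecidableEq α] [Fintype α] :
    Prop where
  hA : ∀ σ : Perm α, σ ∈ alternatingGroup α → ∃ g : G, MulAction.toPerm g = σ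
  hmax : ∀ s : Set α, s.Nonempty → sᶜ.Nonempty → Nat.card α ≠ 2 * s.ncard →
    IsCoatom (stabilizer G s)
  htrans : ∀ j, IsPretransitive G (Set.powersetCard α j)

variable {G : Type*} {α : Type*} [Group G] [Finite G] [MulAction G α] [FaithfulSMul G α]
  [DecidableEq α] [Fintype α]

/-- L0 -/
theorem eq_top_of_alt_le (M : Subgroup G) (hodd : ¬ 2 ∣ M.index)
    (hM : ∀ σ : Perm α, σ ∈ alternatingGroup α → ∃ m ∈ M, MulAction.toPerm m = σ) : M = ⊤ := by
  let ψ : G →* ℤˣ := Perm.sign.comp (MulAction.toPermHom G α)
  have hker : ψ.ker ≤ M := by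
    intro g hg
    have : MulAction.toPerm g ∈ alternatingGroup α := by
      rw [Perm.mem_alternatingGroup]
      exact hg
    obtain ⟨m, hm, hmg⟩ := hM _ this
    have := MulAction.toPerm_injective (α := G) (β := α) hmg
    rwa [← this]
  have h1 : M.index ∣ ψ.ker.index := Subgroup.index_dvd_of_le hker
  have h2 : ψ.ker.index ∣ 2 := by
    rw [Subgroup.index_ker]
    have : Nat.card ℤˣ = 2 := by simp
    rw [← this]
    exact Subgroup.card_subgroup_dvd_card _
  have h3 : M.index ∣ 2 := h1.trans h2
  rcases (Nat.dvd_prime Nat.prime_two).mp h3 with h | h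
  · exact Subgroup.index_eq_one.mp h
  · exact absurd (by rw [h]) hodd

/-- L1 -/
theorem exists_invariant_subset (R : Subgroup G) (hR : IsPGroup 2 R) (j : ℕ)
    (hodd : ¬ 2 ∣ (Fintype.card α).choose j) :
    ∃ s : Set α, s.ncard = j ∧ R ≤ stabilizer G s := by
  have hc : ¬ 2 ∣ Nat.card (Set.powersetCard α j) := by
    rw [Set.powersetCard.card, Nat.card_eq_fintype_card]; exact hodd
  obtain ⟨s, hs⟩ := hR.nonempty_fixed_point_of_prime_not_dvd_card (Set.powersetCard α j) hc
  refine ⟨(s : Set α), Set.powersetCard.ncard_eq s, ?_⟩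
  intro r hr
  rw [← Set.powersetCard.stabilizer_coe]
  exact hs ⟨r, hr⟩

/-- L2 -/
theorem not_two_dvd_choose_of_le_stabilizer (hbig : BigAction G α) (R : Sylow 2 G) (s : Set α)
    (h : (R : Subgroup G) ≤ stabilizer G s) : ¬ 2 ∣ (Fintype.card α).choose s.ncard := by
  classical
  have hcard : s.toFinset.card = s.ncard := by
    rw [Set.ncard_eq_toFinset_card']
  let s' : Set.powersetCard α s.ncard := ⟨s.toFinset, hcard⟩
  have hs' : ((s' : Finset α) : Set α) = s := by simp [s']
  have := hbig.htrans s.ncard
  have h1 : (stabilizer G s').index = (Fintype.card α).choose s.ncard := by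
    rw [index_stabilizer_of_transitive, Set.powersetCard.card, Nat.card_eq_fintype_card]
  have h2 : stabilizer G s' = stabilizer G s := by
    rw [Set.powersetCard.stabilizer_coe]
    congr 1
  rw [← h1, h2]
  intro hd
  exact R.not_dvd_index (hd.trans (Subgroup.index_dvd_of_le h))

end Cfsg.Agent.Lib.Helper38
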