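import Mathlib
import Cfsg.Agent.Lib.Helper38.ChooseParity

set_option autoImplicit false

namespace Cfsg.Agent.Lib.Helper38

open Equiv Equiv.Perm MulAction
open scoped Nat

variable {α : Type*} [DecidableEq α] [Fintype α]

/-- properties of a permutation of cycle type `2^k`. -/
theorem sq_eq_of_cycleType_replicate {t : Perm α} {k : ℕ}
    (ht : t.cycleType = Multiset.replicate k 2) : ∀ y, t (t y) = y := by
  have : t ^ 2 = 1 := by
    rw [pow_prime_eq_one_iff]
    intro c hc
    rw [ht] at hc
    exact Multiset.eq_of_mem_replicate hc
  intro y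
  have h := congrArg (fun f : Perm α => f y) this
  simpa [pow_two] using h

theorem card_support_of_cycleType_replicate {t : Perm α} {k : ℕ}
    (ht : t.cycleType = Multiset.replicate k 2) : t.support.card = 2 * k := by
  rw [← sum_cycleType, ht, Multiset.sum_replicate, smul_eq_mul, mul_comm]

theorem fpf_of_cycleType_replicate {t : Perm α} {k : ℕ}
    (ht : t.cycleType = Multiset.replicate k 2) (hcard : Fintype.card α = 2 * k) :
    ∀ y, t y ≠ y := by
  have h1 := card_support_of_cycleType_replicate ht
  have h2 : t.support = Finset.univ := by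
    apply Finset.eq_univ_of_card
    rw [h1, hcard]
  intro y
  rw [← Perm.mem_support, h2]
  exact Finset.mem_univ y

/-- the number of fixed point free involutions on `2(h+1)` points is `(2h+1)‼`. -/
theorem card_cycleType_replicate (h : ℕ) (hcard : Fintype.card α = 2 * (h + 1)) :
    Nat.card {t : Perm α // t.cycleType = Multiset.replicate (h + 1) 2} = (2 * h + 1)‼ := by
  have key := card_of_cycleType_mul_eq (α := α) (Multiset.replicate (h + 1) 2)
  have hcond : (Multiset.replicate (h + 1) 2).sum ≤ Fintype.card α ∧
      ∀ a ∈ Multiset.replicate (h + 1) 2, 2 ≤ a := by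
    constructor
    · rw [Multiset.sum_replicate, smul_eq_mul, hcard, mul_comm]
    · intro a ha
      rw [Multiset.eq_of_mem_replicate ha]
  rw [if_pos hcond] at key
  have htf : (Multiset.replicate (h + 1) 2).toFinset = {2} := by
    ext x
    rw [Multiset.mem_toFinset, Multiset.mem_replicate, Finset.mem_singleton]
    simp
  rw [htf, Finset.prod_singleton, Multiset.count_replicate_self, Multiset.sum_replicate,
    Multiset.prod_replicate, smul_eq_mul, hcard, mul_comm (h + 1) 2, Nat.sub_self,
    Nat.factorial_zero, one_mul, factorial_two_mul_succ] at key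
  have hpos : 0 < 2 ^ (h + 1) * (h + 1)! := by positivity
  have := Nat.eq_of_mul_eq_mul_right hpos key
  rw [← this, Nat.card_eq_fintype_card, Fintype.card_subtype]

/-- L3: a `2`-group acting on an even number of points centralises a fixed point free
involution. -/
theorem exists_fpf_involution {G : Type*} [Group G] [MulAction G α] (R : Subgroup G)
    (hR : IsPGroup 2 R) (h : ℕ) (hcard : Fintype.card α = 2 * (h + 1)) :
    ∃ t : Perm α, (∀ y, t (t y) = y) ∧ (∀ y, t y ≠ y) ∧ ∀ r ∈ R, ∀ z, r • (t z) = t (r • z) := by
  let X := {t : Perm α // t.cycleType = Multiset.replicate (h + 1) 2}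
  let _ : MulAction R X :=
    { smul := fun r t => ⟨MulAction.toPerm (r : G) * t.1 * (MulAction.toPerm (r : G))⁻¹, by
        rw [cycleType_conj]; exact t.2⟩
      one_smul := by
        intro t
        apply Subtype.ext
        change MulAction.toPerm ((1 : R) : G) * t.1 * (MulAction.toPerm ((1 : R) : G))⁻¹ = t.1
        have : MulAction.toPerm ((1 : R) : G) = (1 : Perm α) := by
          ext z; simp
        rw [this]; simp
      mul_smul := by
        intro a b t
        apply Subtype.ext
        change MulAction.toPerm ((a * b : R) : G) * t.1 * (MulAction.toPerm ((a * b : R) : G))⁻¹ =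
          MulAction.toPerm (a : G) * (MulAction.toPerm (b : G) * t.1 *
            (MulAction.toPerm (b : G))⁻¹) * (MulAction.toPerm (a : G))⁻¹
        have : MulAction.toPerm ((a * b : R) : G) =
            (MulAction.toPerm (a : G) * MulAction.toPerm (b : G) : Perm α) := by
          ext z; simp [mul_smul]
        rw [this]; group }
  have hc : ¬ 2 ∣ Nat.card X := by
    rw [card_cycleType_replicate h hcard]
    exact not_two_dvd_doubleFactorial_odd h
  obtain ⟨t, ht⟩ := hR.nonempty_fixed_point_of_prime_not_dvd_card X hc
  refine ⟨t.1, sq_eq_of_cycleType_replicate t.2, fpf_of_cycleType_replicate t.2 hcard, ?_⟩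
  intro r hr z
  have h1 := congrArg Subtype.val (ht ⟨r, hr⟩)
  change MulAction.toPerm r * t.1 * (MulAction.toPerm r)⁻¹ = t.1 at h1
  have h2 : MulAction.toPerm r * t.1 = t.1 * MulAction.toPerm r := by
    exact mul_inv_eq_iff_eq_mul.mp h1
  have h3 := congrArg (fun f : Perm α => f z) h2
  simpa using h3

end Cfsg.Agent.Lib.Helper38
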