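import Mathlib
import Cfsg.Agent.Lib.Helper41.Dickson.Orbits

/-!
`GL_5(2)` has no element of order `9`; `PSL_2(8)` has one.
-/

set_option autoImplicit false

namespace Cfsg.Agent.Lib.Helper38.GL5

open Matrix Subgroup

section nine

theorem pow_mulVec_fixed {M : Matrix (Fin 5) (Fin 5) (ZMod 2)} {v : Fin 5 → ZMod 2}
    (h : M *ᵥ v = v) (j : ℕ) : (M ^ j) *ᵥ v = v := by
  induction j with
  | zero => simp
  | succ j ih => rw [pow_succ, ← mulVec_mulVec, h, ih]

/-- a nontrivial power of `M` fixing `v` forces `M ^ 3` to fix `v` -/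
theorem cube_fixed {M : Matrix (Fin 5) (Fin 5) (ZMod 2)} (hM : M ^ 9 = 1) {v : Fin 5 → ZMod 2}
    {k : ℕ} (hk0 : 0 < k) (hk : k < 9) (h : (M ^ k) *ᵥ v = v) : (M ^ 3) *ᵥ v = v := by
  have key : ∀ j l : ℕ, k * j = 3 + 9 * l → (M ^ 3) *ᵥ v = v := by
    intro j l hjl
    have h1 := pow_mulVec_fixed h j
    rw [← pow_mul, hjl, pow_add, pow_mul, hM, one_pow, mul_one] at h1
    exact h1
  interval_cases k
  · exact key 3 0 rfl
  · exact key 6 1 rfl
  · exact key 1 0 rfl
  · exact key 3 1 rfl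
  · exact key 6 3 rfl
  · exact key 2 1 rfl
  · exact key 3 2 rfl
  · exact key 6 5 rfl

theorem no_order_nine (g : GL (Fin 5) (ZMod 2)) (hg : orderOf g = 9) : False := by
  set M : Matrix (Fin 5) (Fin 5) (ZMod 2) := (g : Matrix (Fin 5) (Fin 5) (ZMod 2)) with hMdef
  have hM9 : M ^ 9 = 1 := by
    have h1 : g ^ 9 = 1 := by rw [← hg]; exact pow_orderOf_eq_one g
    have h2 := congrArg (fun u : GL (Fin 5) (ZMod 2) => (u : Matrix (Fin 5) (Fin 5) (ZMod 2))) h1
    simpa using h2
  have hM3 : M ^ 3 ≠ 1 := by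
    intro h
    have h1 : g ^ 3 = 1 := by
      apply Units.ext
      simpa using h
    have := orderOf_dvd_of_pow_eq_one h1
    rw [hg] at this
    exact absurd this (by decide)
  -- coercion of elements of the cyclic group
  have hcoe : ∀ c : zpowers g, ∃ k : ℕ, k < 9 ∧ (c : GL (Fin 5) (ZMod 2)) = g ^ k := by
    intro c
    have h1 := c.2
    rw [← mem_powers_iff_mem_zpowers] at h1
    obtain ⟨k, hk⟩ := h1
    refine ⟨k % 9, Nat.mod_lt _ (by norm_num), ?_⟩
    have h2 := pow_mod_orderOf g k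
    rw [hg] at h2
    rw [h2]
    exact hk.symm
  have hcoeM : ∀ c : zpowers g, ∃ k : ℕ, k < 9 ∧ (c : GL (Fin 5) (ZMod 2)) = g ^ k ∧
      ((c : GL (Fin 5) (ZMod 2)) : Matrix (Fin 5) (Fin 5) (ZMod 2)) = M ^ k := by
    intro c
    obtain ⟨k, hk, hc⟩ := hcoe c
    refine ⟨k, hk, hc, ?_⟩
    rw [hc]
    simp [hMdef]
  let S := {v : Fin 5 → ZMod 2 // (M ^ 3) *ᵥ v ≠ v}
  let _ : MulAction (zpowers g) S :=
    { smul := fun c s => ⟨((c : GL (Fin 5) (ZMod 2)) : Matrix (Fin 5) (Fin 5) (ZMod 2)) *ᵥ s.1, by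
        obtain ⟨k, -, -, hc⟩ := hcoeM c
        rw [hc]
        intro h
        apply s.2
        have h1 : (M ^ (9 - k % 9 + k % 9)) = 1 := by
          rw [Nat.sub_add_cancel (Nat.mod_lt _ (by norm_num)).le, hM9]
        have hcomm : M ^ 3 * M ^ k = M ^ k * M ^ 3 := by rw [← pow_add, ← pow_add, add_comm]
        rw [mulVec_mulVec, hcomm, ← mulVec_mulVec] at h
        -- cancel `M ^ k`
        have hinv : M ^ (8 * k) * M ^ k = 1 := by
          rw [← pow_add, show 8 * k + k = 9 * k by ring, pow_mul, hM9, one_pow]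
        have h2 := congrArg (fun w => (M ^ (8 * k)) *ᵥ w) h
        simp only [mulVec_mulVec] at h2
        rw [← mul_assoc, hinv, one_mul, one_mulVec] at h2
        exact h2⟩
      one_smul := by
        intro s
        apply Subtype.ext
        show ((1 : GL (Fin 5) (ZMod 2)) : Matrix (Fin 5) (Fin 5) (ZMod 2)) *ᵥ s.1 = s.1
        simp
      mul_smul := by
        intro a b s
        apply Subtype.ext
        show (((a : GL (Fin 5) (ZMod 2)) * (b : GL (Fin 5) (ZMod 2)) : GL (Fin 5) (ZMod 2)) :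
          Matrix (Fin 5) (Fin 5) (ZMod 2)) *ᵥ s.1 =
          ((a : GL (Fin 5) (ZMod 2)) : Matrix (Fin 5) (Fin 5) (ZMod 2)) *ᵥ
            (((b : GL (Fin 5) (ZMod 2)) : Matrix (Fin 5) (Fin 5) (ZMod 2)) *ᵥ s.1)
        rw [mulVec_mulVec]
        rfl }
  have hsm : ∀ (c : zpowers g) (s : S), ((c • s : S) : Fin 5 → ZMod 2) =
      ((c : GL (Fin 5) (ZMod 2)) : Matrix (Fin 5) (Fin 5) (ZMod 2)) *ᵥ s.1 := fun _ _ => rfl
  have hfree : ∀ (c : zpowers g) (s : S), c • s = s → c = 1 := by
    intro c s hcs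
    obtain ⟨k, hk, hc, hcM⟩ := hcoeM c
    have h1 := congrArg Subtype.val hcs
    rw [hsm, hcM] at h1
    by_cases hk0 : k = 0
    · apply Subtype.ext
      rw [hc, hk0, pow_zero]; rfl
    · exact absurd (cube_fixed hM9 (Nat.pos_of_ne_zero hk0) hk h1) s.2
  have hdvd := Cfsg.Agent.Lib.Helper41.Dickson.card_dvd_of_free hfree
  rw [Nat.card_zpowers, hg] at hdvd
  -- the fixed space
  let W : AddSubgroup (Fin 5 → ZMod 2) :=
    { carrier := {v | (M ^ 3) *ᵥ v = v}
      zero_mem' := mulVec_zero _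
      add_mem' := by
        intro a b ha hb
        show (M ^ 3) *ᵥ (a + b) = a + b
        rw [mulVec_add, show (M ^ 3) *ᵥ a = a from ha, show (M ^ 3) *ᵥ b = b from hb]
      neg_mem' := by
        intro a ha
        show (M ^ 3) *ᵥ (-a) = -a
        rw [mulVec_neg, show (M ^ 3) *ᵥ a = a from ha] }
  have hV : Nat.card (Fin 5 → ZMod 2) = 32 := by
    rw [Nat.card_eq_fintype_card, Fintype.card_fun, ZMod.card, Fintype.card_fin]
    rfl
  have hW : Nat.card W ∣ 32 := hV ▸ AddSubgroup.card_addSubgroup_dvd_card W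
  have hsum : Nat.card W + Nat.card S = 32 := by
    rw [← hV, ← Nat.card_sum]
    exact Nat.card_congr (Equiv.sumCompl (fun v : Fin 5 → ZMod 2 => (M ^ 3) *ᵥ v = v))
  have hSpos : 0 < Nat.card S := by
    rw [Nat.card_pos_iff]
    refine ⟨?_, inferInstance⟩
    by_contra hemp
    apply hM3
    apply Matrix.toLin'.injective
    apply LinearMap.ext
    intro v
    rw [toLin'_apply, toLin'_one, LinearMap.id_apply]
    by_contra hv
    exact hemp ⟨⟨v, hv⟩⟩
  obtain ⟨k, hk, hWk⟩ := (Nat.dvd_prime_pow Nat.prime_two (m := 5)).1 hW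
  obtain ⟨d, hd⟩ := hdvd
  interval_cases k <;> omega

end nine

section psl
variable {F : Type*} [Field F] [Fintype F]

theorem two_eq_zero_of_card (hF : Fintype.card F = 8) : (2 : F) = 0 := by
  have h := FiniteField.cast_card_eq_zero F
  rw [hF] at h
  have h2 : (2 : F) ^ 3 = 0 := by
    have : ((8 : ℕ) : F) = (2 : F) ^ 3 := by norm_num
    rw [← this]; exact h
  exact pow_eq_zero_iff (by norm_num) |>.1 h2

theorem exists_root (hF : Fintype.card F = 8) : ∃ t : F, t ^ 3 + t + 1 = 0 := by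
  classical
  have h2 := two_eq_zero_of_card hF
  obtain ⟨a, ha⟩ : ∃ a : F, a ∉ ({0, 1} : Finset F) := by
    by_contra hcon
    push Not at hcon
    have h1 : (Finset.univ : Finset F) ⊆ {0, 1} := fun a _ => hcon a
    have h3 := Finset.card_le_card h1
    rw [Finset.card_univ, hF] at h3
    have := Finset.card_le_two (a := (0 : F)) (b := 1)
    omega
  simp only [Finset.mem_insert, Finset.mem_singleton, not_or] at ha
  have h7 : a ^ 7 = 1 := by
    have := FiniteField.pow_card_sub_one_eq_one a ha.1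
    rwa [hF] at this
  have hprod : (a - 1) * ((a ^ 3 + a + 1) * (a ^ 3 + a ^ 2 + 1)) = 0 := by
    linear_combination h7 + a ^ 3 * (a - 1) * h2
  rcases mul_eq_zero.1 hprod with h | h
  · exact absurd (sub_eq_zero.1 h) ha.2
  rcases mul_eq_zero.1 h with h | h
  · exact ⟨a, h⟩
  · exact ⟨a + 1, by linear_combination h + (a ^ 2 + 2 * a + 1) * h2⟩

theorem exists_order_nine (hF : Fintype.card F = 8) :
    ∃ a : Matrix.ProjectiveSpecialLinearGroup (Fin 2) F, orderOf a = 9 := by
  have h2 := two_eq_zero_of_card hF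
  obtain ⟨t, ht⟩ := exists_root hF
  let X : Matrix (Fin 2) (Fin 2) F := !![0, 1; 1, t]
  let Y : Matrix (Fin 2) (Fin 2) F := !![t, 1 + t ^ 2; 1 + t ^ 2, t + 1]
  have hX3 : X * X * X = Y := by
    simp only [X, Y, Matrix.mul_fin_two]
    ext i j
    fin_cases i <;> fin_cases j <;> simp
    · ring
    · ring
    · linear_combination ht - h2
  have hYY : Y * Y = Y + 1 := by
    simp only [Y, Matrix.mul_fin_two]
    ext i j
    fin_cases i <;> fin_cases j <;> simp
    · linear_combination t * ht + (t ^ 2 - t) * h2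
    · linear_combination (1 + t ^ 2) * t * h2
    · linear_combination (1 + t ^ 2) * t * h2
    · linear_combination t * ht + t ^ 2 * h2
  have hY3 : Y * Y * Y = 1 := by
    rw [hYY, add_mul, hYY, one_mul]
    have : Y + Y = 0 := by
      rw [← two_smul F Y, h2, zero_smul]
    calc Y + 1 + Y = (Y + Y) + 1 := by abel
      _ = 1 := by rw [this, zero_add]
  have hdet : X.det = 1 := by
    simp only [X, Matrix.det_fin_two_of]
    linear_combination -h2
  let x : Matrix.SpecialLinearGroup (Fin 2) F := ⟨X, hdet⟩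
  have hx3 : ((x ^ 3 : Matrix.SpecialLinearGroup (Fin 2) F) : Matrix (Fin 2) (Fin 2) F) = Y := by
    rw [Matrix.SpecialLinearGroup.coe_pow, pow_succ, pow_two]
    exact hX3
  have hx9 : x ^ 9 = 1 := by
    apply Subtype.ext
    rw [show 9 = 3 * 3 from rfl, pow_mul, Matrix.SpecialLinearGroup.coe_pow, hx3, pow_succ, pow_two]
    exact hY3
  have hoff : (1 : F) + t ^ 2 ≠ 0 := by
    intro h
    have : (1 : F) = 0 := by linear_combination ht - t * h
    exact one_ne_zero this
  refine ⟨QuotientGroup.mk x, ?_⟩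
  have h9 : (9 : ℕ) = 3 ^ (1 + 1) := rfl
  rw [h9]
  apply orderOf_eq_prime_pow
  · rw [pow_one, ← QuotientGroup.mk_pow]
    intro h
    rw [QuotientGroup.eq_one_iff, Matrix.SpecialLinearGroup.mem_center_iff] at h
    obtain ⟨r, -, hr⟩ := h
    rw [hx3] at hr
    have := congrFun (congrFun hr 0) 1
    simp [Y] at this
    exact hoff this.symm
  · rw [← h9, ← QuotientGroup.mk_pow, hx9]
    rfl

end psl

end Cfsg.Agent.Lib.Helper38.GL5
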