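import Mathlib
import Cfsg.Agent.Lib.Helper38.ChooseParity

set_option autoImplicit false

namespace Cfsg.Agent.Lib.Helper38

open Equiv Equiv.Perm MulAction Finset
open scoped Pointwise

variable {α : Type*} [DecidableEq α] [Fintype α]

/-- the unordered pair `{s, sᶜ}` -/
def halv (s : Finset α) : Finset (Finset α) := {s, sᶜ}

theorem halv_eq_iff [Nonempty α] (a s : Finset α) : halv a = halv s ↔ a = s ∨ a = sᶜ := by
  constructor
  · intro h
    have : a ∈ halv s := by rw [← h]; simp [halv]
    simpa [halv] using this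
  · rintro (rfl | rfl)
    · rfl
    · simp [halv, Finset.pair_comm]

theorem ne_compl [Nonempty α] (s : Finset α) : s ≠ sᶜ := by
  intro h
  obtain ⟨x⟩ := ‹Nonempty α›
  by_cases hx : x ∈ s
  · have : x ∈ sᶜ := h ▸ hx
    exact (Finset.mem_compl.mp this) hx
  · have : x ∈ sᶜ := Finset.mem_compl.mpr hx
    exact hx (h ▸ this)

/-- the set of halvings -/
def halvings (α : Type*) [DecidableEq α] [Fintype α] (m : ℕ) : Finset (Finset (Finset α)) :=
  (powersetCard m (univ : Finset α)).image halv

theorem two_mul_card_halvings [Nonempty α] (m : ℕ) (hcard : Fintype.card α = 2 * m) :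
    2 * (halvings α m).card = (2 * m).choose m := by
  have h1 := Finset.card_eq_sum_card_image halv (powersetCard m (univ : Finset α))
  rw [Finset.card_powersetCard, Finset.card_univ, hcard] at h1
  rw [h1]
  have h2 : ∀ b ∈ (powersetCard m (univ : Finset α)).image halv,
      #{a ∈ powersetCard m (univ : Finset α) | halv a = b} = 2 := by
    intro b hb
    obtain ⟨s, hs, rfl⟩ := Finset.mem_image.mp hb
    have hs' : s.card = m := (Finset.mem_powersetCard.mp hs).2
    have : {a ∈ powersetCard m (univ : Finset α) | halv a = halv s} = {s, sᶜ} := by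
      ext a
      simp only [Finset.mem_filter, Finset.mem_powersetCard, Finset.subset_univ, true_and,
        halv_eq_iff, Finset.mem_insert, Finset.mem_singleton]
      constructor
      · exact fun h => h.2
      · rintro (rfl | rfl)
        · exact ⟨hs', Or.inl rfl⟩
        · refine ⟨?_, Or.inr rfl⟩
          rw [Finset.card_compl, hcard, hs']; omega
    rw [this, Finset.card_pair (ne_compl s)]
  rw [Finset.sum_const_nat h2, halvings, mul_comm]

theorem not_two_dvd_card_halvings [Nonempty α] (a : ℕ) (hcard : Fintype.card α = 2 ^ (a + 1)) :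
    ¬ 2 ∣ (halvings α (2 ^ a)).card := by
  have hc : Fintype.card α = 2 * 2 ^ a := by rw [hcard, pow_succ, mul_comm]
  have h1 := two_mul_card_halvings (α := α) (2 ^ a) hc
  have hpos : 0 < 2 ^ a := by positivity
  obtain ⟨k, hk⟩ : ∃ k, 2 ^ a = k + 1 := ⟨2 ^ a - 1, by omega⟩
  have h2 : (2 * 2 ^ a).choose (2 ^ a) = 2 * (2 ^ (a + 1) - 1).choose k := by
    have e1 : 2 * 2 ^ a = (2 * k + 1) + 1 := by omega
    have e2 : 2 ^ (a + 1) - 1 = 2 * k + 1 := by rw [pow_succ]; omega
    rw [e2, e1, hk, Nat.choose_succ_succ, Nat.choose_symm_half]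
    ring
  rw [h2] at h1
  have h3 : (halvings α (2 ^ a)).card = (2 ^ (a + 1) - 1).choose k := by omega
  rw [h3]
  apply not_two_dvd_choose_two_pow_sub_one
  rw [pow_succ]; omega

theorem smul_finset_compl' {G : Type*} [Group G] [MulAction G α] (g : G) (s : Finset α) :
    g • sᶜ = (g • s)ᶜ := by
  apply Finset.coe_injective
  push_cast
  exact Set.smul_set_compl

theorem smul_halv {G : Type*} [Group G] [MulAction G α] (g : G) (s : Finset α) :
    g • halv s = halv (g • s) := by
  simp [halv, Finset.smul_finset_insert, smul_finset_compl']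

/-- the sub-action on halvings -/
def halvingSub (G : Type*) [Group G] [MulAction G α] (m : ℕ) :
    SubMulAction G (Finset (Finset α)) where
  carrier := {P | P ∈ halvings α m}
  smul_mem' := by
    intro g P hP
    obtain ⟨s, hs, rfl⟩ := Finset.mem_image.mp hP
    rw [smul_halv]
    apply Finset.mem_image_of_mem
    rw [Finset.mem_powersetCard] at hs ⊢
    exact ⟨Finset.subset_univ _, by rw [Finset.card_smul_finset]; exact hs.2⟩

/-- L4: a `2`-group acting on `2^(a+1)` points preserves a halving. -/
theorem exists_invariant_halving {G : Type*} [Group G] [MulAction G α] (R : Subgroup G)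
    (hR : IsPGroup 2 R) (a : ℕ) (hcard : Fintype.card α = 2 ^ (a + 1)) :
    ∃ s : Finset α, s.card = 2 ^ a ∧ R ≤ stabilizer G (halv s) := by
  have : Nonempty α := by
    rw [← Fintype.card_pos_iff, hcard]; positivity
  have hc : ¬ 2 ∣ Nat.card (halvingSub (α := α) G (2 ^ a)) := by
    have : Nat.card (halvingSub (α := α) G (2 ^ a)) = (halvings α (2 ^ a)).card := by
      change Nat.card {P // P ∈ halvings α (2 ^ a)} = _
      rw [Nat.card_eq_fintype_card, Fintype.card_coe]
    rw [this]
    exact not_two_dvd_card_halvings a hcard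
  obtain ⟨⟨P, hP⟩, hfix⟩ :=
    hR.nonempty_fixed_point_of_prime_not_dvd_card (halvingSub (α := α) G (2 ^ a)) hc
  obtain ⟨s, hs, rfl⟩ := Finset.mem_image.mp hP
  refine ⟨s, (Finset.mem_powersetCard.mp hs).2, ?_⟩
  intro r hr
  have := congrArg Subtype.val (hfix ⟨r, hr⟩)
  exact this

end Cfsg.Agent.Lib.Helper38
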