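import Mathlib
import Cfsg.Agent.Lib.Helper38.ImprimA

/-!
Imprimitivity of faithful irreducible modules of `p`-groups with a normal elementary abelian
subgroup of order `p ^ 2`.
-/

set_option autoImplicit false

namespace Cfsg.Agent.Lib.Helper38

open Finset Subgroup

section
variable (q : ℕ) [hq : Fact q.Prime] {V : Type*} [AddCommGroup V] [Module (ZMod q) V]
    {G : Type*} [Group G]

/-- fixed space as a submodule -/
def fixSub (ρ : G →* (V ≃ₗ[ZMod q] V)) (g : G) : Submodule (ZMod q) V where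
  carrier := {v | ρ g v = v}
  zero_mem' := map_zero _
  add_mem' := fun {a b} ha hb => by
    show ρ g (a + b) = a + b
    rw [map_add, show ρ g a = a from ha, show ρ g b = b from hb]
  smul_mem' := fun c {a} ha => by
    show ρ g (c • a) = c • a
    rw [map_smul, show ρ g a = a from ha]

theorem mem_fixSub (ρ : G →* (V ≃ₗ[ZMod q] V)) (g : G) (v : V) : v ∈ fixSub q ρ g ↔ ρ g v = v :=
  Iff.rfl

end

section
variable (q : ℕ) [hq : Fact q.Prime] {V : Type*} [AddCommGroup V] [Module (ZMod q) V] [Finite V]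
    [Nontrivial V] {G : Type*} [Group G] [Finite G] (p : ℕ) [hp : Fact p.Prime]

theorem imprimitive_of_normal_sq (hG : IsPGroup p G) (ρ : G →* (V ≃ₗ[ZMod q] V))
    (hρ : Function.Injective ρ)
    (hirr : ∀ W : Submodule (ZMod q) V, (∀ g : G, ∀ w ∈ W, ρ g w ∈ W) → W = ⊥ ∨ W = ⊤)
    (A : Subgroup G) (hAn : A.Normal) (hAexp : ∀ a ∈ A, a ^ p = 1) (hAcard : Nat.card A = p ^ 2) :
    ∃ (H : Subgroup G) (W : Fin p → Submodule (ZMod q) V), H.index = p ∧
      iSup W = ⊤ ∧ iSupIndep W ∧
      (∀ h ∈ H, ∀ i, ∀ w ∈ W i, ρ h w ∈ W i) ∧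
      (∀ i, ∃ h ∈ H, h ≠ 1 ∧ ∀ w ∈ W i, ρ h w = w) ∧
      ∀ g : G, g ∉ H → ∃ σ : Equiv.Perm (Fin p), orderOf σ = p ∧
        ∀ i, (W i).map (ρ g : V →ₗ[ZMod q] V) = W (σ i) := by
  let _ : DistribMulAction G V := DistribMulAction.compHom V ρ
  have hsmul : ∀ (g : G) (v : V), g • v = ρ g v := fun _ _ => rfl
  have hV : ∀ v : V, q • v = 0 := by
    intro v
    rw [← Nat.cast_smul_eq_nsmul (ZMod q), ZMod.natCast_self, zero_smul]
  have hρmul : ∀ (a b : G) (v : V), ρ (a * b) v = ρ a (ρ b v) := by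
    intro a b v
    rw [map_mul]; rfl
  -- central elements act fixed-point-freely
  have hcen : ∀ t ∈ center G, t ≠ 1 → ∀ v : V, ρ t v = v → v = 0 := by
    intro t ht ht1 v hv
    rcases hirr (fixSub q ρ t) (by
      intro g w hw
      show ρ t (ρ g w) = ρ g w
      have h1 : t * g = g * t := (mem_center_iff.1 ht g).symm
      rw [← hρmul, h1, hρmul, show ρ t w = w from hw]) with h | h
    · have h2 : v ∈ fixSub q ρ t := hv
      rw [h] at h2
      exact (Submodule.mem_bot _).1 h2
    · exfalso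
      apply ht1
      apply hρ
      rw [map_one]
      ext w
      have h2 : w ∈ fixSub q ρ t := h ▸ Submodule.mem_top
      exact h2
  obtain ⟨z, x, hzc, hzo, hzA, hxA, hxz, hxp, hx⟩ := exists_step_elements hG A hAexp hAcard
  have hz1 : z ≠ 1 := by
    rintro rfl
    rw [orderOf_one] at hzo
    exact hp.out.one_lt.ne hzo
  have hpq : p ≠ q := by
    intro hpq
    have hVp : IsPGroup p (Multiplicative V) := fun e => ⟨1, by
      rw [pow_one]
      exact congrArg Multiplicative.ofAdd (hpq ▸ hV e.toAdd)⟩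
    obtain ⟨k, hk⟩ := IsPGroup.iff_card.1 hVp
    have hk' : Nat.card V = p ^ k := hk
    have hk0 : k ≠ 0 := by
      rintro rfl
      rw [pow_zero] at hk'
      exact (Finite.one_lt_card_iff_nontrivial.2 inferInstance).ne' hk'
    have hdvd : p ∣ Nat.card V := hk' ▸ dvd_pow_self p hk0
    have h0 : (0 : V) ∈ MulAction.fixedPoints G V := fun g => smul_zero g
    obtain ⟨b, hb, hb0⟩ := hG.exists_fixed_point_of_prime_dvd_card_of_fixed_point V hdvd h0
    exact hb0 (hcen z hzc hz1 b (hb z)).symm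
  have hcop : p.Coprime q := (Nat.coprime_primes hp.out hq.out).2 hpq
  have hpz : ∀ v : V, p • v = 0 → v = 0 := fun v hv => eq_zero_of_coprime_nsmul hcop (hV v) hv
  have hzcard : Nat.card (zpowers z) = p := by rw [Nat.card_zpowers, hzo]
  have hzle : zpowers z ≤ center G := zpowers_le.2 hzc
  -- `x` is not central
  have hxnc : ∃ y : G, y * x ≠ x * y := by
    by_contra hcon
    push Not at hcon
    obtain ⟨v, hv⟩ := exists_ne (0 : V)
    apply hv
    apply hpz
    rw [← sum_pn_eq (p := p) hzo (mem_center_iff.1 hzc x) (fun v hv => hcen z hzc hz1 v hv) v]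
    refine Finset.sum_eq_zero (fun j _ => ?_)
    have hc1 : x * z ^ j ∈ center G :=
      mul_mem (mem_center_iff.2 hcon) (pow_mem hzc j)
    have h5 : (x * z ^ j) • pn p (x * z ^ j) v = pn p (x * z ^ j) v := by
      apply smul_pn
      have hc : Commute x (z ^ j) := mem_center_iff.1 (pow_mem hzc j) x
      rw [hc.mul_pow, hxp, one_mul, ← pow_mul, mul_comm, pow_mul, ← hzo, pow_orderOf_eq_one, one_pow]
    refine hcen _ hc1 ?_ _ h5
    intro h
    apply hxz
    rw [mul_eq_one_iff_eq_inv] at h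
    rw [h]
    exact inv_mem (pow_mem (mem_zpowers z) j)
  obtain ⟨y, hyx⟩ := hxnc
  set d := y * x * y⁻¹ * x⁻¹ with hd
  have hdz : d ∈ zpowers z := hx y
  have hdc : d ∈ center G := hzle hdz
  have hd1 : d ≠ 1 := by
    intro e
    apply hyx
    have e1 : y * x * y⁻¹ = x := mul_inv_eq_one.1 e
    exact mul_inv_eq_iff_eq_mul.1 e1
  have hdo : orderOf d = p := by
    have h1 : orderOf d ∣ p := by
      have := Subgroup.orderOf_dvd_natCard (zpowers z) hdz
      rwa [hzcard] at this
    rcases (Nat.dvd_prime hp.out).1 h1 with h | h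
    · exact absurd (orderOf_eq_one_iff.1 h) hd1
    · exact h
  have hdeq : zpowers d = zpowers z :=
    Subgroup.eq_of_le_of_card_ge (zpowers_le.2 hdz) (by rw [hzcard, Nat.card_zpowers, hdo])
  have hxd : x ∉ zpowers d := hdeq ▸ hxz
  have hdcomm : ∀ g : G, g * d = d * g := fun g => mem_center_iff.1 hdc g
  have D : StepData p (⊤ : Subgroup G) d x y d (⊤ : AddSubgroup V) :=
    { hz := hdo
      hzc := hdcomm
      hx := hxp
      hd := mem_zpowers d
      hd1 := hd1
      hconj := by rw [hdcomm x, hd]; group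
      hxH := mem_top _
      hyH := mem_top _
      hzH := mem_top _
      hW := fun _ _ _ _ => AddSubgroup.mem_top _
      hfpf := fun v _ hv => hcen d hdc hd1 v hv }
  have hpnsmul : ∀ (g : G) (c : ZMod q) (v : V), pn p g (c • v) = c • pn p g v := by
    intro g c v
    unfold pn
    rw [Finset.smul_sum]
    refine Finset.sum_congr rfl (fun i _ => ?_)
    rw [hsmul, hsmul, map_smul]
  -- conjugation formula
  have hconjg : ∀ g : G, ∃ b : ℕ, g * x * g⁻¹ = x * d ^ b := by
    intro g
    have h1 : g * x * g⁻¹ * x⁻¹ ∈ zpowers d := hdeq ▸ hx g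
    rw [← mem_powers_iff_mem_zpowers] at h1
    obtain ⟨b, hb⟩ := h1
    refine ⟨b, ?_⟩
    have hb' : d ^ b = g * x * g⁻¹ * x⁻¹ := hb
    have h2 : x * d ^ b = d ^ b * x := mem_center_iff.1 (pow_mem hdc b) x
    rw [h2, hb']; group
  refine ⟨centralizer {x}, fun i => fixSub q ρ (x * d ^ (i : ℕ)), ?_, ?_, ?_, ?_, ?_, ?_⟩
  · -- index
    let f : G →* zpowers d :=
      { toFun := fun g => ⟨g * x * g⁻¹ * x⁻¹, hdeq ▸ hx g⟩
        map_one' := by
          apply Subtype.ext
          simp
        map_mul' := by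
          intro a b
          apply Subtype.ext
          show a * b * x * (a * b)⁻¹ * x⁻¹ = (a * x * a⁻¹ * x⁻¹) * (b * x * b⁻¹ * x⁻¹)
          have hc : b * x * b⁻¹ * x⁻¹ ∈ center G := hzle (hx b)
          have h1 := mem_center_iff.1 hc a
          have h2 := mem_center_iff.1 hc (a * x * a⁻¹ * x⁻¹)
          rw [h2]
          calc a * b * x * (a * b)⁻¹ * x⁻¹ = (a * (b * x * b⁻¹ * x⁻¹)) * x * a⁻¹ * x⁻¹ := by group
            _ = ((b * x * b⁻¹ * x⁻¹) * a) * x * a⁻¹ * x⁻¹ := by rw [h1]
            _ = (b * x * b⁻¹ * x⁻¹) * (a * x * a⁻¹ * x⁻¹) := by group }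
    have hker : f.ker = centralizer {x} := by
      ext g
      rw [MonoidHom.mem_ker, mem_centralizer_singleton_iff, Subtype.ext_iff]
      show g * x * g⁻¹ * x⁻¹ = 1 ↔ g * x = x * g
      constructor
      · intro e
        have e1 : g * x * g⁻¹ = x := mul_inv_eq_one.1 e
        exact mul_inv_eq_iff_eq_mul.1 e1
      · intro e
        rw [e]; group
    have hdcard : Nat.card (zpowers d) = p := by rw [Nat.card_zpowers, hdo]
    have hrange : f.range = ⊤ := by
      have : Fact (Nat.card (zpowers d)).Prime := ⟨by rw [hdcard]; exact hp.out⟩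
      rcases Subgroup.eq_bot_or_eq_top_of_prime_card f.range with h | h
      · exfalso
        have h1 : f y ∈ f.range := ⟨y, rfl⟩
        rw [h, mem_bot, Subtype.ext_iff] at h1
        exact hd1 h1
      · exact h
    rw [← hker, Subgroup.index_ker, hrange, Subgroup.card_top, hdcard]
  · -- spanning
    rw [eq_top_iff]
    intro v _
    have h1 := sum_pn_eq (p := p) hdo (hdcomm x) (fun v hv => hcen d hdc hd1 v hv) v
    have h2 : p • v ∈ iSup (fun i : Fin p => fixSub q ρ (x * d ^ (i : ℕ))) := by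
      rw [← h1]
      refine Submodule.sum_mem _ (fun j hj => ?_)
      refine Submodule.mem_iSup_of_mem (⟨j, Finset.mem_range.1 hj⟩ : Fin p) ?_
      exact smul_pn p _ (D.xd_pow j) v
    have hp0 : (p : ZMod q) ≠ 0 := by
      intro h
      rw [ZMod.natCast_eq_zero_iff] at h
      exact hpq ((Nat.prime_dvd_prime_iff_eq hq.out hp.out).1 h).symm
    have h3 : v = (p : ZMod q)⁻¹ • (p • v) := by
      rw [← Nat.cast_smul_eq_nsmul (ZMod q), smul_smul, inv_mul_cancel₀ hp0, one_smul]
    rw [h3]
    exact Submodule.smul_mem _ _ h2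
  · -- independence
    intro i
    rw [Submodule.disjoint_def]
    intro v hv hv'
    let K : Submodule (ZMod q) V :=
      { carrier := {w | pn p (x * d ^ (i : ℕ)) w = 0}
        zero_mem' := pn_zero p _
        add_mem' := fun {a b} ha hb => by
          show pn p _ (a + b) = 0
          rw [pn_add, show pn p (x * d ^ (i : ℕ)) a = 0 from ha,
            show pn p (x * d ^ (i : ℕ)) b = 0 from hb, add_zero]
        smul_mem' := fun c {a} ha => by
          show pn p _ (c • a) = 0
          rw [hpnsmul, show pn p (x * d ^ (i : ℕ)) a = 0 from ha, smul_zero] }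
    have hle : (⨆ j, ⨆ (_ : j ≠ i), fixSub q ρ (x * d ^ (j : ℕ))) ≤ K := by
      refine iSup₂_le (fun j hj w hw => ?_)
      exact D.cross_zero j.2 i.2 (fun h => hj (Fin.ext h)) (AddSubgroup.mem_top _) hw
    have h1 : pn p (x * d ^ (i : ℕ)) v = 0 := hle hv'
    rw [pn_of_fixed p _ v (show (x * d ^ (i : ℕ)) • v = v from hv)] at h1
    exact hpz v h1
  · -- invariance
    intro h hh i w hw
    show ρ (x * d ^ (i : ℕ)) (ρ h w) = ρ h w
    have h1 : h * x = x * h := mem_centralizer_singleton_iff.1 hh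
    have h2 : h * d ^ (i : ℕ) = d ^ (i : ℕ) * h := mem_center_iff.1 (pow_mem hdc _) h
    have h3 : x * d ^ (i : ℕ) * h = h * (x * d ^ (i : ℕ)) := by
      rw [mul_assoc, ← h2, ← mul_assoc, ← h1, mul_assoc]
    rw [← hρmul, h3, hρmul, show ρ (x * d ^ (i : ℕ)) w = w from hw]
  · -- non-faithfulness
    intro i
    refine ⟨x * d ^ (i : ℕ), ?_, ?_, fun w hw => hw⟩
    · rw [mem_centralizer_singleton_iff]
      have h2 : x * d ^ (i : ℕ) = d ^ (i : ℕ) * x := mem_center_iff.1 (pow_mem hdc _) x
      rw [mul_assoc, ← h2]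
    · intro h
      apply hxd
      rw [mul_eq_one_iff_eq_inv] at h
      rw [h]
      exact inv_mem (pow_mem (mem_zpowers d) _)
  · -- permutation
    intro g hg
    obtain ⟨b, hb⟩ := hconjg g
    have : NeZero p := ⟨hp.out.ne_zero⟩
    let c : Fin p := ⟨b % p, Nat.mod_lt _ hp.out.pos⟩
    have hdc' : d ^ (c : ℕ) = d ^ b := by
      show d ^ (b % p) = d ^ b
      rw [← hdo, pow_mod_orderOf]
    have hc0 : c ≠ 0 := by
      intro h
      apply hg
      have h1 : d ^ (c : ℕ) = 1 := by rw [h]; simp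
      rw [hdc'] at h1
      rw [h1, mul_one] at hb
      rw [mem_centralizer_singleton_iff]
      exact mul_inv_eq_iff_eq_mul.1 hb
    refine ⟨Equiv.addRight c, ?_, ?_⟩
    · apply orderOf_eq_prime
      · have hpow : ∀ (k : ℕ) (i : Fin p),
            ((Equiv.addRight c : Equiv.Perm (Fin p)) ^ k) i = i + k • c := by
          intro k
          induction k with
          | zero => intro i; simp
          | succ k ih =>
            intro i
            rw [pow_succ, Equiv.Perm.mul_apply, Equiv.coe_addRight, ih, succ_nsmul, add_comm (k • c) c,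
              add_assoc]
        have hpc : p • c = 0 := by
          have := card_nsmul_eq_zero (x := c)
          rwa [Fintype.card_fin] at this
        apply Equiv.ext
        intro i
        rw [hpow, hpc, add_zero]; rfl
      · intro h
        apply hc0
        have := congrArg (fun σ : Equiv.Perm (Fin p) => σ 0) h
        simpa using this
    · intro i
      have hidx : d ^ ((Equiv.addRight c i : Fin p) : ℕ) = d ^ (i : ℕ) * d ^ b := by
        show d ^ ((i + c : Fin p) : ℕ) = _
        have h6 := pow_mod_orderOf d ((i : ℕ) + (c : ℕ))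
        rw [hdo] at h6
        rw [Fin.val_add, h6, pow_add, hdc']
      have hkey : (x * d ^ ((Equiv.addRight c i : Fin p) : ℕ)) * g = g * (x * d ^ (i : ℕ)) := by
        rw [hidx]
        have h1 : g * x = x * d ^ b * g := by rw [← hb]; group
        have h2 : g * d ^ (i : ℕ) = d ^ (i : ℕ) * g := mem_center_iff.1 (pow_mem hdc _) g
        have h3 : Commute (d ^ (i : ℕ)) (d ^ b) := (Commute.refl d).pow_pow _ _
        calc x * (d ^ (i : ℕ) * d ^ b) * g = x * d ^ b * (d ^ (i : ℕ) * g) := by
              rw [h3.eq]; group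
          _ = x * d ^ b * (g * d ^ (i : ℕ)) := by rw [h2]
          _ = (x * d ^ b * g) * d ^ (i : ℕ) := by group
          _ = g * (x * d ^ (i : ℕ)) := by rw [← h1]; group
      ext v
      rw [Submodule.mem_map]
      constructor
      · rintro ⟨w, hw, rfl⟩
        show ρ _ (ρ g w) = ρ g w
        rw [← hρmul, hkey, hρmul, show ρ (x * d ^ (i : ℕ)) w = w from hw]
      · intro hv
        refine ⟨ρ g⁻¹ v, ?_, ?_⟩
        · show ρ (x * d ^ (i : ℕ)) (ρ g⁻¹ v) = ρ g⁻¹ v
          have h4 : x * d ^ (i : ℕ) * g⁻¹ = g⁻¹ * (x * d ^ ((Equiv.addRight c i : Fin p) : ℕ)) := by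
            have : x * d ^ (i : ℕ) = g⁻¹ * ((x * d ^ ((Equiv.addRight c i : Fin p) : ℕ)) * g) := by
              rw [hkey]; group
            rw [this]; group
          rw [← hρmul, h4, hρmul,
            show ρ (x * d ^ ((Equiv.addRight c i : Fin p) : ℕ)) v = v from hv]
        · show ρ g (ρ g⁻¹ v) = v
          rw [← hρmul, mul_inv_cancel, map_one]; rfl

end

end Cfsg.Agent.Lib.Helper38
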