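import Mathlib
import Cfsg.Agent.S0016
import Cfsg.Agent.S0519
import Cfsg.Agent.Lib.Helper29.PGroupSmall
import Cfsg.Agent.Lib.Helper1.FrobComplement
import Cfsg.Agent.Lib.Helper52.FPF

/-!
A `p`-group that is not cyclic, quaternion, dihedral or semidihedral has a normal elementary abelian
subgroup of order `p ^ 2`.
-/

set_option autoImplicit false

namespace Cfsg.Agent.Lib.Helper38

open Subgroup
open scoped IsMulCommutative

/-- all abelian subgroups cyclic implies a unique subgroup of order `p` -/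
theorem unique_order_p_of_abelian_cyclic {G : Type*} [Group G] [Finite G] (p : ℕ) [hp : Fact p.Prime]
    (hG : IsPGroup p G) (key : ∀ E : Subgroup G, IsMulCommutative E → IsCyclic E) :
    ∀ A B : Subgroup G, Nat.card A = p → Nat.card B = p → A = B := by
  intro A₀ B₀ hA₀ hB₀
  have hnt : Nontrivial G := by
    by_contra h
    rw [not_nontrivial_iff_subsingleton] at h
    have : Nat.card A₀ = 1 := Nat.card_eq_one_iff_unique.2 ⟨inferInstance, ⟨1⟩⟩
    rw [hA₀] at this
    exact hp.out.one_lt.ne' this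
  have hcn := hG.center_nontrivial
  have hdvd : p ∣ Nat.card (Subgroup.center G) := by
    obtain ⟨k, hk⟩ := IsPGroup.iff_card.1 (hG.to_subgroup (Subgroup.center G))
    rw [hk]
    apply dvd_pow_self
    rintro rfl
    rw [pow_zero] at hk
    exact (Finite.one_lt_card_iff_nontrivial.2 hcn).ne' hk
  obtain ⟨z, hz⟩ := exists_prime_orderOf_dvd_card' (G := Subgroup.center G) p hdvd
  have hz' : orderOf (z : G) = p := by rw [Subgroup.orderOf_coe, hz]
  have hZcard : Nat.card (Subgroup.zpowers (z : G)) = p := by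
    rw [Nat.card_zpowers, hz']
  have claim : ∀ A : Subgroup G, Nat.card A = p → A = Subgroup.zpowers (z : G) := by
    intro A hA
    have hAc : IsCyclic A := isCyclic_of_prime_card hA
    have hEab : IsMulCommutative (A ⊔ Subgroup.zpowers (z : G) : Subgroup _) := by
      rw [Subgroup.sup_eq_closure]
      apply Subgroup.isMulCommutative_closure
      have hzc : ∀ w ∈ Subgroup.zpowers (z : G), ∀ y, y * w = w * y := by
        intro w hw y
        have : w ∈ Subgroup.center G := (Subgroup.zpowers_le.2 z.2) hw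
        exact (Subgroup.mem_center_iff.1 this) y
      rintro a (ha | ha) b (hb | hb)
      · have hAm : IsMulCommutative A := IsCyclic.isMulCommutative
        have := mul_comm' (⟨a, ha⟩ : A) ⟨b, hb⟩
        exact congrArg Subtype.val this
      · exact hzc b hb a
      · exact (hzc a ha b).symm
      · exact hzc b hb a
    have hEc := key _ hEab
    have h1 : A.subgroupOf (A ⊔ Subgroup.zpowers (z : G))
        = (Subgroup.zpowers (z : G)).subgroupOf (A ⊔ Subgroup.zpowers (z : G)) := by
      apply Cfsg.Agent.Lib.Helper1.FrobComplement.eq_of_card_eq_of_isCyclic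
      rw [Cfsg.Agent.Lib.Helper1.card_subgroupOf le_sup_left,
        Cfsg.Agent.Lib.Helper1.card_subgroupOf le_sup_right, hA, hZcard]
    rw [Subgroup.subgroupOf_inj, inf_of_le_left le_sup_left, inf_of_le_left le_sup_right] at h1
    exact h1
  rw [claim A₀ hA₀, claim B₀ hB₀]

theorem exists_normal_sq {G : Type*} [Group G] [Finite G] (p : ℕ) [hp : Fact p.Prime]
    (hG : IsPGroup p G) (hnc : ¬ IsCyclic G) (hnq : ∀ n : ℕ, ¬ Nonempty (G ≃* QuaternionGroup n))
    (hnd : ∀ n : ℕ, ¬ Nonempty (G ≃* DihedralGroup n)) (hnsd : ¬ Cfsg.IsQuasiDihedral G) :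
    ∃ A : Subgroup G, A.Normal ∧ (∀ a ∈ A, a ^ p = 1) ∧ Nat.card A = p ^ 2 := by
  by_contra hcon
  push Not at hcon
  have ha : ∀ A : Subgroup G, A.Normal → IsMulCommutative A → IsCyclic A := by
    intro A₀ hn hc
    by_contra hncyc
    obtain ⟨r, c, d, hr, hcr, hdo, hcd⟩ := Cfsg.Agent.Lib.Helper52.exists_rank_two (A := ↥A₀) hncyc
    have hrp : r = p := by
      obtain ⟨k, hk⟩ := (hG.to_subgroup A₀) d
      have h1 := orderOf_dvd_of_pow_eq_one hk
      rw [hdo] at h1
      exact (Nat.prime_dvd_prime_iff_eq hr hp.out).1 (hr.dvd_of_dvd_pow h1)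
    subst hrp
    let K : Subgroup G :=
      { carrier := {a | a ∈ A₀ ∧ a ^ r = 1}
        one_mem' := ⟨A₀.one_mem, one_pow _⟩
        mul_mem' := fun {a b} ha hb => ⟨A₀.mul_mem ha.1 hb.1, by
          have hcomm : Commute a b := congrArg Subtype.val (hc.is_comm.comm ⟨a, ha.1⟩ ⟨b, hb.1⟩)
          rw [hcomm.mul_pow, ha.2, hb.2, one_mul]⟩
        inv_mem' := fun {a} ha => ⟨A₀.inv_mem ha.1, by rw [inv_pow, ha.2, inv_one]⟩ }
    have hKn : K.Normal := ⟨fun a ha g => ⟨hn.conj_mem a ha.1 g, by
      rw [conj_pow, ha.2, mul_one, mul_inv_cancel]⟩⟩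
    have hdK : (d : G) ∈ K := ⟨d.2, by
      rw [← Subgroup.coe_pow, ← hdo, pow_orderOf_eq_one]; rfl⟩
    have hcK : (c : G) ∈ K := ⟨c.2, by rw [← Subgroup.coe_pow, hcr]; rfl⟩
    have hKcard : r < Nat.card K := by
      by_contra hle
      push Not at hle
      have h1 : zpowers (d : G) ≤ K := zpowers_le.2 hdK
      have h2 : zpowers (d : G) = K := Subgroup.eq_of_le_of_card_ge h1 (by
        rw [Nat.card_zpowers, Subgroup.orderOf_coe, hdo]; exact hle)
      apply hcd
      have h3 : (c : G) ∈ zpowers (d : G) := h2 ▸ hcK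
      obtain ⟨k, hk⟩ := h3
      exact ⟨k, Subtype.ext hk⟩
    obtain ⟨A, -, hAn, -, hAexp, hAcard⟩ :=
      Cfsg.Agent.Lib.Helper29.exists_normal_elemAb_sq hG K (fun k hk => hk.2) hKcard
    exact hcon A hAn hAexp hAcard
  by_cases hm : ∃ B : Subgroup G, IsMulCommutative B ∧ ¬ IsCyclic B
  · obtain ⟨-, h | h | h⟩ := Cfsg.Agent.S0519.result p hG ha hm
    · obtain ⟨n, hn⟩ := h
      exact hnq n hn
    · obtain ⟨n, -, hn⟩ := h
      exact hnd n hn
    · exact hnsd h
  · push Not at hm
    rcases Cfsg.Agent.S0016.result p hG (unique_order_p_of_abelian_cyclic p hG hm) with h | ⟨-, n, hn⟩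
    · exact hnc h
    · exact hnq _ hn

end Cfsg.Agent.Lib.Helper38
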