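import Mathlib

/-! Subgroups of index `n` in the symmetric group of degree `n ≠ 6`. -/

set_option autoImplicit false

namespace Cfsg.Agent.Lib.Helper38

open Equiv Equiv.Perm MulAction Subgroup
open scoped Pointwise

lemma le_choose_of_pos_of_lt (n k : ℕ) (h1 : 1 ≤ k) (h2 : k + 1 ≤ n) : n ≤ n.choose k := by
  induction n generalizing k with
  | zero => omega
  | succ n ih =>
    obtain ⟨j, rfl⟩ : ∃ j, k = j + 1 := ⟨k - 1, by omega⟩
    rw [Nat.choose_succ_succ']
    rcases Nat.eq_zero_or_pos j with rfl | hj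
    · simp
    · rcases Nat.lt_or_ge (j + 1 + 1) (n + 1) with h | h
      · have a1 := ih j hj (by omega)
        have a2 := ih (j + 1) (by omega) (by omega)
        omega
      · have : j + 1 = n := by omega
        have a1 := ih j hj (by omega)
        rw [this, Nat.choose_self]
        omega

lemma lt_choose_of_two_le (n k : ℕ) (h1 : 2 ≤ k) (h2 : k + 2 ≤ n) : n < n.choose k := by
  obtain ⟨m, rfl⟩ : ∃ m, n = m + 1 := ⟨n - 1, by omega⟩
  obtain ⟨j, rfl⟩ : ∃ j, k = j + 1 := ⟨k - 1, by omega⟩
  rw [Nat.choose_succ_succ']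
  have a1 := le_choose_of_pos_of_lt m j (by omega) (by omega)
  have a2 := le_choose_of_pos_of_lt m (j + 1) (by omega) (by omega)
  omega

lemma eq_of_le_of_index_eq {G : Type*} [Group G] {H K : Subgroup G} (hle : H ≤ K)
    (hidx : H.index = K.index) (h0 : H.index ≠ 0) : H = K := by
  have h1 := Subgroup.relIndex_mul_index hle
  rw [← hidx] at h1
  have h2 : H.relIndex K = 1 := by
    have : H.relIndex K * H.index = 1 * H.index := by rw [h1, one_mul]
    exact Nat.eq_of_mul_eq_mul_right (Nat.pos_of_ne_zero h0) this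
  exact le_antisymm hle (Subgroup.relIndex_eq_one.1 h2)

variable {Ω : Type*} [Fintype Ω] [DecidableEq Ω]

lemma index_set_stabilizer (s : Set Ω) :
    (stabilizer (Perm Ω) s).index = (Fintype.card Ω).choose s.ncard := by
  classical
  have hcard : s.toFinset.card = s.ncard := by
    rw [Set.ncard_eq_toFinset_card']
  let s' : Set.powersetCard Ω s.ncard := ⟨s.toFinset, hcard⟩
  have hs' : ((s' : Finset Ω) : Set Ω) = s := by simp [s']
  have : IsPretransitive (Perm Ω) (Set.powersetCard Ω s.ncard) := Set.powersetCard.isPretransitive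
  have h1 : (stabilizer (Perm Ω) s').index = (Fintype.card Ω).choose s.ncard := by
    rw [index_stabilizer_of_transitive, Set.powersetCard.card, Nat.card_eq_fintype_card]
  have h2 : stabilizer (Perm Ω) s' = stabilizer (Perm Ω) s := by
    rw [Set.powersetCard.stabilizer_coe]
    congr 1
  rw [← h1, h2]

lemma eq_stabilizer_of_le (H : Subgroup (Perm Ω)) (hH : H.index = Fintype.card Ω) (x : Ω)
    (hle : H ≤ stabilizer (Perm Ω) x) : H = stabilizer (Perm Ω) x := by
  have : Nonempty Ω := ⟨x⟩
  apply eq_of_le_of_index_eq hle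
  · rw [hH, index_stabilizer_of_transitive, Nat.card_eq_fintype_card]
  · rw [hH]; exact Fintype.card_ne_zero

lemma eq_stabilizer_of_not_pretransitive (H : Subgroup (Perm Ω))
    (hH : H.index = Fintype.card Ω) (hnt : ¬ IsPretransitive H Ω) :
    ∃ x : Ω, H = stabilizer (Perm Ω) x := by
  have hxy : ∃ x y : Ω, y ∉ orbit H x := by
    by_contra hcon
    push Not at hcon
    exact hnt ⟨fun x y => hcon x y⟩
  obtain ⟨x, y, hy⟩ := hxy
  set s : Set Ω := orbit H x with hs
  have hle : H ≤ stabilizer (Perm Ω) s := by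
    intro h hh
    rw [mem_stabilizer_iff]
    exact MulAction.smul_orbit (⟨h, hh⟩ : H) x
  have hdvd : (Fintype.card Ω).choose s.ncard ∣ Fintype.card Ω := by
    rw [← index_set_stabilizer, ← hH]
    exact Subgroup.index_dvd_of_le hle
  have hpos : 0 < Fintype.card Ω := Fintype.card_pos_iff.2 ⟨x⟩
  have hle' := Nat.le_of_dvd hpos hdvd
  have hk1 : 1 ≤ s.ncard := (Set.ncard_pos).2 ⟨x, mem_orbit_self x⟩
  have hk2 : 1 ≤ sᶜ.ncard := (Set.ncard_pos).2 ⟨y, hy⟩
  have hsum := Set.ncard_add_ncard_compl s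
  rw [Nat.card_eq_fintype_card] at hsum
  rcases Nat.lt_or_ge s.ncard 2 with h1 | h1
  · have h1' : s.ncard = 1 := by omega
    obtain ⟨a, ha⟩ := Set.ncard_eq_one.1 h1'
    refine ⟨a, eq_stabilizer_of_le H hH a ?_⟩
    rw [← stabilizer_singleton, ← ha]
    exact hle
  · rcases Nat.lt_or_ge sᶜ.ncard 2 with h2 | h2
    · have h2' : sᶜ.ncard = 1 := by omega
      obtain ⟨a, ha⟩ := Set.ncard_eq_one.1 h2'
      refine ⟨a, eq_stabilizer_of_le H hH a ?_⟩
      rw [← stabilizer_singleton, ← ha, stabilizer_compl]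
      exact hle
    · exact absurd hle' (not_le.2 (lt_choose_of_two_le _ _ h1 (by omega)))

/-! ### numerics -/

lemma two_pow_mul_factorial_lt (j : ℕ) (hj : 4 ≤ j) :
    2 ^ j * j.factorial < 2 * (2 * j - 2).factorial := by
  induction j, hj using Nat.le_induction with
  | base => decide
  | succ j hj ih =>
    obtain ⟨m, rfl⟩ : ∃ m, j = m + 1 := ⟨j - 1, by omega⟩
    rw [show 2 * (m + 1 + 1) - 2 = (2 * m + 1) + 1 by omega, Nat.factorial_succ (2 * m + 1),
      Nat.factorial_succ (2 * m), Nat.factorial_succ (m + 1), pow_succ]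
    rw [show 2 * (m + 1) - 2 = 2 * m by omega] at ih
    have h1 : 2 * (m + 1 + 1) ≤ (2 * m + 1 + 1) * (2 * m + 1) := by nlinarith
    calc 2 ^ (m + 1) * 2 * ((m + 1 + 1) * (m + 1).factorial)
        = (2 * (m + 1 + 1)) * (2 ^ (m + 1) * (m + 1).factorial) := by ring
      _ < (2 * (m + 1 + 1)) * (2 * (2 * m).factorial) :=
          Nat.mul_lt_mul_of_pos_left ih (by omega)
      _ ≤ ((2 * m + 1 + 1) * (2 * m + 1)) * (2 * (2 * m).factorial) := Nat.mul_le_mul_right _ h1
      _ = _ := by ring

lemma involution_centralizer_lt (n j : ℕ) (hn : 7 ≤ n) (hj : 2 ≤ j) (hjn : 2 * j ≤ n) :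
    (n - 2 * j).factorial * 2 ^ j * j.factorial < 2 * (n - 2).factorial := by
  obtain ⟨m, rfl⟩ : ∃ m, n = m + 2 * j := ⟨n - 2 * j, by omega⟩
  rw [show m + 2 * j - 2 * j = m by omega]
  rcases Nat.lt_or_ge j 4 with h | h
  · interval_cases j
    · rw [show m + 2 * 2 - 2 = (m + 1) + 1 by omega, Nat.factorial_succ, Nat.factorial_succ]
      have : 0 < m.factorial := Nat.factorial_pos m
      have h3 : 3 ≤ m := by omega
      simp only [Nat.factorial]
      nlinarith [Nat.mul_le_mul h3 h3]
    · rw [show m + 2 * 3 - 2 = (m + 1 + 1 + 1) + 1 by omega, Nat.factorial_succ,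
        Nat.factorial_succ, Nat.factorial_succ, Nat.factorial_succ]
      have : 0 < m.factorial := Nat.factorial_pos m
      have h1 : 1 ≤ m := by omega
      have h2 : 120 ≤ (m + 1 + 1 + 1 + 1) * ((m + 1 + 1 + 1) * ((m + 1 + 1) * (m + 1))) := by
        have a1 : 5 ≤ m + 1 + 1 + 1 + 1 := by omega
        have a2 : 4 ≤ m + 1 + 1 + 1 := by omega
        have a3 : 3 ≤ m + 1 + 1 := by omega
        have a4 : 2 ≤ m + 1 := by omega
        calc 120 = 5 * (4 * (3 * 2)) := by norm_num
          _ ≤ _ := Nat.mul_le_mul a1 (Nat.mul_le_mul a2 (Nat.mul_le_mul a3 a4))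
      simp only [Nat.factorial]
      nlinarith
  · have h1 := two_pow_mul_factorial_lt j h
    have h2 : m.factorial * (2 * j - 2).factorial ≤ (m + 2 * j - 2).factorial := by
      rw [show m + 2 * j - 2 = m + (2 * j - 2) by omega]
      exact Nat.le_of_dvd (Nat.factorial_pos _) (Nat.factorial_mul_factorial_dvd_factorial_add _ _)
    calc m.factorial * 2 ^ j * j.factorial = m.factorial * (2 ^ j * j.factorial) := by ring
      _ < m.factorial * (2 * (2 * j - 2).factorial) :=
          Nat.mul_lt_mul_of_pos_left h1 (Nat.factorial_pos m)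
      _ = 2 * (m.factorial * (2 * j - 2).factorial) := by ring
      _ ≤ _ := Nat.mul_le_mul_left _ h2

/-! ### swaps -/

lemma card_centralizer_replicate_two (c : Perm Ω) (j : ℕ)
    (hj : c.cycleType = Multiset.replicate (j + 1) 2) :
    Nat.card (centralizer {c}) =
      (Fintype.card Ω - 2 * (j + 1)).factorial * 2 ^ (j + 1) * (j + 1).factorial := by
  rw [Equiv.Perm.nat_card_centralizer, hj, Multiset.sum_replicate, Multiset.prod_replicate,
    Multiset.toFinset_replicate, if_neg (by omega), Finset.prod_singleton,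
    Multiset.count_replicate_self, smul_eq_mul, mul_comm (j + 1) 2]

lemma isSwap_of_mulEquiv {Ω' : Type*} [Fintype Ω'] [DecidableEq Ω']
    (hc : Fintype.card Ω' = Fintype.card Ω) (h7 : 7 ≤ Fintype.card Ω)
    (E : Perm Ω ≃* Perm Ω') (s : Perm Ω) (hs : (E s).IsSwap) : s.IsSwap := by
  have ho : orderOf s = 2 := by
    rw [← MulEquiv.orderOf_eq E s]
    exact hs.orderOf
  obtain ⟨k, hk⟩ := Equiv.Perm.cycleType_prime_order (σ := s) (by rw [ho]; exact Nat.prime_two)
  rw [ho] at hk
  have hsum := Equiv.Perm.sum_cycleType_le s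
  rw [hk, Multiset.sum_replicate, smul_eq_mul] at hsum
  have h1 := card_centralizer_replicate_two s k hk
  have h2 := card_centralizer_replicate_two (E s) 0 (isSwap_iff_cycleType.1 hs)
  have h3 : Nat.card (centralizer {s}) = Nat.card (centralizer {E s}) := by
    refine Nat.card_congr (Equiv.subtypeEquiv E.toEquiv ?_)
    intro x
    simp only [Subgroup.mem_centralizer_singleton_iff, MulEquiv.toEquiv_eq_coe,
      EquivLike.coe_coe]
    rw [← map_mul, ← map_mul, E.injective.eq_iff]
  rw [h1, h2, hc] at h3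
  rcases Nat.eq_zero_or_pos k with rfl | hkpos
  · exact isSwap_iff_cycleType.2 hk
  · exfalso
    have := involution_centralizer_lt (Fintype.card Ω) (k + 1) h7 (by omega) (by omega)
    rw [h3] at this
    simp at this
    omega

lemma IsSwap.eq_swap_of_moved {s : Perm Ω} (hs : s.IsSwap) {x y : Ω} (hx : s x ≠ x)
    (hy : s y ≠ y) (hxy : x ≠ y) : s = swap x y := by
  obtain ⟨u, v, huv, rfl⟩ := hs
  rw [swap_apply_ne_self_iff] at hx hy
  rcases hx.2 with rfl | rfl <;> rcases hy.2 with rfl | rfl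
  · exact absurd rfl hxy
  · rfl
  · exact swap_comm _ _
  · exact absurd rfl hxy

omit [Fintype Ω] in
lemma moved_of_not_commute {s : Perm Ω} {a b : Ω} (h : ¬ Commute s (swap a b)) :
    s a ≠ a ∨ s b ≠ b := by
  by_contra hcon
  push Not at hcon
  apply h
  have := mul_swap_eq_swap_mul s a b
  rw [hcon.1, hcon.2] at this
  exact this

/-- star lemma -/
lemma exists_common_moved {I : Type*} [Finite I] (hI : 4 ≤ Nat.card I) (t : I → Perm Ω)
    (hinj : Function.Injective t) (hsw : ∀ i, (t i).IsSwap)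
    (hnc : ∀ i j, i ≠ j → ¬ Commute (t i) (t j)) : ∃ x, ∀ i, t i x ≠ x := by
  by_contra hcon
  push Not at hcon
  have : Nonempty I := by
    by_contra h
    rw [not_nonempty_iff] at h
    rw [Nat.card_of_isEmpty] at hI
    omega
  obtain ⟨i₁⟩ := this
  obtain ⟨a, b, hab, h₁⟩ := hsw i₁
  obtain ⟨i₂, h₂a⟩ := hcon a
  have h12 : i₂ ≠ i₁ := by
    rintro rfl
    rw [h₁, swap_apply_left] at h₂a
    exact hab h₂a.symm
  have h₂b : t i₂ b ≠ b := by
    have := hnc i₂ i₁ h12
    rw [h₁] at this
    exact (moved_of_not_commute this).resolve_left (not_not.2 h₂a)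
  obtain ⟨i₃, h₃b⟩ := hcon b
  have h13 : i₃ ≠ i₁ := by
    rintro rfl
    rw [h₁, swap_apply_right] at h₃b
    exact hab h₃b
  have h23 : i₃ ≠ i₂ := by
    rintro rfl
    exact h₂b h₃b
  have h₃a : t i₃ a ≠ a := by
    have := hnc i₃ i₁ h13
    rw [h₁] at this
    exact (moved_of_not_commute this).resolve_right (not_not.2 h₃b)
  -- the second point moved by `t i₂`
  set c := t i₂ b with hc
  have hcb : c ≠ b := h₂b
  have hca : c ≠ a := by
    intro h
    have : t i₂ b = t i₂ a := by rw [h₂a, ← hc, h]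
    exact hab ((t i₂).injective this).symm
  have h₂c : t i₂ c ≠ c := by
    intro h
    exact hcb ((t i₂).injective h)
  have h₂ : t i₂ = swap b c := IsSwap.eq_swap_of_moved (hsw i₂) h₂b h₂c hcb.symm
  have h₃c : t i₃ c ≠ c := by
    have := hnc i₃ i₂ h23
    rw [h₂] at this
    exact (moved_of_not_commute this).resolve_left (not_not.2 h₃b)
  have h₃ : t i₃ = swap a c := IsSwap.eq_swap_of_moved (hsw i₃) h₃a h₃c hca.symm
  -- a fourth index
  obtain ⟨i₄, h₄⟩ : ∃ i₄, i₄ ∉ ({i₁, i₂, i₃} : Set I) := by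
    by_contra hall
    push Not at hall
    have h1 : (Set.univ : Set I) ⊆ {i₁, i₂, i₃} := fun i _ => hall i
    have h2 := Set.ncard_le_ncard h1 (Set.toFinite _)
    rw [Set.ncard_univ] at h2
    have h3 : ({i₁, i₂, i₃} : Set I).ncard ≤ 3 := by
      calc ({i₁, i₂, i₃} : Set I).ncard ≤ ({i₂, i₃} : Set I).ncard + 1 := Set.ncard_insert_le _ _
        _ ≤ (({i₃} : Set I).ncard + 1) + 1 := Nat.add_le_add_right (Set.ncard_insert_le _ _) 1
        _ = 3 := by simp
    omega
  simp only [Set.mem_insert_iff, Set.mem_singleton_iff, not_or] at h₄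
  obtain ⟨h41, h42, h43⟩ := h₄
  have m1 := hnc i₄ i₁ h41
  have m2 := hnc i₄ i₂ h42
  have m3 := hnc i₄ i₃ h43
  rw [h₁] at m1
  rw [h₂] at m2
  rw [h₃] at m3
  have m1 := moved_of_not_commute m1
  have m2 := moved_of_not_commute m2
  have m3 := moved_of_not_commute m3
  by_cases ha : t i₄ a = a
  · have hb := m1.resolve_left (not_not.2 ha)
    have hc' := m3.resolve_left (not_not.2 ha)
    exact h42 (hinj ((IsSwap.eq_swap_of_moved (hsw i₄) hb hc' hcb.symm).trans h₂.symm))
  · by_cases hb : t i₄ b = b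
    · have hc' := m2.resolve_left (not_not.2 hb)
      exact h43 (hinj ((IsSwap.eq_swap_of_moved (hsw i₄) ha hc' hca.symm).trans h₃.symm))
    · exact h41 (hinj ((IsSwap.eq_swap_of_moved (hsw i₄) ha hb hab).trans h₁.symm))

theorem exists_eq_stabilizer_of_seven_le (h7 : 7 ≤ Fintype.card Ω) (H : Subgroup (Perm Ω))
    (hH : H.index = Fintype.card Ω) : ∃ x : Ω, H = stabilizer (Perm Ω) x := by
  classical
  have hfin : Finite (Perm Ω ⧸ H) := inferInstance
  have := Fintype.ofFinite (Perm Ω ⧸ H)
  have hcard : Fintype.card (Perm Ω ⧸ H) = Fintype.card Ω := by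
    rw [← Nat.card_eq_fintype_card, ← hH]; rfl
  let φ := MulAction.toPermHom (Perm Ω) (Perm Ω ⧸ H)
  have hinj : Function.Injective φ := by
    rw [← MonoidHom.ker_eq_bot_iff]
    by_contra hne
    have hnt : Nontrivial φ.ker := (Subgroup.nontrivial_iff_ne_bot _).2 hne
    have h1 : alternatingGroup Ω ≤ φ.ker :=
      Equiv.Perm.alternatingGroup_le_of_normal (by rw [Nat.card_eq_fintype_card]; omega) hnt
    have h2 : φ.ker ≤ H := by
      rw [← Subgroup.normalCore_eq_ker]; exact Subgroup.normalCore_le H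
    have h3 := Subgroup.index_dvd_of_le (h1.trans h2)
    have : Nontrivial Ω := Fintype.one_lt_card_iff_nontrivial.1 (by omega)
    rw [alternatingGroup.index_eq_two, hH] at h3
    have := Nat.le_of_dvd (by norm_num) h3
    omega
  have hbij : Function.Bijective φ := by
    apply hinj.bijective_of_nat_card_le
    rw [Nat.card_perm, Nat.card_perm, Nat.card_eq_fintype_card, Nat.card_eq_fintype_card, hcard]
  let E : Perm Ω ≃* Perm (Perm Ω ⧸ H) := MulEquiv.ofBijective φ hbij
  let x₀ : Perm Ω ⧸ H := ((1 : Perm Ω) : Perm Ω ⧸ H)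
  let I := {b : Perm Ω ⧸ H // b ≠ x₀}
  let t : I → Perm Ω := fun b => E.symm (swap x₀ b.1)
  have hEt : ∀ b : I, E (t b) = swap x₀ b.1 := fun b => E.apply_symm_apply _
  have hsw : ∀ b, (t b).IsSwap := by
    intro b
    apply isSwap_of_mulEquiv hcard h7 E
    rw [hEt]
    exact ⟨x₀, b.1, b.2.symm, rfl⟩
  have htinj : Function.Injective t := by
    intro b c hbc
    have h1 : swap x₀ b.1 = swap x₀ c.1 := E.symm.injective hbc
    have h2 := congrArg (fun f : Perm (Perm Ω ⧸ H) => f x₀) h1
    simp only [swap_apply_left] at h2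
    exact Subtype.ext h2
  have hnc : ∀ b c, b ≠ c → ¬ Commute (t b) (t c) := by
    intro b c hbc hcomm
    have h1 : Commute (E (t b)) (E (t c)) := hcomm.map E
    rw [hEt, hEt] at h1
    have h2 := congrArg (fun f : Perm (Perm Ω ⧸ H) => f x₀) h1.eq
    simp only [Perm.mul_apply, swap_apply_left] at h2
    rw [swap_apply_of_ne_of_ne c.2 (fun h => hbc (Subtype.ext h.symm)),
      swap_apply_of_ne_of_ne b.2 (fun h => hbc (Subtype.ext h))] at h2
    exact hbc (Subtype.ext h2.symm)
  have hIcard : Nat.card I = Fintype.card Ω - 1 := by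
    rw [Nat.card_eq_fintype_card, Fintype.card_subtype_compl, Fintype.card_subtype_eq, hcard]
  obtain ⟨x, hx⟩ := exists_common_moved (by rw [hIcard]; omega) t htinj hsw hnc
  refine ⟨x, eq_stabilizer_of_le H hH x ?_⟩
  intro h hh
  rw [mem_stabilizer_iff]
  by_contra hne
  have hfix : φ h x₀ = x₀ := by
    have : h ∈ stabilizer (Perm Ω) x₀ := by rw [MulAction.stabilizer_quotient]; exact hh
    exact this
  -- every `t b` moves `h⁻¹ x`
  have hmoved : ∀ b : I, t b (h⁻¹ x) ≠ h⁻¹ x := by
    intro b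
    have hb' : φ h b.1 ≠ x₀ := by
      intro hb
      exact b.2 ((φ h).injective (hb.trans hfix.symm))
    have h1 : h * t b * h⁻¹ = t ⟨φ h b.1, hb'⟩ := by
      apply E.injective
      rw [hEt, map_mul, map_mul, hEt, map_inv]
      change φ h * swap x₀ b.1 * (φ h)⁻¹ = _
      rw [mul_swap_eq_swap_mul, hfix, mul_inv_cancel_right]
    have h2 := hx ⟨φ h b.1, hb'⟩
    rw [← h1] at h2
    intro h3
    apply h2
    simp only [Perm.mul_apply]
    rw [h3]
    simp
  have hxne : h⁻¹ x ≠ x := by
    intro h1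
    apply hne
    have : h (h⁻¹ x) = h x := by rw [h1]
    simpa using this.symm
  have hall : ∀ b : I, t b = swap x (h⁻¹ x) := fun b =>
    IsSwap.eq_swap_of_moved (hsw b) (hx b) (hmoved b) hxne.symm
  have hsub : Subsingleton I := ⟨fun b c => htinj ((hall b).trans (hall c).symm)⟩
  have := Finite.card_le_one_iff_subsingleton.2 hsub
  rw [hIcard] at this
  omega

theorem exists_eq_stabilizer_of_index_eq (h6 : Fintype.card Ω ≠ 6) (H : Subgroup (Perm Ω))
    (hH : H.index = Fintype.card Ω) : ∃ x : Ω, H = stabilizer (Perm Ω) x := by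
  rcases Nat.lt_or_ge (Fintype.card Ω) 7 with h | h
  · by_cases htr : IsPretransitive H Ω
    · have hne : Fintype.card Ω ≠ 0 := by
        rw [← hH]; exact Subgroup.index_ne_zero_of_finite
      obtain ⟨x⟩ : Nonempty Ω := Fintype.card_pos_iff.1 (Nat.pos_of_ne_zero hne)
      have h1 : Fintype.card Ω ∣ Nat.card H := by
        rw [← Nat.card_eq_fintype_card, ← index_stabilizer_of_transitive H x]
        exact Subgroup.index_dvd_card _
      have h2 := H.card_mul_index
      rw [hH, Nat.card_perm, Nat.card_eq_fintype_card (α := Ω)] at h2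
      by_cases h1' : Fintype.card Ω = 1
      · refine ⟨x, ?_⟩
        have : Subsingleton Ω := Fintype.card_le_one_iff_subsingleton.1 h1'.le
        exact Subsingleton.elim _ _
      · exfalso
        obtain ⟨d, hd⟩ := h1
        rw [hd] at h2
        generalize Fintype.card Ω = n at *
        interval_cases n
        · exact hne rfl
        · exact h1' rfl
        · simp only [Nat.factorial] at h2; omega
        · simp only [Nat.factorial] at h2; omega
        · simp only [Nat.factorial] at h2; omega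
        · simp only [Nat.factorial] at h2; omega
        · exact h6 rfl
    · exact eq_stabilizer_of_not_pretransitive H hH htr
  · exact exists_eq_stabilizer_of_seven_le h H hH

end Cfsg.Agent.Lib.Helper38
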