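import Cfsg.Agent.Lib.Helper38.NilpNum

/-! Bound on the order of nilpotent permutation groups. -/

namespace Cfsg.Agent.Lib.Helper38

open Subgroup MulAction
open scoped Pointwise

lemma exists_central_prime_order {G : Type*} [Group G] [Finite G] [Group.IsNilpotent G]
    (q : ℕ) [hq : Fact q.Prime] (hdvd : q ∣ Nat.card G) : ∃ z ∈ center G, orderOf z = q := by
  classical
  let Q : Sylow q G := default
  have : Nontrivial Q := (Subgroup.nontrivial_iff_ne_bot _).2 (Q.ne_bot_of_dvd_card hdvd)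
  have := Q.isPGroup'.center_nontrivial
  have hZ : IsPGroup q (center Q) := Q.isPGroup'.to_subgroup _
  obtain ⟨n, hn⟩ := IsPGroup.iff_card.1 hZ
  have hn0 : n ≠ 0 := by
    rintro rfl
    have := Finite.one_lt_card (α := center Q)
    rw [pow_zero] at hn
    omega
  have hqd : q ∣ Nat.card (center Q) := by rw [hn]; exact dvd_pow_self q hn0
  obtain ⟨x, hx⟩ := exists_prime_orderOf_dvd_card' q hqd
  refine ⟨((x : Q) : G), ?_, by rw [Subgroup.orderOf_coe, Subgroup.orderOf_coe, hx]⟩
  have hxc : ∀ y ∈ (Q : Subgroup G), y * ((x : Q) : G) = ((x : Q) : G) * y := by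
    intro y hy
    have := Subgroup.mem_center_iff.1 x.2 ⟨y, hy⟩
    exact congrArg Subtype.val this
  have hC : (centralizer {((x : Q) : G)}).index = 1 := by
    rw [Nat.eq_one_iff_not_exists_prime_dvd]
    intro r hr hrd
    have := Fact.mk hr
    by_cases hrq : r = q
    · subst hrq
      have hle : (Q : Subgroup G) ≤ centralizer {((x : Q) : G)} := by
        intro y hy
        rw [Subgroup.mem_centralizer_singleton_iff]
        exact hxc y hy
      exact Q.not_dvd_index (hrd.trans (Subgroup.index_dvd_of_le hle))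
    · let R : Sylow r G := default
      have hle : (R : Subgroup G) ≤ centralizer {((x : Q) : G)} := by
        intro y hy
        rw [Subgroup.mem_centralizer_singleton_iff]
        exact Subgroup.commute_of_normal_of_disjoint _ _ inferInstance inferInstance
          (IsPGroup.disjoint_of_ne r q hrq _ _ R.isPGroup' Q.isPGroup') y _ hy (x : Q).2
      exact R.not_dvd_index (hrd.trans (Subgroup.index_dvd_of_le hle))
  rw [Subgroup.index_eq_one] at hC
  rw [Subgroup.mem_center_iff]
  intro g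
  have : g ∈ centralizer {((x : Q) : G)} := hC ▸ Subgroup.mem_top g
  rw [Subgroup.mem_centralizer_singleton_iff] at this
  exact this

lemma card_le_of_two_actions {G β₁ β₂ : Type*} [Group G] [Finite β₁] [Finite β₂]
    [MulAction G β₁] [MulAction G β₂]
    (h : ∀ g : G, (∀ x : β₁, g • x = x) → (∀ y : β₂, g • y = y) → g = 1) :
    Nat.card G ≤ Nat.card (toPermHom G β₁).range * Nat.card (toPermHom G β₂).range := by
  rw [← Nat.card_prod]
  refine Nat.card_le_card_of_injective
    ((toPermHom G β₁).rangeRestrict.prod (toPermHom G β₂).rangeRestrict) ?_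
  rw [injective_iff_map_eq_one]
  intro g hg
  rw [MonoidHom.prod_apply, Prod.mk_eq_one] at hg
  apply h g
  · intro x
    have := congrArg (fun f : (toPermHom G β₁).range => (f : Equiv.Perm β₁) x) hg.1
    simpa using this
  · intro x
    have := congrArg (fun f : (toPermHom G β₂).range => (f : Equiv.Perm β₂) x) hg.2
    simpa using this

lemma central_eq_one_of_fix {G Ω : Type*} [Group G] [MulAction G Ω] [FaithfulSMul G Ω]
    [IsPretransitive G Ω] {z : G} (hz : z ∈ center G) (ω : Ω) (h : z • ω = ω) : z = 1 := by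
  apply FaithfulSMul.eq_of_smul_eq_smul (α := Ω)
  intro a
  obtain ⟨g, rfl⟩ := exists_smul_eq G ω a
  rw [one_smul, smul_smul, ← Subgroup.mem_center_iff.1 hz g, mul_smul, h]

lemma normal_zpowers_of_central {G : Type*} [Group G] {z : G} (hz : z ∈ center G) :
    (zpowers z).Normal := by
  refine ⟨fun n hn g => ?_⟩
  have hn' : n ∈ center G := (zpowers_le.2 hz) hn
  rw [Subgroup.mem_center_iff.1 hn' g, mul_inv_cancel_right]
  exact hn

lemma exists_zpow_smul {G Ω : Type*} [Group G] [MulAction G Ω] [IsPretransitive G Ω]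
    {z : G} (hz : z ∈ center G) (ω₀ : Ω) (g : G)
    (hg : ∀ b : orbit G (orbit (zpowers z) ω₀ : Set Ω), g • b = b) (ω : Ω) :
    ∃ u ∈ zpowers z, g • ω = u • ω := by
  obtain ⟨h, rfl⟩ := exists_smul_eq G ω₀ ω
  have h1 := congrArg Subtype.val (hg ⟨h • (orbit (zpowers z) ω₀ : Set Ω), mem_orbit _ _⟩)
  simp only [orbit.coe_smul] at h1
  have h2 : g • h • ω₀ ∈ g • h • (orbit (zpowers z) ω₀ : Set Ω) :=
    Set.smul_mem_smul_set (Set.smul_mem_smul_set (mem_orbit_self ω₀))
  rw [h1] at h2
  obtain ⟨b, ⟨u, rfl⟩, hbe⟩ := h2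
  refine ⟨u, u.2, ?_⟩
  have hu : (u : G) ∈ center G := (zpowers_le.2 hz) u.2
  simp only at hbe
  rw [← hbe, Subgroup.smul_def, smul_smul, smul_smul, Subgroup.mem_center_iff.1 hu h]

/-- The induction statement. -/
def NilpStmt (m : ℕ) : Prop :=
  ∀ (Ω : Type) [Finite Ω] (G : Type) [Group G] [MulAction G Ω] [FaithfulSMul G Ω]
    [Group.IsNilpotent G], Nat.card Ω = m → Bd m (Nat.card G)

lemma NilpStmt.range {m : ℕ} (h : NilpStmt m) (β : Type) [Finite β] (G : Type) [Group G]
    [MulAction G β] [Group.IsNilpotent G] (hβ : Nat.card β = m) :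
    Bd m (Nat.card (toPermHom G β).range) := by
  have : Group.IsNilpotent (toPermHom G β).range :=
    Group.nilpotent_of_surjective _ (toPermHom G β).rangeRestrict_surjective
  exact h β (toPermHom G β).range hβ

lemma bd_of_two_actions {m n₁ n₂ : ℕ} (IH : ∀ k < m, NilpStmt k) (G : Type) [Group G]
    [Group.IsNilpotent G] (β₁ β₂ : Type) [Finite β₁] [Finite β₂]
    [MulAction G β₁] [MulAction G β₂] (h₁ : Nat.card β₁ = n₁) (h₂ : Nat.card β₂ = n₂)
    (hn₁ : n₁ < m) (hn₂ : n₂ < m) (hs : n₁ + n₂ ≤ m)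
    (h : ∀ g : G, (∀ x : β₁, g • x = x) → (∀ y : β₂, g • y = y) → g = 1) :
    Bd m (Nat.card G) :=
  ((((IH n₁ hn₁).range β₁ G h₁).mul ((IH n₂ hn₂).range β₂ G h₂)).mono hs).of_le
    (card_le_of_two_actions h)

theorem nilpStmt (m : ℕ) : NilpStmt m := by
  induction m using Nat.strong_induction_on with
  | _ m IH =>
  intro Ω _ G _ _ _ _ hm
  have : Finite G := Finite.of_injective _ (MulAction.toPerm_injective (α := G) (β := Ω))
  by_cases hpp : ∃ p k, p.Prime ∧ Nat.card G = p ^ k
  · obtain ⟨p, k, hp, hk⟩ := hpp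
    have := Fact.mk hp
    have hdvd : Nat.card G ∣ m.factorial := by
      rw [← hm, ← Nat.card_perm]
      exact Subgroup.card_dvd_of_injective (toPermHom G Ω) MulAction.toPerm_injective
    rw [hk] at hdvd ⊢
    have := (padicValNat_dvd_iff_le (Nat.factorial_ne_zero m)).1 hdvd
    exact (Bd_prime_pow p m).of_le (Nat.pow_le_pow_right hp.pos this)
  · obtain ⟨p₁, p₂, hp₁, hp₂, hne, hd₁, hd₂⟩ : ∃ p₁ p₂, p₁.Prime ∧ p₂.Prime ∧ p₁ ≠ p₂ ∧
        p₁ ∣ Nat.card G ∧ p₂ ∣ Nat.card G := by
      by_contra hcon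
      push Not at hcon
      apply hpp
      have hc1 : Nat.card G ≠ 1 := fun h => hpp ⟨2, 0, Nat.prime_two, by simpa using h⟩
      refine ⟨(Nat.card G).minFac, _, Nat.minFac_prime hc1,
        Nat.eq_prime_pow_of_unique_prime_dvd Nat.card_pos.ne' ?_⟩
      intro d hd hdd
      by_contra hne
      exact hcon _ _ hd (Nat.minFac_prime hc1) hne hdd (Nat.minFac_dvd _)
    have := Fact.mk hp₁
    have := Fact.mk hp₂
    obtain ⟨z₁, hz₁c, hz₁o⟩ := exists_central_prime_order p₁ hd₁
    obtain ⟨z₂, hz₂c, hz₂o⟩ := exists_central_prime_order p₂ hd₂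
    by_cases htr : IsPretransitive G Ω
    · have hz₁1 : z₁ ≠ 1 := by
        rintro rfl
        rw [orderOf_one] at hz₁o
        exact hp₁.one_lt.ne hz₁o
      have hz₂1 : z₂ ≠ 1 := by
        rintro rfl
        rw [orderOf_one] at hz₂o
        exact hp₂.one_lt.ne hz₂o
      obtain ⟨ω₀⟩ : Nonempty Ω := by
        by_contra hemp
        rw [not_nonempty_iff] at hemp
        exact hz₁1 (FaithfulSMul.eq_of_smul_eq_smul (α := Ω) (fun a => hemp.elim a))
      have key : ∀ z ∈ center G, z ≠ 1 →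
          2 * Nat.card (orbit G (orbit (zpowers z) ω₀ : Set Ω)) ≤ m := by
        intro z hz hz1
        have := normal_zpowers_of_central hz
        have hB : IsBlock G (orbit (zpowers z) ω₀ : Set Ω) := IsBlock.orbit_of_normal ω₀
        have h1 := hB.ncard_block_mul_ncard_orbit_eq ⟨ω₀, mem_orbit_self ω₀⟩
        have h2 : 1 < (orbit (zpowers z) ω₀ : Set Ω).ncard := by
          rw [Set.one_lt_ncard]
          refine ⟨ω₀, mem_orbit_self ω₀, z • ω₀, ⟨⟨z, mem_zpowers z⟩, rfl⟩, ?_⟩
          intro h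
          exact hz1 (central_eq_one_of_fix hz ω₀ h.symm)
        rw [hm] at h1
        rw [Nat.card_coe_set_eq, ← h1]
        exact Nat.mul_le_mul_right _ h2
      have hmpos : 0 < m := by
        have : Nonempty Ω := ⟨ω₀⟩
        rw [← hm]; exact Nat.card_pos
      have k₁ := key z₁ hz₁c hz₁1
      have k₂ := key z₂ hz₂c hz₂1
      refine bd_of_two_actions IH G (orbit G (orbit (zpowers z₁) ω₀ : Set Ω))
        (orbit G (orbit (zpowers z₂) ω₀ : Set Ω)) rfl rfl (by omega) (by omega) (by omega) ?_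
      intro g hg₁ hg₂
      apply FaithfulSMul.eq_of_smul_eq_smul (α := Ω)
      intro ω
      obtain ⟨u, hu, hgu⟩ := exists_zpow_smul hz₁c ω₀ g hg₁ ω
      obtain ⟨v, hv, hgv⟩ := exists_zpow_smul hz₂c ω₀ g hg₂ ω
      have huc : u ∈ center G := (zpowers_le.2 hz₁c) hu
      have hvc : v ∈ center G := (zpowers_le.2 hz₂c) hv
      have h1 : v⁻¹ * u = 1 := by
        apply central_eq_one_of_fix ((center G).mul_mem ((center G).inv_mem hvc) huc) ω
        rw [mul_smul, ← hgu, hgv, inv_smul_smul]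
      have h2 : u = v := by
        rw [inv_mul_eq_one] at h1
        exact h1.symm
      have h3 : zpowers z₁ ⊓ zpowers z₂ = ⊥ := by
        rw [← disjoint_iff]
        apply Subgroup.disjoint_of_coprime_natCard
        rw [Nat.card_zpowers, Nat.card_zpowers, hz₁o, hz₂o]
        exact (Nat.coprime_primes hp₁ hp₂).2 hne
      have h4 : u ∈ zpowers z₁ ⊓ zpowers z₂ := ⟨hu, h2 ▸ hv⟩
      rw [h3, Subgroup.mem_bot] at h4
      rw [hgu, h4]
    · have hxy : ∃ x y : Ω, y ∉ orbit G x := by
        by_contra hcon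
        push Not at hcon
        exact htr ⟨fun x y => hcon x y⟩
      obtain ⟨x, y, hy⟩ := hxy
      let S₁ : SubMulAction G Ω :=
        { carrier := orbit G x
          smul_mem' := by
            rintro g _ ⟨h, rfl⟩
            exact ⟨g * h, mul_smul _ _ _⟩ }
      let S₂ : SubMulAction G Ω :=
        { carrier := (orbit G x)ᶜ
          smul_mem' := by
            rintro g a ha ⟨h, hh⟩
            exact ha ⟨g⁻¹ * h, by simp only at hh ⊢; rw [mul_smul, hh, inv_smul_smul]⟩ }
      have hc₁ : Nat.card S₁ = (orbit G x).ncard := rfl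
      have hc₂ : Nat.card S₂ = (orbit G x)ᶜ.ncard := rfl
      have hsum := Set.ncard_add_ncard_compl (orbit G x)
      rw [hm] at hsum
      have hpos₁ : 0 < (orbit G x).ncard := (Set.ncard_pos).2 ⟨x, mem_orbit_self x⟩
      have hpos₂ : 0 < (orbit G x)ᶜ.ncard := (Set.ncard_pos).2 ⟨y, hy⟩
      refine bd_of_two_actions IH G S₁ S₂ hc₁ hc₂ (by omega) (by omega) (by omega) ?_
      intro g hg₁ hg₂
      apply FaithfulSMul.eq_of_smul_eq_smul (α := Ω)
      intro ω
      rw [one_smul]
      by_cases hω : ω ∈ orbit G x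
      · exact congrArg Subtype.val (hg₁ ⟨ω, hω⟩)
      · exact congrArg Subtype.val (hg₂ ⟨ω, hω⟩)

/-- Every nilpotent subgroup of `Perm (Fin n)` has order at most `fB n`. -/
theorem card_nilpotent_le_fB (n : ℕ) (N : Subgroup (Equiv.Perm (Fin n)))
    (hN : Group.IsNilpotent N) : Nat.card N ≤ fB n :=
  (nilpStmt n (Fin n) N (by simp)).le_fB

lemma card_sylow_two_perm (n : ℕ) (P : Sylow 2 (Equiv.Perm (Fin n))) :
    Nat.card P = 2 ^ s2 n := by
  rw [Sylow.card_eq_multiplicity, Nat.card_perm, Nat.card_fin, Nat.factorization_def _ Nat.prime_two]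
  rfl

end Cfsg.Agent.Lib.Helper38
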