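import Cfsg.Agent.Lib.Helper38.NilpNum

/-! Numerical lemmas for nilpotent subgroups of alternating groups. -/

namespace Cfsg.Agent.Lib.Helper38

open Nat

lemma Bd_fB (n : ℕ) : Bd n (fB n) := by
  unfold fB
  split_ifs with h
  · exact ⟨1, by omega, by simp⟩
  · exact ⟨0, by omega, by simp⟩

lemma fB_mul_le (a b : ℕ) : fB a * fB b ≤ fB (a + b) := ((Bd_fB a).mul (Bd_fB b)).le_fB

lemma fB_mono {a b : ℕ} (h : a ≤ b) : fB a ≤ fB b := ((Bd_fB a).mono h).le_fB

lemma fB_pos (a : ℕ) : 0 < fB a := lt_of_lt_of_le (by positivity) (two_pow_s2_le_fB a)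

lemma fB_small (m : ℕ) (h : m < 32) : fB m = if m % 4 = 3 then
    3 * 2 ^ ((m - 3) / 2 + (m - 3) / 4 + (m - 3) / 8 + (m - 3) / 16)
    else 2 ^ (m / 2 + m / 4 + m / 8 + m / 16) := by
  unfold fB
  rw [s2_small m h, s2_small (m - 3) (by omega)]

/-- exceptional values -/
def eX (n : ℕ) : ℕ :=
  if n = 3 then 3 else if n = 5 then 5 else if n = 6 then 9 else if n = 9 then 81 else 1

/-- the bound for alternating groups -/
def fE (n : ℕ) : ℕ := max (fB n / 2) (eX n)

lemma le_fE_of_two_mul_le {x n : ℕ} (h : 2 * x ≤ fB n) : x ≤ fE n :=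
  le_trans (by omega) (le_max_left _ _)

lemma eX_le_fE (n : ℕ) : eX n ≤ fE n := le_max_right _ _

lemma one_le_eX (n : ℕ) : 1 ≤ eX n := by
  unfold eX; split_ifs <;> norm_num

lemma one_le_fE (n : ℕ) : 1 ≤ fE n := (one_le_eX n).trans (eX_le_fE n)

lemma eX_le_fB (n : ℕ) : eX n ≤ fB n := by
  unfold eX
  split_ifs with h1 h2 h3 h4
  · subst h1; rw [fB_small _ (by norm_num)]; norm_num
  · subst h2; rw [fB_small _ (by norm_num)]; norm_num
  · subst h3; rw [fB_small _ (by norm_num)]; norm_num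
  · subst h4; rw [fB_small _ (by norm_num)]; norm_num
  · exact fB_pos n

lemma fE_small (m : ℕ) (h : m < 32) : fE m = max ((if m % 4 = 3 then
    3 * 2 ^ ((m - 3) / 2 + (m - 3) / 4 + (m - 3) / 8 + (m - 3) / 16)
    else 2 ^ (m / 2 + m / 4 + m / 8 + m / 16)) / 2) (eX m) := by
  unfold fE
  rw [fB_small m h]

lemma two_mul_fB_le (n : ℕ) : 2 * fB n ≤ fB (n + 2) := by
  have := fB_mul_le 2 n
  rw [fB_small 2 (by norm_num), add_comm 2 n] at this
  simpa using this

lemma eX_le_fE_add (b a : ℕ) : eX b ≤ fE (b + a) := by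
  rcases Nat.lt_or_ge a 2 with h | h
  · interval_cases a
    · exact eX_le_fE b
    · by_cases hb : b = 3 ∨ b = 5 ∨ b = 6 ∨ b = 9
      · rcases hb with rfl | rfl | rfl | rfl <;>
          (rw [fE_small _ (by norm_num)]; norm_num [eX])
      · push Not at hb
        obtain ⟨h1, h2, h3, h4⟩ := hb
        have : eX b = 1 := by simp [eX, h1, h2, h3, h4]
        rw [this]; exact one_le_fE _
  · apply le_fE_of_two_mul_le
    calc 2 * eX b ≤ 2 * fB b := Nat.mul_le_mul_left _ (eX_le_fB b)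
      _ ≤ fB (b + 2) := two_mul_fB_le b
      _ ≤ fB (b + a) := fB_mono (by omega)

lemma eX_mul_eX_le (a b : ℕ) : eX a * eX b ≤ fE (a + b) := by
  by_cases ha : a = 3 ∨ a = 5 ∨ a = 6 ∨ a = 9
  · by_cases hb : b = 3 ∨ b = 5 ∨ b = 6 ∨ b = 9
    · rcases ha with rfl | rfl | rfl | rfl <;> rcases hb with rfl | rfl | rfl | rfl <;>
        (rw [fE_small _ (by norm_num)]; norm_num [eX])
    · push Not at hb
      obtain ⟨h1, h2, h3, h4⟩ := hb
      have : eX b = 1 := by simp [eX, h1, h2, h3, h4]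
      rw [this, mul_one]; exact eX_le_fE_add a b
  · push Not at ha
    obtain ⟨h1, h2, h3, h4⟩ := ha
    have : eX a = 1 := by simp [eX, h1, h2, h3, h4]
    rw [this, one_mul, add_comm]; exact eX_le_fE_add b a

lemma eX_mul_half_le (a b : ℕ) : eX a * (fB b / 2) ≤ fE (a + b) := by
  apply le_fE_of_two_mul_le
  calc 2 * (eX a * (fB b / 2)) = eX a * (2 * (fB b / 2)) := by ring
    _ ≤ fB a * fB b := Nat.mul_le_mul (eX_le_fB a) (Nat.mul_div_le _ _)
    _ ≤ _ := fB_mul_le a b

lemma fE_mul_le (a b : ℕ) : fE a * fE b ≤ fE (a + b) := by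
  unfold fE
  rcases max_choice (fB a / 2) (eX a) with h1 | h1 <;>
    rcases max_choice (fB b / 2) (eX b) with h2 | h2 <;> rw [h1, h2]
  · apply le_fE_of_two_mul_le
    calc 2 * (fB a / 2 * (fB b / 2)) = (2 * (fB a / 2)) * (fB b / 2) := by ring
      _ ≤ fB a * fB b := Nat.mul_le_mul (Nat.mul_div_le _ _) (Nat.div_le_self _ _)
      _ ≤ _ := fB_mul_le a b
  · rw [mul_comm, add_comm]; exact eX_mul_half_le b a
  · exact eX_mul_half_le a b
  · exact eX_mul_eX_le a b

lemma fE_mono {a b : ℕ} (h : a ≤ b) : fE a ≤ fE b := by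
  obtain ⟨c, rfl⟩ := Nat.exists_eq_add_of_le h
  calc fE a = fE a * 1 := (mul_one _).symm
    _ ≤ fE a * fE c := Nat.mul_le_mul_left _ (one_le_fE c)
    _ ≤ _ := fE_mul_le a c

lemma fB_mul_fB_le_fE_aux {p₁ p₂ a b m : ℕ} (hp₁ : p₁.Prime) (hp₂ : p₂.Prime) (hlt : p₁ < p₂)
    (h₁ : p₁ * a = m) (h₂ : p₂ * b = m) (hm : 0 < m) : fB a * fB b ≤ fE m := by
  have key : a + b + 2 ≤ m → fB a * fB b ≤ fE m := by
    intro h
    apply le_fE_of_two_mul_le
    calc 2 * (fB a * fB b) ≤ 2 * fB (a + b) := Nat.mul_le_mul_left _ (fB_mul_le a b)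
      _ ≤ fB (a + b + 2) := two_mul_fB_le _
      _ ≤ fB m := fB_mono h
  have h2 : 2 ≤ p₁ := hp₁.two_le
  have hb : 0 < b := by
    rcases Nat.eq_zero_or_pos b with rfl | hb
    · omega
    · exact hb
  have ha2 : 2 * a ≤ m := by rw [← h₁]; exact Nat.mul_le_mul_right _ h2
  by_cases h3 : p₂ = 3
  · have hp1 : p₁ = 2 := by omega
    subst h3 hp1
    by_cases ha : a = 3
    · have hb2 : b = 2 := by omega
      have hm6 : m = 6 := by omega
      subst ha hb2 hm6
      rw [fE_small _ (by norm_num), fB_small _ (by norm_num), fB_small _ (by norm_num)]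
      norm_num [eX]
    · exact key (by omega)
  · have h5 : 5 ≤ p₂ := by
      by_contra hcon
      have : p₂ = 4 := by omega
      subst this
      exact absurd hp₂ (by norm_num)
    have hb5 : 5 * b ≤ m := by rw [← h₂]; exact Nat.mul_le_mul_right _ h5
    exact key (by omega)

lemma fB_mul_fB_le_fE {p₁ p₂ a b m : ℕ} (hp₁ : p₁.Prime) (hp₂ : p₂.Prime) (hne : p₁ ≠ p₂)
    (h₁ : p₁ * a = m) (h₂ : p₂ * b = m) (hm : 0 < m) : fB a * fB b ≤ fE m := by
  rcases Nat.lt_or_gt_of_ne hne with h | h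
  · exact fB_mul_fB_le_fE_aux hp₁ hp₂ h h₁ h₂ hm
  · rw [mul_comm]; exact fB_mul_fB_le_fE_aux hp₂ hp₁ h h₂ h₁ hm

lemma t3_small' (m : ℕ) (h : m < 19) : padicValNat 3 m ! = m / 3 + m / 9 := by
  have := sub_one_mul_padicValNat_factorial (p := 3) m
  interval_cases m <;> norm_num at this ⊢ <;> omega

lemma two_mul_three_pow_le (k : ℕ) (h8 : 8 ≤ k) : 2 * 3 ^ k ≤ 2 ^ s2 (2 * k) := by
  induction k using Nat.strong_induction_on with
  | _ k ih =>
    rcases Nat.lt_or_ge k 12 with h | h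
    · rw [s2_small _ (by omega)]
      interval_cases k <;> norm_num
    · have h1 := ih (k - 4) (by omega) (by omega)
      have h2 := s2_add_le (2 * (k - 4)) 8
      rw [show 2 * (k - 4) + 8 = 2 * k by omega, s2_small 8 (by omega)] at h2
      have h3 : 2 ^ (s2 (2 * (k - 4)) + 7) ≤ 2 ^ s2 (2 * k) :=
        Nat.pow_le_pow_right (by norm_num) (by omega)
      have h4 : 3 ^ k = 3 ^ (k - 4) * 81 := by
        rw [show (81 : ℕ) = 3 ^ 4 by norm_num, ← pow_add]; congr 1; omega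
      rw [pow_add] at h3
      omega

lemma three_pow_le_fE (m : ℕ) : 3 ^ padicValNat 3 m ! ≤ fE m := by
  rcases Nat.lt_or_ge m 18 with h | h
  · rw [t3_small' m (by omega), fE_small m (by omega)]
    interval_cases m <;> norm_num [eX]
  · have h1 := sub_one_mul_padicValNat_factorial_lt_of_ne_zero 3 (n := m) (by omega)
    have h2 : 8 ≤ padicValNat 3 m ! := by
      have := vp_le_of_dvd 3 (factorial_ne_zero m) (Nat.factorial_dvd_factorial h)
      rw [t3_small' 18 (by omega)] at this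
      omega
    set k := padicValNat 3 m ! with hk
    apply le_fE_of_two_mul_le
    calc 2 * 3 ^ k ≤ 2 ^ s2 (2 * k) := two_mul_three_pow_le k h2
      _ ≤ 2 ^ s2 m := Nat.pow_le_pow_right (by norm_num) (s2_mono (by omega))
      _ ≤ fB m := two_pow_s2_le_fB m

lemma two_mul_succ_le_two_pow_s2 (r : ℕ) (hr : 6 ≤ r) : 2 * (r + 1) ≤ 2 ^ s2 r := by
  induction r using Nat.strong_induction_on with
  | _ r ih =>
    rcases Nat.lt_or_ge r 8 with h | h
    · rw [s2_small r (by omega)]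
      interval_cases r <;> norm_num
    · have h1 := ih (r - 2) (by omega) (by omega)
      have h2 := s2_add_le (r - 2) 2
      rw [show r - 2 + 2 = r by omega, s2_small 2 (by omega)] at h2
      have h3 : 2 ^ (s2 (r - 2) + 1) ≤ 2 ^ s2 r := Nat.pow_le_pow_right (by norm_num) (by omega)
      rw [pow_succ] at h3
      omega

lemma prime_pow_le_fE_of_seven_le (p : ℕ) [hp : Fact p.Prime] (h7 : 7 ≤ p) (m : ℕ) :
    p ^ padicValNat p m ! ≤ fE m := by
  rcases Nat.eq_zero_or_pos m with rfl | hm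
  · simpa using one_le_fE 0
  have h1 := sub_one_mul_padicValNat_factorial_lt_of_ne_zero p hm.ne'
  set k := padicValNat p m ! with hk
  rcases Nat.eq_zero_or_pos k with hk0 | hkpos
  · rw [hk0, pow_zero]; exact one_le_fE m
  have h2 : 2 * p ≤ 2 ^ s2 (p - 1) := by
    have := two_mul_succ_le_two_pow_s2 (p - 1) (by omega)
    rwa [show p - 1 + 1 = p by omega] at this
  apply le_fE_of_two_mul_le
  calc 2 * p ^ k ≤ 2 ^ k * p ^ k :=
        Nat.mul_le_mul_right _ (by simpa using Nat.pow_le_pow_right (n := 2) (by norm_num) hkpos)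
    _ = (2 * p) ^ k := (mul_pow _ _ _).symm
    _ ≤ (2 ^ s2 (p - 1)) ^ k := Nat.pow_le_pow_left h2 k
    _ = 2 ^ (k * s2 (p - 1)) := by rw [← pow_mul, mul_comm]
    _ ≤ 2 ^ s2 (k * (p - 1)) := Nat.pow_le_pow_right (by norm_num) (mul_s2_le _ _)
    _ ≤ 2 ^ s2 m := Nat.pow_le_pow_right (by norm_num) (s2_mono (by rw [mul_comm]; exact h1.le))
    _ ≤ fB m := two_pow_s2_le_fB m

lemma two_mul_five_pow_le (k : ℕ) (h2 : 2 ≤ k) : 2 * 5 ^ k ≤ 8 ^ k := by
  induction k, h2 using Nat.le_induction with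
  | base => norm_num
  | succ k _ ih => rw [pow_succ, pow_succ]; omega

lemma five_pow_le_fE (m : ℕ) : 5 ^ padicValNat 5 m ! ≤ fE m := by
  have : Fact (Nat.Prime 5) := ⟨by norm_num⟩
  rcases Nat.eq_zero_or_pos m with rfl | hm
  · simpa using one_le_fE 0
  have h1 := sub_one_mul_padicValNat_factorial_lt_of_ne_zero 5 hm.ne'
  set k := padicValNat 5 m ! with hk
  rcases Nat.lt_or_ge k 2 with hk2 | hk2
  · interval_cases k
    · simpa using one_le_fE m
    · rcases Nat.lt_or_ge m 6 with h6 | h6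
      · have : m = 5 := by omega
        subst this
        rw [fE_small _ (by norm_num)]; norm_num [eX]
      · apply le_fE_of_two_mul_le
        have h3 : s2 6 ≤ s2 m := s2_mono h6
        rw [s2_small 6 (by norm_num)] at h3
        calc 2 * 5 ^ 1 ≤ 2 ^ 4 := by norm_num
          _ ≤ 2 ^ s2 m := Nat.pow_le_pow_right (by norm_num) (by omega)
          _ ≤ fB m := two_pow_s2_le_fB m
  · apply le_fE_of_two_mul_le
    have h4 : s2 4 = 3 := by rw [s2_small 4 (by norm_num)]
    calc 2 * 5 ^ k ≤ 8 ^ k := two_mul_five_pow_le k hk2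
      _ = 2 ^ (k * s2 4) := by rw [h4, mul_comm, pow_mul]; norm_num
      _ ≤ 2 ^ s2 (k * 4) := Nat.pow_le_pow_right (by norm_num) (mul_s2_le _ _)
      _ ≤ 2 ^ s2 m := Nat.pow_le_pow_right (by norm_num) (s2_mono (by omega))
      _ ≤ fB m := two_pow_s2_le_fB m

lemma odd_prime_pow_le_fE (p : ℕ) [hp : Fact p.Prime] (h2 : p ≠ 2) (m : ℕ) :
    p ^ padicValNat p m ! ≤ fE m := by
  rcases Nat.lt_or_ge p 7 with h | h
  · have := hp.out
    interval_cases p
    · exact absurd this (by norm_num)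
    · exact absurd this (by norm_num)
    · exact absurd rfl h2
    · exact three_pow_le_fE m
    · exact absurd this (by norm_num)
    · exact five_pow_le_fE m
    · exact absurd this (by norm_num)
  · exact prime_pow_le_fE_of_seven_le p h m

end Cfsg.Agent.Lib.Helper38
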