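import Cfsg.Agent.Lib.Helper38.NilpBound
import Cfsg.Agent.Lib.Helper38.NilpNumE

/-! Bound on the order of nilpotent groups of even permutations. -/

namespace Cfsg.Agent.Lib.Helper38

open Subgroup MulAction
open scoped Pointwise

/-- instance-free sign -/
noncomputable def sgnHom (Ω : Type*) [Finite Ω] : Equiv.Perm Ω →* ℤˣ :=
  @Equiv.Perm.sign Ω (Classical.decEq Ω) (Fintype.ofFinite Ω)

lemma sgnHom_eq (Ω : Type*) [Finite Ω] [DecidableEq Ω] [Fintype Ω] :
    sgnHom Ω = Equiv.Perm.sign := by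
  unfold sgnHom
  congr <;> exact Subsingleton.elim _ _

lemma two_mul_card_dvd {G H : Type*} [Group G] [Group H] [Finite H] (φ : G →* H)
    (hφ : Function.Injective φ) (χ : H →* ℤˣ) (hχ : ∀ g, χ (φ g) = 1) (u : H) (hu : χ u ≠ 1) :
    2 * Nat.card G ∣ Nat.card H := by
  have h1 : Nat.card G = Nat.card φ.range := Nat.card_congr (MonoidHom.ofInjective hφ).toEquiv
  have h2 : φ.range ≤ χ.ker := by rintro _ ⟨g, rfl⟩; exact hχ g
  have h3 := Subgroup.card_dvd_of_le h2
  have h4 := χ.ker.card_mul_index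
  rw [Subgroup.index_ker] at h4
  have h5 : Nat.card χ.range = 2 := by
    have h6 : Nat.card χ.range ∣ 2 := by
      have := Subgroup.card_subgroup_dvd_card χ.range
      simpa using this
    have h7 : Nat.card χ.range ≠ 1 := by
      intro h
      rw [Subgroup.card_eq_one] at h
      apply hu
      have : χ u ∈ χ.range := ⟨u, rfl⟩
      rwa [h, Subgroup.mem_bot] at this
    exact ((Nat.dvd_prime Nat.prime_two).1 h6).resolve_left h7
  rw [h5] at h4
  rw [← h4, h1, mul_comm]
  exact Nat.mul_dvd_mul_right h3 2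

lemma sgn_eq_mul {G Ω : Type*} [Group G] [MulAction G Ω] [Finite Ω] (S₁ S₂ : SubMulAction G Ω)
    (hS : ∀ a, a ∈ S₂ ↔ a ∉ S₁) (g : G) :
    sgnHom Ω (toPerm g) = sgnHom S₁ (toPerm g) * sgnHom S₂ (toPerm g) := by
  classical
  have := Fintype.ofFinite Ω
  let f : S₁ ⊕ S₂ → Ω := Sum.elim (fun a => (a : Ω)) (fun a => (a : Ω))
  have hf : Function.Bijective f := by
    constructor
    · rintro (a | a) (b | b) hab
      · exact congrArg Sum.inl (Subtype.ext hab)
      · exact absurd a.2 ((hS _).1 (by have : (a : Ω) = b := hab; rw [this]; exact b.2))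
      · exact absurd b.2 ((hS _).1 (by have : (a : Ω) = b := hab; rw [← this]; exact a.2))
      · exact congrArg Sum.inr (Subtype.ext hab)
    · intro a
      by_cases ha : a ∈ S₁
      · exact ⟨Sum.inl ⟨a, ha⟩, rfl⟩
      · exact ⟨Sum.inr ⟨a, (hS a).2 ha⟩, rfl⟩
  let e := Equiv.ofBijective f hf
  have key : (toPerm g : Equiv.Perm Ω) =
      e.permCongr (Equiv.Perm.sumCongr (toPerm g : Equiv.Perm S₁) (toPerm g : Equiv.Perm S₂)) := by
    ext a
    obtain ⟨b, rfl⟩ := e.surjective a
    rw [Equiv.permCongr_apply, Equiv.symm_apply_apply]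
    rcases b with b | b <;> rfl
  rw [key, sgnHom_eq, sgnHom_eq, sgnHom_eq, Equiv.Perm.sign_permCongr, Equiv.Perm.sign_sumCongr]

lemma prod_rangeRestrict_injective {G β₁ β₂ : Type*} [Group G]
    [MulAction G β₁] [MulAction G β₂]
    (h : ∀ g : G, (∀ x : β₁, g • x = x) → (∀ y : β₂, g • y = y) → g = 1) :
    Function.Injective
      ((toPermHom G β₁).rangeRestrict.prod (toPermHom G β₂).rangeRestrict) := by
  rw [injective_iff_map_eq_one]
  intro g hg
  rw [MonoidHom.prod_apply, Prod.mk_eq_one] at hg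
  apply h g
  · intro x
    have := congrArg (fun f : (toPermHom G β₁).range => (f : Equiv.Perm β₁) x) hg.1
    simpa using this
  · intro x
    have := congrArg (fun f : (toPermHom G β₂).range => (f : Equiv.Perm β₂) x) hg.2
    simpa using this

lemma two_mul_card_le_of_two_actions {G β₁ β₂ : Type*} [Group G] [Finite β₁] [Finite β₂]
    [MulAction G β₁] [MulAction G β₂]
    (h : ∀ g : G, (∀ x : β₁, g • x = x) → (∀ y : β₂, g • y = y) → g = 1)
    (hev : ∀ g : G, sgnHom β₁ (toPerm g) * sgnHom β₂ (toPerm g) = 1)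
    (hodd : ¬ ((∀ g : G, sgnHom β₁ (toPerm g) = 1) ∧ (∀ g : G, sgnHom β₂ (toPerm g) = 1))) :
    2 * Nat.card G ≤ Nat.card (toPermHom G β₁).range * Nat.card (toPermHom G β₂).range := by
  rw [← Nat.card_prod]
  let χ : (toPermHom G β₁).range × (toPermHom G β₂).range →* ℤˣ :=
    ((sgnHom β₁).comp ((toPermHom G β₁).range.subtype.comp (MonoidHom.fst _ _))) *
    ((sgnHom β₂).comp ((toPermHom G β₂).range.subtype.comp (MonoidHom.snd _ _)))
  have hu : ∃ u, χ u ≠ 1 := by
    by_contra hcon
    push Not at hcon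
    apply hodd
    constructor
    · intro g
      have := hcon ((toPermHom G β₁).rangeRestrict g, 1)
      simpa [χ] using this
    · intro g
      have := hcon (1, (toPermHom G β₂).rangeRestrict g)
      simpa [χ] using this
  obtain ⟨u, hu⟩ := hu
  exact Nat.le_of_dvd Nat.card_pos
    (two_mul_card_dvd _ (prod_rangeRestrict_injective h) χ (fun g => hev g) u hu)

/-- The induction statement for even actions. -/
def NilpStmtE (m : ℕ) : Prop :=
  ∀ (Ω : Type) [Finite Ω] (G : Type) [Group G] [MulAction G Ω] [FaithfulSMul G Ω]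
    [Group.IsNilpotent G], Nat.card Ω = m → (∀ g : G, sgnHom Ω (toPerm g) = 1) →
    Nat.card G ≤ fE m

lemma NilpStmtE.range {m : ℕ} (h : NilpStmtE m) (β : Type) [Finite β] (G : Type) [Group G]
    [MulAction G β] [Group.IsNilpotent G] (hβ : Nat.card β = m)
    (hev : ∀ g : G, sgnHom β (toPerm g) = 1) :
    Nat.card (toPermHom G β).range ≤ fE m := by
  have : Group.IsNilpotent (toPermHom G β).range :=
    Group.nilpotent_of_surjective _ (toPermHom G β).rangeRestrict_surjective
  refine h β (toPermHom G β).range hβ ?_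
  rintro ⟨_, g, rfl⟩
  exact hev g

lemma card_range_le_fB (β : Type) [Finite β] (G : Type) [Group G]
    [MulAction G β] [Group.IsNilpotent G] :
    Nat.card (toPermHom G β).range ≤ fB (Nat.card β) :=
  ((nilpStmt _).range β G rfl).le_fB

lemma ncard_orbit_zpowers {G Ω : Type*} [Group G] [MulAction G Ω] [FaithfulSMul G Ω]
    [IsPretransitive G Ω] [Finite Ω] {z : G} (hz : z ∈ center G) {p : ℕ} (hp : p.Prime)
    (ho : orderOf z = p) (ω₀ : Ω) : (orbit (zpowers z) ω₀ : Set Ω).ncard = p := by
  have h1 : (orbit (zpowers z) ω₀ : Set Ω).ncard ∣ p := by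
    rw [← MulAction.index_stabilizer, ← ho, ← Nat.card_zpowers]
    exact Subgroup.index_dvd_card _
  have hz1 : z ≠ 1 := by
    rintro rfl
    rw [orderOf_one] at ho
    exact hp.one_lt.ne ho
  have h2 : 1 < (orbit (zpowers z) ω₀ : Set Ω).ncard := by
    rw [Set.one_lt_ncard]
    refine ⟨ω₀, mem_orbit_self ω₀, z • ω₀, ⟨⟨z, mem_zpowers z⟩, rfl⟩, ?_⟩
    intro h
    exact hz1 (central_eq_one_of_fix hz ω₀ h.symm)
  exact ((Nat.dvd_prime hp).1 h1).resolve_left h2.ne'

theorem nilpStmtE (m : ℕ) : NilpStmtE m := by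
  induction m using Nat.strong_induction_on with
  | _ m IH =>
  intro Ω _ G _ _ _ _ hm hev
  have : Finite G := Finite.of_injective _ (MulAction.toPerm_injective (α := G) (β := Ω))
  by_cases hpp : ∃ p k, p.Prime ∧ Nat.card G = p ^ k
  · obtain ⟨p, k, hp, hk⟩ := hpp
    have := Fact.mk hp
    by_cases hp2 : p = 2
    · subst hp2
      by_cases hnt : Nontrivial Ω
      · classical
        obtain ⟨a, b, hab⟩ := hnt
        have h1 := two_mul_card_dvd (toPermHom G Ω) MulAction.toPerm_injective (sgnHom Ω) hev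
          (Equiv.swap a b) (by
            have := Fintype.ofFinite Ω
            rw [sgnHom_eq, Equiv.Perm.sign_swap hab]; decide)
        rw [Nat.card_perm, hm, hk, ← pow_succ'] at h1
        have h2 := (padicValNat_dvd_iff_le (Nat.factorial_ne_zero m)).1 h1
        rw [hk]
        apply le_fE_of_two_mul_le
        rw [← pow_succ']
        exact (Nat.pow_le_pow_right (by norm_num) h2).trans (two_pow_s2_le_fB m)
      · rw [not_nontrivial_iff_subsingleton] at hnt
        have : Subsingleton G := ⟨fun a b => FaithfulSMul.eq_of_smul_eq_smul (α := Ω)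
          (fun x => Subsingleton.elim _ _)⟩
        rw [Nat.card_of_subsingleton (1 : G)]
        exact one_le_fE m
    · have hdvd : Nat.card G ∣ m.factorial := by
        rw [← hm, ← Nat.card_perm]
        exact Subgroup.card_dvd_of_injective (toPermHom G Ω) MulAction.toPerm_injective
      rw [hk] at hdvd ⊢
      have := (padicValNat_dvd_iff_le (Nat.factorial_ne_zero m)).1 hdvd
      exact (Nat.pow_le_pow_right hp.pos this).trans (odd_prime_pow_le_fE p hp2 m)
  · obtain ⟨p₁, p₂, hp₁, hp₂, hne, hd₁, hd₂⟩ : ∃ p₁ p₂, p₁.Prime ∧ p₂.Prime ∧ p₁ ≠ p₂ ∧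
        p₁ ∣ Nat.card G ∧ p₂ ∣ Nat.card G := by
      by_contra hcon
      push Not at hcon
      apply hpp
      have hc1 : Nat.card G ≠ 1 := fun h => hpp ⟨2, 0, Nat.prime_two, by simpa using h⟩
      refine ⟨(Nat.card G).minFac, _, Nat.minFac_prime hc1,
        Nat.eq_prime_pow_of_unique_prime_dvd Nat.card_pos.ne' ?_⟩
      intro d hd hdd
      by_contra hne
      exact hcon _ _ hd (Nat.minFac_prime hc1) hne hdd (Nat.minFac_dvd _)
    have := Fact.mk hp₁
    have := Fact.mk hp₂
    obtain ⟨z₁, hz₁c, hz₁o⟩ := exists_central_prime_order p₁ hd₁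
    obtain ⟨z₂, hz₂c, hz₂o⟩ := exists_central_prime_order p₂ hd₂
    by_cases htr : IsPretransitive G Ω
    · have hz₁1 : z₁ ≠ 1 := by
        rintro rfl
        rw [orderOf_one] at hz₁o
        exact hp₁.one_lt.ne hz₁o
      obtain ⟨ω₀⟩ : Nonempty Ω := by
        by_contra hemp
        rw [not_nonempty_iff] at hemp
        exact hz₁1 (FaithfulSMul.eq_of_smul_eq_smul (α := Ω) (fun a => hemp.elim a))
      have key : ∀ z ∈ center G, ∀ p : ℕ, p.Prime → orderOf z = p →
          p * Nat.card (orbit G (orbit (zpowers z) ω₀ : Set Ω)) = m := by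
        intro z hz p hp ho
        have := normal_zpowers_of_central hz
        have hB : IsBlock G (orbit (zpowers z) ω₀ : Set Ω) := IsBlock.orbit_of_normal ω₀
        have h1 := hB.ncard_block_mul_ncard_orbit_eq ⟨ω₀, mem_orbit_self ω₀⟩
        rw [hm, ncard_orbit_zpowers hz hp ho] at h1
        rw [Nat.card_coe_set_eq, h1]
      have hmpos : 0 < m := by
        have : Nonempty Ω := ⟨ω₀⟩
        rw [← hm]; exact Nat.card_pos
      have k₁ := key z₁ hz₁c p₁ hp₁ hz₁o
      have k₂ := key z₂ hz₂c p₂ hp₂ hz₂o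
      have hinj : ∀ g : G, (∀ x : orbit G (orbit (zpowers z₁) ω₀ : Set Ω), g • x = x) →
          (∀ y : orbit G (orbit (zpowers z₂) ω₀ : Set Ω), g • y = y) → g = 1 := by
        intro g hg₁ hg₂
        apply FaithfulSMul.eq_of_smul_eq_smul (α := Ω)
        intro ω
        obtain ⟨u, hu, hgu⟩ := exists_zpow_smul hz₁c ω₀ g hg₁ ω
        obtain ⟨v, hv, hgv⟩ := exists_zpow_smul hz₂c ω₀ g hg₂ ω
        have huc : u ∈ center G := (zpowers_le.2 hz₁c) hu
        have hvc : v ∈ center G := (zpowers_le.2 hz₂c) hv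
        have h1 : v⁻¹ * u = 1 := by
          apply central_eq_one_of_fix ((center G).mul_mem ((center G).inv_mem hvc) huc) ω
          rw [mul_smul, ← hgu, hgv, inv_smul_smul]
        have h2 : u = v := by
          rw [inv_mul_eq_one] at h1
          exact h1.symm
        have h3 : zpowers z₁ ⊓ zpowers z₂ = ⊥ := by
          rw [← disjoint_iff]
          apply Subgroup.disjoint_of_coprime_natCard
          rw [Nat.card_zpowers, Nat.card_zpowers, hz₁o, hz₂o]
          exact (Nat.coprime_primes hp₁ hp₂).2 hne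
        have h4 : u ∈ zpowers z₁ ⊓ zpowers z₂ := ⟨hu, h2 ▸ hv⟩
        rw [h3, Subgroup.mem_bot] at h4
        rw [hgu, h4]
      calc Nat.card G ≤ _ := card_le_of_two_actions hinj
        _ ≤ fB _ * fB _ := Nat.mul_le_mul (card_range_le_fB _ G) (card_range_le_fB _ G)
        _ ≤ fE m := fB_mul_fB_le_fE hp₁ hp₂ hne k₁ k₂ hmpos
    · have hxy : ∃ x y : Ω, y ∉ orbit G x := by
        by_contra hcon
        push Not at hcon
        exact htr ⟨fun x y => hcon x y⟩
      obtain ⟨x, y, hy⟩ := hxy
      let S₁ : SubMulAction G Ω :=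
        { carrier := orbit G x
          smul_mem' := by
            rintro g _ ⟨h, rfl⟩
            exact ⟨g * h, mul_smul _ _ _⟩ }
      let S₂ : SubMulAction G Ω :=
        { carrier := (orbit G x)ᶜ
          smul_mem' := by
            rintro g a ha ⟨h, hh⟩
            exact ha ⟨g⁻¹ * h, by simp only at hh ⊢; rw [mul_smul, hh, inv_smul_smul]⟩ }
      have hc₁ : Nat.card S₁ = (orbit G x).ncard := rfl
      have hc₂ : Nat.card S₂ = (orbit G x)ᶜ.ncard := rfl
      have hsum := Set.ncard_add_ncard_compl (orbit G x)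
      rw [hm] at hsum
      have hpos₁ : 0 < (orbit G x).ncard := (Set.ncard_pos).2 ⟨x, mem_orbit_self x⟩
      have hpos₂ : 0 < (orbit G x)ᶜ.ncard := (Set.ncard_pos).2 ⟨y, hy⟩
      have hinj : ∀ g : G, (∀ x : S₁, g • x = x) → (∀ y : S₂, g • y = y) → g = 1 := by
        intro g hg₁ hg₂
        apply FaithfulSMul.eq_of_smul_eq_smul (α := Ω)
        intro ω
        rw [one_smul]
        by_cases hω : ω ∈ orbit G x
        · exact congrArg Subtype.val (hg₁ ⟨ω, hω⟩)
        · exact congrArg Subtype.val (hg₂ ⟨ω, hω⟩)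
      have hsg : ∀ g : G, sgnHom S₁ (toPerm g) * sgnHom S₂ (toPerm g) = 1 := by
        intro g
        rw [← sgn_eq_mul S₁ S₂ (fun a => Iff.rfl) g]
        exact hev g
      by_cases hboth : (∀ g : G, sgnHom S₁ (toPerm g) = 1) ∧ (∀ g : G, sgnHom S₂ (toPerm g) = 1)
      · calc Nat.card G ≤ _ := card_le_of_two_actions hinj
          _ ≤ fE _ * fE _ := Nat.mul_le_mul
              ((IH _ (by omega)).range S₁ G hc₁ hboth.1) ((IH _ (by omega)).range S₂ G hc₂ hboth.2)
          _ ≤ fE _ := fE_mul_le _ _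
          _ = fE m := by rw [hsum]
      · apply le_fE_of_two_mul_le
        calc 2 * Nat.card G ≤ _ := two_mul_card_le_of_two_actions hinj hsg hboth
          _ ≤ fB _ * fB _ := Nat.mul_le_mul (card_range_le_fB _ G) (card_range_le_fB _ G)
          _ ≤ fB _ := fB_mul_le _ _
          _ = fB m := by rw [hc₁, hc₂, hsum]

/-- Every nilpotent subgroup of `alternatingGroup (Fin n)` has order at most `fE n`. -/
theorem card_nilpotent_le_fE (n : ℕ) (N : Subgroup (alternatingGroup (Fin n)))
    (hN : Group.IsNilpotent N) : Nat.card N ≤ fE n := by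
  refine nilpStmtE n (Fin n) N (by simp) ?_
  intro g
  rw [sgnHom_eq]
  exact Equiv.Perm.mem_alternatingGroup.1 (g : alternatingGroup (Fin n)).2

lemma two_mul_card_sylow_two_alt (n : ℕ) (h2 : 2 ≤ n) (P : Sylow 2 (alternatingGroup (Fin n))) :
    2 * Nat.card P = 2 ^ s2 n := by
  have : Nontrivial (Fin n) := Fin.nontrivial_iff_two_le.2 h2
  have h1 := two_mul_nat_card_alternatingGroup (α := Fin n)
  rw [Nat.card_perm, Nat.card_fin] at h1
  have h3 : s2 n = 1 + (Nat.card (alternatingGroup (Fin n))).factorization 2 := by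
    unfold s2
    rw [← h1, padicValNat.mul (by norm_num) Nat.card_pos.ne', padicValNat_self,
      Nat.factorization_def _ Nat.prime_two]
  rw [Sylow.card_eq_multiplicity, h3, pow_add, pow_one]

end Cfsg.Agent.Lib.Helper38
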