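import Cfsg.Agent.Lib.Helper38.NilpBound

/-! Nilpotent subgroups of maximal order in `S_n`, `n ≡ 3 mod 4`. -/

namespace Cfsg.Agent.Lib.Helper38

open Subgroup MulAction
open scoped Pointwise

lemma exists_max_nilpotent (n : ℕ) (h3 : 3 ≤ n) (P : Sylow 2 (Equiv.Perm (Fin (n - 3)))) :
    ∃ M : Subgroup (Equiv.Perm (Fin n)), Group.IsNilpotent M ∧ Nat.card M = 3 * Nat.card P ∧
      Nonempty (M ≃* (↥(P : Subgroup (Equiv.Perm (Fin (n - 3)))) × Multiplicative (ZMod 3))) := by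
  classical
  have e : Fin (n - 3) ⊕ ZMod 3 ≃ Fin n := Fintype.equivOfCardEq (by
    rw [Fintype.card_sum, Fintype.card_fin, Fintype.card_fin, ZMod.card]; omega)
  let ψ : Multiplicative (ZMod 3) →* Equiv.Perm (ZMod 3) :=
    toPermHom (Multiplicative (ZMod 3)) (ZMod 3)
  have hψ : Function.Injective ψ := by
    intro a b hab
    have := congrArg (fun f : Equiv.Perm (ZMod 3) => f 0) hab
    have h2 : a.toAdd + 0 = b.toAdd + 0 := this
    simpa using h2
  let φ : ↥(P : Subgroup (Equiv.Perm (Fin (n - 3)))) × Multiplicative (ZMod 3) →*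
      Equiv.Perm (Fin n) :=
    e.permCongrHom.toMonoidHom.comp
      ((Equiv.Perm.sumCongrHom _ _).comp ((P : Subgroup (Equiv.Perm (Fin (n - 3)))).subtype.prodMap ψ))
  have hφ : Function.Injective φ := by
    refine e.permCongrHom.injective.comp (Equiv.Perm.sumCongrHom_injective.comp ?_)
    exact Function.Injective.prodMap (Subgroup.subtype_injective _) hψ
  have E : ↥(P : Subgroup (Equiv.Perm (Fin (n - 3)))) × Multiplicative (ZMod 3) ≃* φ.range :=
    MonoidHom.ofInjective hφ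
  have : Group.IsNilpotent ↥(P : Subgroup (Equiv.Perm (Fin (n - 3)))) := P.isPGroup'.isNilpotent
  refine ⟨φ.range, Group.nilpotent_of_mulEquiv E, ?_, ⟨E.symm⟩⟩
  rw [← Nat.card_congr E.toEquiv, Nat.card_prod, mul_comm]
  congr 1
  simp

lemma exists_two_part {C : Type*} [Group C] [Finite C] (c : C) (ho : orderOf c = 3)
    (k : ℕ) (A : Subgroup C) (hcA : c ∈ A) (hA : Nat.card A = 3 * 2 ^ k) :
    ∃ Q : Subgroup C, Nat.card Q = 2 ^ k ∧ A = Q ⊔ zpowers c := by
  obtain ⟨K, hK⟩ := Sylow.exists_subgroup_card_pow_prime (G := A) 2 (n := k)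
    (by rw [hA]; exact Dvd.intro_left 3 rfl)
  refine ⟨K.map A.subtype, by rw [Subgroup.card_subtype, hK], ?_⟩
  have hle : K.map A.subtype ⊔ zpowers c ≤ A :=
    sup_le (Subgroup.map_subtype_le K) (zpowers_le.2 hcA)
  refine (Subgroup.eq_of_le_of_card_ge hle ?_).symm
  have h1 : 2 ^ k ∣ Nat.card ↥(K.map A.subtype ⊔ zpowers c) := by
    have := Subgroup.card_dvd_of_le (le_sup_left : K.map A.subtype ≤ K.map A.subtype ⊔ zpowers c)
    rwa [Subgroup.card_subtype, hK] at this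
  have h2 : 3 ∣ Nat.card ↥(K.map A.subtype ⊔ zpowers c) := by
    have := Subgroup.card_dvd_of_le (le_sup_right : zpowers c ≤ K.map A.subtype ⊔ zpowers c)
    rwa [Nat.card_zpowers, ho] at this
  have h3 : 3 * 2 ^ k ∣ Nat.card ↥(K.map A.subtype ⊔ zpowers c) :=
    Nat.Coprime.mul_dvd_of_dvd_of_dvd (Nat.Coprime.pow_right k (by norm_num)) h2 h1
  rw [hA]
  exact Nat.le_of_dvd Nat.card_pos h3

lemma conj_of_central_three {C : Type*} [Group C] [Finite C] (c : C) (hc : c ∈ center C)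
    (ho : orderOf c = 3) (k : ℕ) (hk : (Nat.card C).factorization 2 = k) (A A' : Subgroup C)
    (hcA : c ∈ A) (hcA' : c ∈ A') (hA : Nat.card A = 3 * 2 ^ k) (hA' : Nat.card A' = 3 * 2 ^ k) :
    ∃ h : C, A' = A.map (MulAut.conj h).toMonoidHom := by
  obtain ⟨Q, hQ, rfl⟩ := exists_two_part c ho k A hcA hA
  obtain ⟨Q', hQ', rfl⟩ := exists_two_part c ho k A' hcA' hA'
  let S : Sylow 2 C := Sylow.ofCard Q (by rw [hQ, hk])
  let S' : Sylow 2 C := Sylow.ofCard Q' (by rw [hQ', hk])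
  obtain ⟨h, hh⟩ := MulAction.exists_smul_eq C S S'
  refine ⟨h, ?_⟩
  have h1 : Q.map (MulAut.conj h).toMonoidHom = Q' := by
    have := congrArg (fun T : Sylow 2 C => (T : Subgroup C)) hh
    exact this
  rw [Subgroup.map_sup, h1, MonoidHom.map_zpowers]
  congr 2
  simp only [MulEquiv.coe_toMonoidHom, MulAut.conj_apply]
  rw [Subgroup.mem_center_iff.1 hc h, mul_inv_cancel_right]

lemma card_centralizer_replicate_three {n : ℕ} (c : Equiv.Perm (Fin n)) (j : ℕ)
    (hj : c.cycleType = Multiset.replicate (j + 1) 3) :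
    Nat.card (centralizer {c}) = (n - 3 * (j + 1)).factorial * 3 ^ (j + 1) * (j + 1).factorial := by
  rw [Equiv.Perm.nat_card_centralizer, hj, Multiset.sum_replicate, Multiset.prod_replicate,
    Multiset.toFinset_replicate, if_neg (by omega), Finset.prod_singleton,
    Multiset.count_replicate_self, Fintype.card_fin, smul_eq_mul, mul_comm (j + 1) 3]

lemma exists_central_threeCycle (n : ℕ) (hn : n % 4 = 3) (N : Subgroup (Equiv.Perm (Fin n)))
    (hN : Group.IsNilpotent N) (hc : Nat.card N = 3 * 2 ^ s2 (n - 3)) :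
    ∃ c ∈ N, c.IsThreeCycle ∧ N ≤ centralizer {c} := by
  have : Fact (Nat.Prime 3) := ⟨Nat.prime_three⟩
  obtain ⟨z, hz, hzo⟩ := exists_central_prime_order (G := N) 3 (by rw [hc]; exact Dvd.intro _ rfl)
  have hle : N ≤ centralizer {(z : Equiv.Perm (Fin n))} := by
    intro y hy
    rw [Subgroup.mem_centralizer_singleton_iff]
    exact congrArg Subtype.val (Subgroup.mem_center_iff.1 hz ⟨y, hy⟩)
  refine ⟨z, z.2, ?_, hle⟩
  have ho : orderOf (z : Equiv.Perm (Fin n)) = 3 := by rw [Subgroup.orderOf_coe, hzo]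
  obtain ⟨j, hj⟩ := Equiv.Perm.cycleType_prime_order (σ := (z : Equiv.Perm (Fin n)))
    (by rw [ho]; exact Nat.prime_three)
  rw [ho] at hj
  have hsum := Equiv.Perm.sum_cycleType_le (z : Equiv.Perm (Fin n))
  rw [hj, Multiset.sum_replicate, Fintype.card_fin, smul_eq_mul] at hsum
  have hdvd := Subgroup.card_dvd_of_le hle
  rw [card_centralizer_replicate_three _ j hj, hc] at hdvd
  have h2 : 2 ^ s2 (n - 3) ∣ (n - 3 * (j + 1)).factorial * (j + 1).factorial := by
    have h3 : 2 ^ s2 (n - 3) ∣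
        3 ^ (j + 1) * ((n - 3 * (j + 1)).factorial * (j + 1).factorial) := by
      refine (Dvd.intro_left 3 rfl).trans (hdvd.trans (dvd_of_eq (by ring)))
    exact (Nat.Coprime.pow _ _ (by norm_num)).dvd_of_dvd_mul_left h3
  have h4 : s2 (n - 3) ≤ s2 (n - 3 * (j + 1) + (j + 1)) :=
    (padicValNat_dvd_iff_le (Nat.factorial_ne_zero _)).1
      (h2.trans (Nat.factorial_mul_factorial_dvd_factorial_add _ _))
  rcases Nat.eq_zero_or_pos j with rfl | hjpos
  · exact hj
  · exfalso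
    obtain ⟨q, rfl⟩ : ∃ q, n = 4 * (q + 1) + 3 := ⟨n / 4 - 1, by omega⟩
    have h5 : s2 (4 * (q + 1) + 3 - 3 * (j + 1) + (j + 1)) ≤ s2 (4 * q + 3) := s2_mono (by omega)
    rw [show 4 * (q + 1) + 3 - 3 = 4 * (q + 1) by omega, s2_four_mul] at h4
    rw [s2_four_mul_add_three] at h5
    have h6 : s2 q ≤ s2 (q + 1) := s2_mono (by omega)
    omega

theorem max_nilpotent_conj (n : ℕ) (hn : n % 4 = 3) (N₁ N₂ : Subgroup (Equiv.Perm (Fin n)))
    (hN₁ : Group.IsNilpotent N₁) (hN₂ : Group.IsNilpotent N₂)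
    (hc₁ : Nat.card N₁ = 3 * 2 ^ s2 (n - 3)) (hc₂ : Nat.card N₂ = 3 * 2 ^ s2 (n - 3)) :
    ∃ g : Equiv.Perm (Fin n), N₂ = N₁.map (MulAut.conj g).toMonoidHom := by
  obtain ⟨c₁, hc₁N, h3c₁, hle₁⟩ := exists_central_threeCycle n hn N₁ hN₁ hc₁
  obtain ⟨c₂, hc₂N, h3c₂, hle₂⟩ := exists_central_threeCycle n hn N₂ hN₂ hc₂
  obtain ⟨g, hg⟩ := isConj_iff.1 (Equiv.Perm.isConj_iff_cycleType_eq.2 (h3c₁.trans h3c₂.symm))
  set N₁' := N₁.map (MulAut.conj g).toMonoidHom with hN₁'
  have hcN₁' : c₂ ∈ N₁' := ⟨c₁, hc₁N, by simpa using hg⟩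
  have hle₁' : N₁' ≤ centralizer {c₂} := by
    rintro _ ⟨y, hy, rfl⟩
    have := Subgroup.mem_centralizer_singleton_iff.1 (hle₁ hy)
    rw [Subgroup.mem_centralizer_singleton_iff, ← hg]
    simp only [MulEquiv.coe_toMonoidHom, MulAut.conj_apply]
    calc g * y * g⁻¹ * (g * c₁ * g⁻¹) = g * (y * c₁) * g⁻¹ := by group
      _ = g * (c₁ * y) * g⁻¹ := by rw [this]
      _ = _ := by group
  have hcard₁' : Nat.card N₁' = 3 * 2 ^ s2 (n - 3) := by
    rw [hN₁', Subgroup.card_map_of_injective (MulAut.conj g).injective, hc₁]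
  let C := centralizer {c₂}
  have hcC : c₂ ∈ C := Subgroup.mem_centralizer_singleton_iff.2 rfl
  have hcardC : (Nat.card C).factorization 2 = s2 (n - 3) := by
    have := card_centralizer_replicate_three c₂ 0 h3c₂
    simp only [zero_add, mul_one, pow_one, Nat.factorial_one] at this
    change (Nat.card (centralizer {c₂})).factorization 2 = _
    rw [this, Nat.factorization_mul (Nat.factorial_ne_zero _) (by norm_num), Finsupp.add_apply,
      Nat.factorization_def _ Nat.prime_two, Nat.factorization_def _ Nat.prime_two]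
    have : padicValNat 2 3 = 0 := padicValNat.eq_zero_of_not_dvd (by norm_num)
    rw [this, add_zero]
    rfl
  obtain ⟨h, hh⟩ := conj_of_central_three (C := C) ⟨c₂, hcC⟩
    (by
      rw [Subgroup.mem_center_iff]
      intro y
      exact Subtype.ext (Subgroup.mem_centralizer_singleton_iff.1 y.2))
    (by
      rw [← Subgroup.orderOf_coe]
      exact h3c₂.orderOf)
    (s2 (n - 3)) hcardC (N₁'.subgroupOf C) (N₂.subgroupOf C)
    (Subgroup.mem_subgroupOf.2 hcN₁') (Subgroup.mem_subgroupOf.2 hc₂N)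
    (by rw [← hcard₁']; exact Nat.card_congr (Subgroup.subgroupOfEquivOfLe hle₁').toEquiv)
    (by rw [← hc₂]; exact Nat.card_congr (Subgroup.subgroupOfEquivOfLe hle₂).toEquiv)
  refine ⟨(h : Equiv.Perm (Fin n)) * g, ?_⟩
  have h1 := congrArg (fun T => Subgroup.map C.subtype T) hh
  rw [Subgroup.map_subgroupOf_eq_of_le hle₂, Subgroup.map_map] at h1
  rw [h1]
  have h2 : C.subtype.comp (MulAut.conj h).toMonoidHom =
      (MulAut.conj (h : Equiv.Perm (Fin n))).toMonoidHom.comp C.subtype := by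
    ext y
    simp
  rw [h2, ← Subgroup.map_map, Subgroup.map_subgroupOf_eq_of_le hle₁', hN₁', Subgroup.map_map]
  congr 1

end Cfsg.Agent.Lib.Helper38
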