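import Cfsg.Agent.Lib.Helper38.NilpBoundE
import Cfsg.Agent.Lib.Helper38.NilpMax

/-! Nilpotent subgroups of maximal order in `A_n`, `n ≡ 3 mod 4`. -/

namespace Cfsg.Agent.Lib.Helper38

open Subgroup MulAction
open scoped Pointwise

lemma exists_max_nilpotent_alt (n : ℕ) (h3 : 3 ≤ n)
    (P : Sylow 2 (alternatingGroup (Fin (n - 3)))) :
    ∃ M : Subgroup (alternatingGroup (Fin n)), Group.IsNilpotent M ∧
      Nat.card M = 3 * Nat.card P ∧
      Nonempty (M ≃* (↥(P : Subgroup (alternatingGroup (Fin (n - 3)))) ×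
        Multiplicative (ZMod 3))) := by
  classical
  have e : Fin (n - 3) ⊕ ZMod 3 ≃ Fin n := Fintype.equivOfCardEq (by
    rw [Fintype.card_sum, Fintype.card_fin, Fintype.card_fin, ZMod.card]; omega)
  let ψ : Multiplicative (ZMod 3) →* Equiv.Perm (ZMod 3) :=
    toPermHom (Multiplicative (ZMod 3)) (ZMod 3)
  have hψ : Function.Injective ψ := by
    intro a b hab
    have := congrArg (fun f : Equiv.Perm (ZMod 3) => f 0) hab
    have h2 : a.toAdd + 0 = b.toAdd + 0 := this
    simpa using h2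
  have hψs : ∀ c, Equiv.Perm.sign (ψ c) = 1 := by
    intro c
    have h1 : c ^ 3 = 1 := by
      have := pow_card_eq_one' (x := c)
      simpa using this
    have h2 : (Equiv.Perm.sign (ψ c)) ^ 3 = 1 := by
      rw [← map_pow, ← map_pow, h1, map_one, map_one]
    rcases Int.units_eq_one_or (Equiv.Perm.sign (ψ c)) with h | h
    · exact h
    · rw [h] at h2; exact absurd h2 (by decide)
  let φ₀ : ↥(P : Subgroup (alternatingGroup (Fin (n - 3)))) × Multiplicative (ZMod 3) →*
      Equiv.Perm (Fin n) :=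
    e.permCongrHom.toMonoidHom.comp
      ((Equiv.Perm.sumCongrHom _ _).comp
        (((alternatingGroup (Fin (n - 3))).subtype.comp
          (P : Subgroup (alternatingGroup (Fin (n - 3)))).subtype).prodMap ψ))
  have hφ₀ : Function.Injective φ₀ := by
    refine e.permCongrHom.injective.comp (Equiv.Perm.sumCongrHom_injective.comp ?_)
    exact Function.Injective.prodMap
      ((Subgroup.subtype_injective _).comp (Subgroup.subtype_injective _)) hψ
  have hmem : ∀ x, φ₀ x ∈ alternatingGroup (Fin n) := by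
    rintro ⟨a, c⟩
    rw [Equiv.Perm.mem_alternatingGroup]
    change Equiv.Perm.sign (e.permCongr (Equiv.Perm.sumCongr
      ((a : alternatingGroup (Fin (n - 3))) : Equiv.Perm (Fin (n - 3))) (ψ c))) = 1
    rw [Equiv.Perm.sign_permCongr, Equiv.Perm.sign_sumCongr, hψs, mul_one]
    exact Equiv.Perm.mem_alternatingGroup.1 (a : alternatingGroup (Fin (n - 3))).2
  let φ := φ₀.codRestrict (alternatingGroup (Fin n)) hmem
  have hφ : Function.Injective φ := by
    intro x y hxy
    exact hφ₀ (congrArg Subtype.val hxy)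
  have E : ↥(P : Subgroup (alternatingGroup (Fin (n - 3)))) × Multiplicative (ZMod 3) ≃*
      φ.range := MonoidHom.ofInjective hφ
  have : Group.IsNilpotent ↥(P : Subgroup (alternatingGroup (Fin (n - 3)))) :=
    P.isPGroup'.isNilpotent
  refine ⟨φ.range, Group.nilpotent_of_mulEquiv E, ?_, ⟨E.symm⟩⟩
  rw [← Nat.card_congr E.toEquiv, Nat.card_prod, mul_comm]
  congr 1
  simp

lemma exists_central_threeCycle' (n : ℕ) (hn : n % 4 = 3) (N : Subgroup (Equiv.Perm (Fin n)))
    (hN : Group.IsNilpotent N) (k : ℕ) (hk : s2 (n - 3) ≤ k + 1) (hc : Nat.card N = 3 * 2 ^ k) :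
    ∃ c ∈ N, c.IsThreeCycle ∧ N ≤ centralizer {c} := by
  have : Fact (Nat.Prime 3) := ⟨Nat.prime_three⟩
  obtain ⟨z, hz, hzo⟩ := exists_central_prime_order (G := N) 3 (by rw [hc]; exact Dvd.intro _ rfl)
  have hle : N ≤ centralizer {(z : Equiv.Perm (Fin n))} := by
    intro y hy
    rw [Subgroup.mem_centralizer_singleton_iff]
    exact congrArg Subtype.val (Subgroup.mem_center_iff.1 hz ⟨y, hy⟩)
  refine ⟨z, z.2, ?_, hle⟩
  have ho : orderOf (z : Equiv.Perm (Fin n)) = 3 := by rw [Subgroup.orderOf_coe, hzo]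
  obtain ⟨j, hj⟩ := Equiv.Perm.cycleType_prime_order (σ := (z : Equiv.Perm (Fin n)))
    (by rw [ho]; exact Nat.prime_three)
  rw [ho] at hj
  have hsum := Equiv.Perm.sum_cycleType_le (z : Equiv.Perm (Fin n))
  rw [hj, Multiset.sum_replicate, Fintype.card_fin, smul_eq_mul] at hsum
  have hdvd := Subgroup.card_dvd_of_le hle
  rw [card_centralizer_replicate_three _ j hj, hc] at hdvd
  have h2 : 2 ^ k ∣ (n - 3 * (j + 1)).factorial * (j + 1).factorial := by
    have h3 : 2 ^ k ∣
        3 ^ (j + 1) * ((n - 3 * (j + 1)).factorial * (j + 1).factorial) := by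
      refine (Dvd.intro_left 3 rfl).trans (hdvd.trans (dvd_of_eq (by ring)))
    exact (Nat.Coprime.pow _ _ (by norm_num)).dvd_of_dvd_mul_left h3
  have h4 : k ≤ s2 (n - 3 * (j + 1) + (j + 1)) :=
    (padicValNat_dvd_iff_le (Nat.factorial_ne_zero _)).1
      (h2.trans (Nat.factorial_mul_factorial_dvd_factorial_add _ _))
  rcases Nat.eq_zero_or_pos j with rfl | hjpos
  · exact hj
  · exfalso
    obtain ⟨q, rfl⟩ : ∃ q, n = 4 * (q + 1) + 3 := ⟨n / 4 - 1, by omega⟩
    have h5 : s2 (4 * (q + 1) + 3 - 3 * (j + 1) + (j + 1)) ≤ s2 (4 * q + 3) := s2_mono (by omega)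
    rw [show 4 * (q + 1) + 3 - 3 = 4 * (q + 1) by omega, s2_four_mul] at hk
    rw [s2_four_mul_add_three] at h5
    have h6 : s2 q ≤ s2 (q + 1) := s2_mono (by omega)
    omega

lemma conj_of_conj_central {Γ : Type*} [Group Γ] [Finite Γ] (N₁ N₂ : Subgroup Γ) (c₁ c₂ : Γ)
    (hc₁N : c₁ ∈ N₁) (hc₂N : c₂ ∈ N₂) (hle₁ : N₁ ≤ centralizer {c₁})
    (hle₂ : N₂ ≤ centralizer {c₂}) (hconj : IsConj c₁ c₂) (ho : orderOf c₂ = 3) (k : ℕ)
    (hc₁ : Nat.card N₁ = 3 * 2 ^ k) (hc₂ : Nat.card N₂ = 3 * 2 ^ k)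
    (hcardC : (Nat.card (centralizer {c₂} : Subgroup Γ)).factorization 2 = k) :
    ∃ g : Γ, N₂ = N₁.map (MulAut.conj g).toMonoidHom := by
  obtain ⟨g, hg⟩ := isConj_iff.1 hconj
  set N₁' := N₁.map (MulAut.conj g).toMonoidHom with hN₁'
  have hcN₁' : c₂ ∈ N₁' := ⟨c₁, hc₁N, by simpa using hg⟩
  have hle₁' : N₁' ≤ centralizer {c₂} := by
    rintro _ ⟨y, hy, rfl⟩
    have := Subgroup.mem_centralizer_singleton_iff.1 (hle₁ hy)
    rw [Subgroup.mem_centralizer_singleton_iff, ← hg]
    simp only [MulEquiv.coe_toMonoidHom, MulAut.conj_apply]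
    calc g * y * g⁻¹ * (g * c₁ * g⁻¹) = g * (y * c₁) * g⁻¹ := by group
      _ = g * (c₁ * y) * g⁻¹ := by rw [this]
      _ = _ := by group
  have hcard₁' : Nat.card N₁' = 3 * 2 ^ k := by
    rw [hN₁', Subgroup.card_map_of_injective (MulAut.conj g).injective, hc₁]
  let C : Subgroup Γ := centralizer {c₂}
  have hcC : c₂ ∈ C := Subgroup.mem_centralizer_singleton_iff.2 rfl
  obtain ⟨h, hh⟩ := conj_of_central_three (C := C) ⟨c₂, hcC⟩
    (by
      rw [Subgroup.mem_center_iff]
      intro y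
      exact Subtype.ext (Subgroup.mem_centralizer_singleton_iff.1 y.2))
    (by
      rw [← Subgroup.orderOf_coe]
      exact ho)
    k hcardC (N₁'.subgroupOf C) (N₂.subgroupOf C)
    (Subgroup.mem_subgroupOf.2 hcN₁') (Subgroup.mem_subgroupOf.2 hc₂N)
    (by rw [← hcard₁']; exact Nat.card_congr (Subgroup.subgroupOfEquivOfLe hle₁').toEquiv)
    (by rw [← hc₂]; exact Nat.card_congr (Subgroup.subgroupOfEquivOfLe hle₂).toEquiv)
  refine ⟨(h : Γ) * g, ?_⟩
  have h1 := congrArg (fun T => Subgroup.map C.subtype T) hh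
  rw [Subgroup.map_subgroupOf_eq_of_le hle₂, Subgroup.map_map] at h1
  rw [h1]
  have h2 : C.subtype.comp (MulAut.conj h).toMonoidHom =
      (MulAut.conj (h : Γ)).toMonoidHom.comp C.subtype := by
    ext y
    simp
  rw [h2, ← Subgroup.map_map, Subgroup.map_subgroupOf_eq_of_le hle₁', hN₁', Subgroup.map_map]
  congr 1
  ext y
  simp [mul_assoc]

lemma two_mul_card_centralizer_alt_dvd (n : ℕ) (h5 : 5 ≤ n) (c : alternatingGroup (Fin n))
    (hc : (c : Equiv.Perm (Fin n)).IsThreeCycle) :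
    2 * Nat.card (centralizer {c} : Subgroup (alternatingGroup (Fin n))) ∣
      (n - 3).factorial * 3 := by
  have h0 := card_centralizer_replicate_three (c : Equiv.Perm (Fin n)) 0 hc
  simp only [zero_add, mul_one, pow_one, Nat.factorial_one] at h0
  rw [← h0]
  have hsupp : 1 < ((c : Equiv.Perm (Fin n)).supportᶜ).card := by
    rw [Finset.card_compl, hc.card_support, Fintype.card_fin]; omega
  obtain ⟨a, ha, b, hb, hab⟩ := Finset.one_lt_card.1 hsupp
  rw [Finset.mem_compl, Equiv.Perm.notMem_support] at ha hb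
  have hcomm : Equiv.swap a b ∈ centralizer {(c : Equiv.Perm (Fin n))} := by
    rw [Subgroup.mem_centralizer_singleton_iff]
    apply Equiv.Perm.Disjoint.commute
    intro x
    by_cases hxa : x = a
    · right; rw [hxa]; exact ha
    · by_cases hxb : x = b
      · right; rw [hxb]; exact hb
      · left; exact Equiv.swap_apply_of_ne_of_ne hxa hxb
  let φ : (centralizer {c} : Subgroup (alternatingGroup (Fin n))) →*
      (centralizer {(c : Equiv.Perm (Fin n))} : Subgroup (Equiv.Perm (Fin n))) :=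
    ((alternatingGroup (Fin n)).subtype.comp
      (centralizer {c} : Subgroup (alternatingGroup (Fin n))).subtype).codRestrict _ (by
        intro x
        rw [Subgroup.mem_centralizer_singleton_iff]
        exact congrArg Subtype.val (Subgroup.mem_centralizer_singleton_iff.1 x.2))
  refine two_mul_card_dvd φ ?_
    (Equiv.Perm.sign.comp (centralizer {(c : Equiv.Perm (Fin n))}).subtype) ?_
    ⟨Equiv.swap a b, hcomm⟩ ?_
  · intro x y hxy
    have h1 : ((φ x : Equiv.Perm (Fin n))) = φ y := congrArg Subtype.val hxy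
    exact Subtype.ext (Subtype.ext h1)
  · intro x
    exact Equiv.Perm.mem_alternatingGroup.1 (x : alternatingGroup (Fin n)).2
  · change Equiv.Perm.sign (Equiv.swap a b) ≠ 1
    rw [Equiv.Perm.sign_swap hab]; decide

theorem max_nilpotent_alt_conj (n : ℕ) (hn : n % 4 = 3) (h7 : 7 ≤ n) (k : ℕ)
    (hk : s2 (n - 3) = k + 1) (N₁ N₂ : Subgroup (alternatingGroup (Fin n)))
    (hN₁ : Group.IsNilpotent N₁) (hN₂ : Group.IsNilpotent N₂)
    (hc₁ : Nat.card N₁ = 3 * 2 ^ k) (hc₂ : Nat.card N₂ = 3 * 2 ^ k) :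
    ∃ g : alternatingGroup (Fin n), N₂ = N₁.map (MulAut.conj g).toMonoidHom := by
  have key : ∀ N : Subgroup (alternatingGroup (Fin n)), Group.IsNilpotent N →
      Nat.card N = 3 * 2 ^ k → ∃ c ∈ N, (c : Equiv.Perm (Fin n)).IsThreeCycle ∧
        N ≤ centralizer {c} := by
    intro N hN hc
    have hinj := (alternatingGroup (Fin n)).subtype_injective
    have hN' : Group.IsNilpotent (N.map (alternatingGroup (Fin n)).subtype) :=
      Group.nilpotent_of_mulEquiv (N.equivMapOfInjective _ hinj)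
    obtain ⟨c', ⟨c, hcN, rfl⟩, h3, hle⟩ := exists_central_threeCycle' n hn
      (N.map (alternatingGroup (Fin n)).subtype) hN' k hk.le
      (by rw [Subgroup.card_map_of_injective hinj, hc])
    refine ⟨c, hcN, h3, ?_⟩
    intro y hy
    rw [Subgroup.mem_centralizer_singleton_iff]
    exact Subtype.ext (Subgroup.mem_centralizer_singleton_iff.1 (hle ⟨y, hy, rfl⟩))
  obtain ⟨c₁, hc₁N, h3c₁, hle₁⟩ := key N₁ hN₁ hc₁
  obtain ⟨c₂, hc₂N, h3c₂, hle₂⟩ := key N₂ hN₂ hc₂
  refine conj_of_conj_central N₁ N₂ c₁ c₂ hc₁N hc₂N hle₁ hle₂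
    (alternatingGroup.isThreeCycle_isConj (by simp; omega) h3c₁ h3c₂)
    (by rw [← Subgroup.orderOf_coe]; exact h3c₂.orderOf) k hc₁ hc₂ ?_
  have hpos : Nat.card (centralizer {c₂} : Subgroup (alternatingGroup (Fin n))) ≠ 0 :=
    Nat.card_pos.ne'
  rw [Nat.factorization_def _ Nat.prime_two]
  apply le_antisymm
  · have h1 := two_mul_card_centralizer_alt_dvd n (by omega) c₂ h3c₂
    have h2 : 2 ^ (padicValNat 2 (Nat.card (centralizer {c₂} :
        Subgroup (alternatingGroup (Fin n)))) + 1) ∣ (n - 3).factorial * 3 := by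
      rw [pow_succ']
      exact (Nat.mul_dvd_mul_left 2 pow_padicValNat_dvd).trans h1
    have h3 := (Nat.Coprime.pow_left _ (by norm_num : Nat.Coprime 2 3)).dvd_of_dvd_mul_right h2
    have h4 := (padicValNat_dvd_iff_le (Nat.factorial_ne_zero _)).1 h3
    change _ ≤ s2 (n - 3) at h4
    omega
  · rw [← padicValNat_dvd_iff_le hpos]
    have := Subgroup.card_dvd_of_le hle₂
    rw [hc₂] at this
    exact (Dvd.intro_left 3 rfl).trans this

end Cfsg.Agent.Lib.Helper38
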