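import Mathlib

/-! Numerical lemmas for the bound on the order of nilpotent subgroups of symmetric groups. -/

namespace Cfsg.Agent.Lib.Helper38

open Nat

/-- 2-adic valuation of `n!`. -/
def s2 (n : ℕ) : ℕ := padicValNat 2 n.factorial

lemma s2_two_mul (k : ℕ) : s2 (2 * k) = k + s2 k := by
  unfold s2; rw [padicValNat_factorial_mul]; ring

lemma s2_two_mul_add_one (k : ℕ) : s2 (2 * k + 1) = k + s2 k := by
  unfold s2
  rw [padicValNat_factorial_mul_add k (by norm_num : 1 < 2), padicValNat_factorial_mul]; ring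

lemma s2_zero : s2 0 = 0 := by simp [s2]

lemma s2_one : s2 1 = 0 := by simp [s2]

lemma vp_le_of_dvd (p : ℕ) [Fact p.Prime] {a b : ℕ} (hb : b ≠ 0) (h : a ∣ b) :
    padicValNat p a ≤ padicValNat p b := by
  rw [← padicValNat_dvd_iff_le hb]
  exact pow_padicValNat_dvd.trans h

lemma s2_add_le (a b : ℕ) : s2 a + s2 b ≤ s2 (a + b) := by
  unfold s2
  rw [← padicValNat.mul (factorial_ne_zero a) (factorial_ne_zero b)]
  exact vp_le_of_dvd 2 (factorial_ne_zero _) (Nat.factorial_mul_factorial_dvd_factorial_add a b)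

lemma s2_mono {a b : ℕ} (h : a ≤ b) : s2 a ≤ s2 b := by
  obtain ⟨c, rfl⟩ := Nat.exists_eq_add_of_le h
  exact le_trans (Nat.le_add_right _ _) (s2_add_le a c)

lemma s2_four_mul (q : ℕ) : s2 (4 * q) = 3 * q + s2 q := by
  rw [show 4 * q = 2 * (2 * q) by ring, s2_two_mul, s2_two_mul]; ring

lemma s2_four_mul_add_one (q : ℕ) : s2 (4 * q + 1) = 3 * q + s2 q := by
  rw [show 4 * q + 1 = 2 * (2 * q) + 1 by ring, s2_two_mul_add_one, s2_two_mul]; ring

lemma s2_four_mul_add_two (q : ℕ) : s2 (4 * q + 2) = 3 * q + 1 + s2 q := by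
  rw [show 4 * q + 2 = 2 * (2 * q + 1) by ring, s2_two_mul, s2_two_mul_add_one]; ring

lemma s2_four_mul_add_three (q : ℕ) : s2 (4 * q + 3) = 3 * q + 1 + s2 q := by
  rw [show 4 * q + 3 = 2 * (2 * q + 1) + 1 by ring, s2_two_mul_add_one, s2_two_mul_add_one]; ring

/-- The bound predicate. -/
def Bd (m x : ℕ) : Prop := ∃ j, 3 * j ≤ m ∧ x ≤ 3 ^ j * 2 ^ s2 (m - 3 * j)

lemma Bd.of_le {m x y : ℕ} (h : Bd m y) (hxy : x ≤ y) : Bd m x := by
  obtain ⟨j, hj, hy⟩ := h
  exact ⟨j, hj, hxy.trans hy⟩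

lemma Bd.mono {a b x : ℕ} (h : Bd a x) (hab : a ≤ b) : Bd b x := by
  obtain ⟨j, hj, hy⟩ := h
  refine ⟨j, hj.trans hab, hy.trans ?_⟩
  exact Nat.mul_le_mul_left _ (Nat.pow_le_pow_right (by norm_num) (s2_mono (by omega)))

lemma Bd.mul {a b x y : ℕ} (hx : Bd a x) (hy : Bd b y) : Bd (a + b) (x * y) := by
  obtain ⟨j, hj, hx⟩ := hx
  obtain ⟨k, hk, hy⟩ := hy
  refine ⟨j + k, by omega, (Nat.mul_le_mul hx hy).trans ?_⟩
  have h1 : s2 (a - 3 * j) + s2 (b - 3 * k) ≤ s2 (a + b - 3 * (j + k)) := by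
    have := s2_add_le (a - 3 * j) (b - 3 * k)
    rwa [show a - 3 * j + (b - 3 * k) = a + b - 3 * (j + k) by omega] at this
  calc 3 ^ j * 2 ^ s2 (a - 3 * j) * (3 ^ k * 2 ^ s2 (b - 3 * k))
      = 3 ^ (j + k) * 2 ^ (s2 (a - 3 * j) + s2 (b - 3 * k)) := by ring
    _ ≤ _ := Nat.mul_le_mul_left _ (Nat.pow_le_pow_right (by norm_num) h1)

lemma Bd.one (m : ℕ) : Bd m 1 := ⟨0, by omega, by simpa using Nat.one_le_two_pow⟩

/-- the final bound function -/
def fB (n : ℕ) : ℕ := if n % 4 = 3 then 3 * 2 ^ s2 (n - 3) else 2 ^ s2 n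

lemma two_pow_s2_le_fB (n : ℕ) : 2 ^ s2 n ≤ fB n := by
  unfold fB
  split_ifs with h
  · obtain ⟨q, rfl⟩ : ∃ q, n = 4 * q + 3 := ⟨n / 4, by omega⟩
    rw [show 4 * q + 3 - 3 = 4 * q by omega, s2_four_mul, s2_four_mul_add_three,
      show 3 * q + 1 + s2 q = (3 * q + s2 q) + 1 by ring, pow_succ]
    omega
  · exact le_rfl

lemma three_mul_fB_le (n : ℕ) : 3 * fB n ≤ fB (n + 3) := by
  obtain ⟨q, r, hr, rfl⟩ : ∃ q r, r < 4 ∧ n = 4 * q + r := ⟨n / 4, n % 4, by omega, by omega⟩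
  have hq : s2 q ≤ s2 (q + 1) := s2_mono (by omega)
  obtain ⟨d, hd⟩ := Nat.exists_eq_add_of_le hq
  obtain ⟨e, he⟩ : ∃ e, e = 3 * q + s2 q := ⟨_, rfl⟩
  have hpos : 0 < 2 ^ e := by positivity
  have hd1 : 1 ≤ 2 ^ d := Nat.one_le_two_pow
  have hED : 2 ^ e ≤ 2 ^ e * 2 ^ d := Nat.le_mul_of_pos_right _ (by positivity)
  unfold fB
  interval_cases r
  · rw [if_neg (by omega), if_pos (by omega)]
    simp
  · rw [if_neg (by omega), if_neg (by omega), show 4 * q + 1 + 3 = 4 * (q + 1) by ring,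
      s2_four_mul, s2_four_mul_add_one, hd,
      show 3 * (q + 1) + (s2 q + d) = e + d + 3 by rw [he]; ring, ← he, pow_add, pow_add]
    omega
  · rw [if_neg (by omega), if_neg (by omega), show 4 * q + 2 + 3 = 4 * (q + 1) + 1 by ring,
      s2_four_mul_add_one, s2_four_mul_add_two, hd,
      show 3 * (q + 1) + (s2 q + d) = e + d + 3 by rw [he]; ring,
      show 3 * q + 1 + s2 q = e + 1 by rw [he]; ring, pow_add, pow_add, pow_add]
    omega
  · rw [if_pos (by omega), if_neg (by omega), show 4 * q + 3 + 3 = 4 * (q + 1) + 2 by ring,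
      s2_four_mul_add_two, show 4 * q + 3 - 3 = 4 * q by omega, s2_four_mul, hd,
      show 3 * (q + 1) + 1 + (s2 q + d) = e + d + 4 by rw [he]; ring, ← he, pow_add, pow_add]
    omega

lemma Bd.le_fB {n x : ℕ} (h : Bd n x) : x ≤ fB n := by
  obtain ⟨j, hj, hx⟩ := h
  refine hx.trans ?_
  clear hx
  induction j generalizing n with
  | zero => simpa using two_pow_s2_le_fB n
  | succ j ih =>
    obtain ⟨m, rfl⟩ : ∃ m, n = m + 3 := ⟨n - 3, by omega⟩
    have := ih (n := m) (by omega)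
    rw [show m + 3 - 3 * (j + 1) = m - 3 * j by omega, pow_succ]
    calc 3 ^ j * 3 * 2 ^ s2 (m - 3 * j) = 3 * (3 ^ j * 2 ^ s2 (m - 3 * j)) := by ring
      _ ≤ 3 * fB m := Nat.mul_le_mul_left _ this
      _ ≤ _ := three_mul_fB_le m

lemma t3_small (m : ℕ) (h : m < 10) : padicValNat 3 m ! = m / 3 + m / 9 := by
  have := sub_one_mul_padicValNat_factorial (p := 3) m
  interval_cases m <;> norm_num at this ⊢ <;> omega

lemma s2_small (m : ℕ) (h : m < 32) : s2 m = m / 2 + m / 4 + m / 8 + m / 16 := by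
  have := sub_one_mul_padicValNat_factorial (p := 2) m
  unfold s2
  interval_cases m <;> norm_num at this ⊢ <;> omega

lemma mul_s2_le (k c : ℕ) : k * s2 c ≤ s2 (k * c) := by
  induction k with
  | zero => simp
  | succ k ih =>
    rw [add_mul, add_mul, one_mul, one_mul]
    exact (Nat.add_le_add_right ih _).trans (s2_add_le _ _)

lemma succ_le_two_pow_s2 (r : ℕ) (hr : 4 ≤ r) : r + 1 ≤ 2 ^ s2 r := by
  induction r using Nat.strong_induction_on with
  | _ r ih =>
    rcases Nat.lt_or_ge r 6 with h | h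
    · rw [s2_small r (by omega)]
      interval_cases r <;> norm_num
    · have h1 := ih (r - 2) (by omega) (by omega)
      have h2 := s2_add_le (r - 2) 2
      rw [show r - 2 + 2 = r by omega, s2_small 2 (by omega)] at h2
      have h3 : 2 ^ (s2 (r - 2) + 1) ≤ 2 ^ s2 r := Nat.pow_le_pow_right (by norm_num) (by omega)
      rw [pow_succ] at h3
      omega

lemma prime_pow_le_of_five_le (p : ℕ) [hp : Fact p.Prime] (h5 : 5 ≤ p) (m : ℕ) :
    p ^ padicValNat p m ! ≤ 2 ^ s2 m := by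
  rcases Nat.eq_zero_or_pos m with rfl | hm
  · simpa using Nat.one_le_two_pow
  have h1 := sub_one_mul_padicValNat_factorial_lt_of_ne_zero p hm.ne'
  set k := padicValNat p m ! with hk
  have h2 : p ≤ 2 ^ s2 (p - 1) := by
    have := succ_le_two_pow_s2 (p - 1) (by omega)
    omega
  calc p ^ k ≤ (2 ^ s2 (p - 1)) ^ k := Nat.pow_le_pow_left h2 k
    _ = 2 ^ (k * s2 (p - 1)) := by rw [← pow_mul, mul_comm]
    _ ≤ 2 ^ s2 (k * (p - 1)) := Nat.pow_le_pow_right (by norm_num) (mul_s2_le _ _)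
    _ ≤ 2 ^ s2 m := Nat.pow_le_pow_right (by norm_num) (s2_mono (by rw [mul_comm]; exact h1.le))

lemma three_pow_le (k : ℕ) (h4 : 4 ≤ k) (h7 : k ≠ 7) : 3 ^ k ≤ 2 ^ s2 (2 * k) := by
  induction k using Nat.strong_induction_on with
  | _ k ih =>
    rcases Nat.lt_or_ge k 12 with h | h
    · rw [s2_small _ (by omega)]
      interval_cases k <;> first | exact absurd rfl h7 | norm_num
    · have h1 := ih (k - 4) (by omega) (by omega) (by omega)
      have h2 := s2_add_le (2 * (k - 4)) 8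
      rw [show 2 * (k - 4) + 8 = 2 * k by omega, s2_small 8 (by omega)] at h2
      have h3 : 2 ^ (s2 (2 * (k - 4)) + 7) ≤ 2 ^ s2 (2 * k) :=
        Nat.pow_le_pow_right (by norm_num) (by omega)
      have h4 : 3 ^ k = 3 ^ (k - 4) * 81 := by
        rw [show (81 : ℕ) = 3 ^ 4 by norm_num, ← pow_add]; congr 1; omega
      rw [pow_add] at h3
      omega

lemma Bd_three_pow (m : ℕ) : Bd m (3 ^ padicValNat 3 m !) := by
  rcases Nat.lt_or_ge m 9 with h | h
  · rw [t3_small m (by omega)]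
    rcases Nat.lt_or_ge m 4 with h' | h'
    · refine ⟨m / 3, by omega, ?_⟩
      rw [show m / 9 = 0 by omega, add_zero]
      exact Nat.le_mul_of_pos_right _ (by positivity)
    · refine ⟨0, by omega, ?_⟩
      rw [Nat.mul_zero, Nat.sub_zero, s2_small m (by omega)]
      interval_cases m <;> norm_num
  · have h1 := sub_one_mul_padicValNat_factorial_lt_of_ne_zero 3 (n := m) (by omega)
    have h2 : 4 ≤ padicValNat 3 m ! := by
      have := vp_le_of_dvd 3 (factorial_ne_zero m) (Nat.factorial_dvd_factorial h)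
      rw [t3_small 9 (by omega)] at this
      omega
    set k := padicValNat 3 m ! with hk
    by_cases h7 : k = 7
    · refine ⟨1, by omega, ?_⟩
      have h3 : s2 12 ≤ s2 (m - 3 * 1) := s2_mono (by omega)
      rw [s2_small 12 (by omega)] at h3
      have h4 : 2 ^ 10 ≤ 2 ^ s2 (m - 3 * 1) := Nat.pow_le_pow_right (by norm_num) (by omega)
      rw [h7]
      omega
    · refine ⟨0, by omega, ?_⟩
      rw [Nat.mul_zero, Nat.sub_zero, pow_zero, one_mul]
      exact (three_pow_le k h2 h7).trans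
        (Nat.pow_le_pow_right (by norm_num) (s2_mono (by omega)))

lemma Bd_prime_pow (p : ℕ) [hp : Fact p.Prime] (m : ℕ) : Bd m (p ^ padicValNat p m !) := by
  rcases Nat.lt_or_ge p 5 with h | h
  · have := hp.out
    interval_cases p
    · exact absurd this (by norm_num)
    · exact absurd this (by norm_num)
    · exact ⟨0, by omega, by simp [s2]⟩
    · exact Bd_three_pow m
    · exact absurd this (by norm_num)
  · exact ⟨0, by omega, by simpa using prime_pow_le_of_five_le p h m⟩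

end Cfsg.Agent.Lib.Helper38
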