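import Mathlib

set_option autoImplicit false

namespace Cfsg.Agent.Lib.Helper38

open Equiv Equiv.Perm MulAction
open scoped Pointwise

variable {α : Type*} [DecidableEq α] [Fintype α]

theorem exists_mem_notMem_finset {S : Set α} (F : Finset α) (h : F.card < S.ncard) :
    ∃ y ∈ S, y ∉ F := by
  have : (↑F : Set α).ncard < S.ncard := by rwa [Set.ncard_coe_finset]
  obtain ⟨e, he, he'⟩ := Set.exists_mem_notMem_of_ncard_lt_ncard this
  exact ⟨e, he, by simpa using he'⟩

theorem exists_mem_ne1 {S : Set α} (h : 2 ≤ S.ncard) (a : α) : ∃ y ∈ S, y ≠ a := by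
  obtain ⟨y, hy, hy'⟩ := exists_mem_notMem_finset (S := S) {a} (by simp; omega)
  exact ⟨y, hy, by simpa using hy'⟩

theorem exists_mem_ne2 {S : Set α} (h : 3 ≤ S.ncard) (a b : α) : ∃ y ∈ S, y ≠ a ∧ y ≠ b := by
  obtain ⟨y, hy, hy'⟩ := exists_mem_notMem_finset (S := S) {a, b}
    (lt_of_le_of_lt Finset.card_le_two (by omega))
  exact ⟨y, hy, by simpa using hy'⟩

theorem exists_mem_ne3 {S : Set α} (h : 4 ≤ S.ncard) (a b c : α) :
    ∃ y ∈ S, y ≠ a ∧ y ≠ b ∧ y ≠ c := by
  obtain ⟨y, hy, hy'⟩ := exists_mem_notMem_finset (S := S) {a, b, c}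
    (lt_of_le_of_lt Finset.card_le_three (by omega))
  exact ⟨y, hy, by simpa using hy'⟩

theorem block_closed {H : Subgroup (Perm α)} {B : Set α} (hB : IsBlock H B) {h : Perm α}
    (hh : h ∈ H) {a b : α} (ha : a ∈ B) (hfix : h a ∈ B) (hb : b ∈ B) : h b ∈ B := by
  have : (⟨h, hh⟩ : H) • B = B :=
    isBlock_iff_smul_eq_of_nonempty.mp hB ⟨h a, ⟨a, ha, rfl⟩, hfix⟩
  rw [← this]; exact ⟨b, hb, rfl⟩

/-- elements of the centraliser of a fixed point free involution, type 1 -/
theorem cent1_comm (t : Perm α) (ht2 : ∀ y, t (t y) = y) (x p : α) (z : α) :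
    (swap x (t x) * swap p (t p)) (t z) = t ((swap x (t x) * swap p (t p)) z) := by
  have hinj := t.injective
  simp only [Perm.mul_apply, swap_apply_def]
  grind

/-- elements of the centraliser of a fixed point free involution, type 2 -/
theorem cent2_comm (t : Perm α) (ht2 : ∀ y, t (t y) = y) (htf : ∀ y, t y ≠ y) (x y : α)
    (hyx : y ≠ x) (hyt : y ≠ t x) (z : α) :
    (swap x y * swap (t x) (t y)) (t z) = t ((swap x y * swap (t x) (t y)) z) := by
  have hinj := t.injective
  have h1 := htf x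
  have h2 := htf y
  simp only [Perm.mul_apply, swap_apply_def]
  grind

/-- The even centraliser of a fixed point free involution is transitive (`4 ≤ |α|`). -/
theorem exists_cent_move (t : Perm α) (ht2 : ∀ y, t (t y) = y) (htf : ∀ y, t y ≠ y)
    (hcard : 3 ≤ Fintype.card α) (x y : α) :
    ∃ c : Perm α, c ∈ alternatingGroup α ∧ (∀ z, c (t z) = t (c z)) ∧ c x = y := by
  by_cases hxy : y = x
  · exact ⟨1, Subgroup.one_mem _, fun z => rfl, by simp [hxy]⟩
  by_cases hyt : y = t x
  · obtain ⟨p, -, hp1, hp2⟩ := exists_mem_ne2 (S := (Set.univ : Set α))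
      (by rw [Set.ncard_univ, Nat.card_eq_fintype_card]; exact hcard) x (t x)
    refine ⟨swap x (t x) * swap p (t p), ?_, cent1_comm t ht2 x p, ?_⟩
    · have h1 := (htf x).symm
      have h2 := (htf p).symm
      simp [h1, h2]
    · have h3 : t p ≠ x := by intro h; apply hp2; rw [← h, ht2]
      subst hyt
      simp only [Perm.mul_apply, swap_apply_def]
      grind
  · refine ⟨swap x y * swap (t x) (t y), ?_, cent2_comm t ht2 htf x y hxy hyt, ?_⟩
    · have h1 : x ≠ y := fun h => hxy h.symm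
      have h2 : t x ≠ t y := fun h => h1 (t.injective h)
      simp [h1, h2]
    · have h3 : t y ≠ x := by intro h; apply hyt; rw [← h, ht2]
      have h4 := htf x
      simp only [Perm.mul_apply, swap_apply_def]
      grind

/-- Lemma C: an even element of the centraliser of `t` that neither fixes `S` nor moves it off
itself. -/
theorem exists_cent_break (t : Perm α) (ht2 : ∀ y, t (t y) = y) (htf : ∀ y, t y ≠ y)
    (S : Set α) (hS : 4 ≤ S.ncard) (hSc : Sᶜ.Nonempty) :
    ∃ c : Perm α, c ∈ alternatingGroup α ∧ (∀ z, c (t z) = t (c z)) ∧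
      (∃ x ∈ S, c x ∉ S) ∧ (∃ z ∈ S, c z ∈ S) := by
  by_cases hmix : ∃ x ∈ S, t x ∉ S
  · obtain ⟨x, hx, hxt⟩ := hmix
    obtain ⟨p, hp, hp1, hp2⟩ := exists_mem_ne2 (S := S) (by omega) x (t x)
    obtain ⟨z, hz, hz1, hz2, hz3⟩ := exists_mem_ne3 (S := S) hS x p (t p)
    have hzt : z ≠ t x := fun h => hxt (h ▸ hz)
    have h3 : t p ≠ x := by intro h; apply hp2; rw [← h, ht2]
    refine ⟨swap x (t x) * swap p (t p), ?_, cent1_comm t ht2 x p, ⟨x, hx, ?_⟩, ⟨z, hz, ?_⟩⟩
    · have h1 := (htf x).symm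
      have h2 := (htf p).symm
      simp [h1, h2]
    · have : (swap x (t x) * swap p (t p)) x = t x := by
        simp only [Perm.mul_apply, swap_apply_def]
        grind
      rw [this]; exact hxt
    · have : (swap x (t x) * swap p (t p)) z = z := by
        simp only [Perm.mul_apply, swap_apply_def]
        grind
      rw [this]; exact hz
  · push Not at hmix
    obtain ⟨y, hy⟩ := hSc
    obtain ⟨x, hx, -⟩ := exists_mem_ne1 (S := S) (by omega) y
    obtain ⟨z, hz, hz1, hz2⟩ := exists_mem_ne2 (S := S) (by omega) x (t x)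
    have hyx : y ≠ x := fun h => hy (h ▸ hx)
    have hyt : y ≠ t x := fun h => hy (h ▸ hmix x hx)
    have hty : t y ∉ S := by
      intro h
      have := hmix _ h
      rw [ht2] at this
      exact hy this
    have hzy : z ≠ y := fun h => hy (h ▸ hz)
    have hzty : z ≠ t y := fun h => hty (h ▸ hz)
    have h3 : t y ≠ x := fun h => hty (h ▸ hx)
    have h4 := htf x
    refine ⟨swap x y * swap (t x) (t y), ?_, cent2_comm t ht2 htf x y hyx hyt, ⟨x, hx, ?_⟩,
      ⟨z, hz, ?_⟩⟩
    · have h1 : x ≠ y := fun h => hyx h.symm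
      have h2 : t x ≠ t y := fun h => h1 (t.injective h)
      simp [h1, h2]
    · have : (swap x y * swap (t x) (t y)) x = y := by
        simp only [Perm.mul_apply, swap_apply_def]
        grind
      rw [this]; exact hy
    · have : (swap x y * swap (t x) (t y)) z = z := by
        simp only [Perm.mul_apply, swap_apply_def]
        grind
      rw [this]; exact hz

/-- S1: a block meeting `S` in two points contains `S`. -/
theorem block_S1 {H : Subgroup (Perm α)} {S B : Set α}
    (hS : ∀ σ : Perm α, σ ∈ alternatingGroup α → (∀ z, σ z ∈ S ↔ z ∈ S) → σ ∈ H)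
    (hSc : 2 ≤ Sᶜ.ncard) (hB : IsBlock H B) {a b : α} (ha : a ∈ B) (hb : b ∈ B) (hab : a ≠ b)
    (haS : a ∈ S) (hbS : b ∈ S) : S ⊆ B := by
  intro c hc
  by_cases hca : c = a
  · rw [hca]; exact ha
  by_cases hcb : c = b
  · rw [hcb]; exact hb
  obtain ⟨y, hy, -⟩ := exists_mem_ne1 hSc a
  obtain ⟨y', hy', hyy'⟩ := exists_mem_ne1 hSc y
  have hmem : swap b c * swap y y' ∈ H := by
    apply hS
    · have h1 : b ≠ c := fun h => hcb h.symm
      simp [h1, hyy'.symm]
    · intro z
      simp only [Perm.mul_apply, swap_apply_def]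
      simp only [Set.mem_compl_iff] at hy hy'
      grind
  have hfa : (swap b c * swap y y') a = a := by
    simp only [Set.mem_compl_iff] at hy hy'
    simp only [Perm.mul_apply, swap_apply_def]
    grind
  have hfb : (swap b c * swap y y') b = c := by
    simp only [Set.mem_compl_iff] at hy hy'
    simp only [Perm.mul_apply, swap_apply_def]
    grind
  have := block_closed hB hmem ha (by rw [hfa]; exact ha) hb
  rwa [hfb] at this

/-- S2: a block meeting both `S` and its complement contains the complement. -/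
theorem block_S2 {H : Subgroup (Perm α)} {S B : Set α}
    (hS : ∀ σ : Perm α, σ ∈ alternatingGroup α → (∀ z, σ z ∈ S ↔ z ∈ S) → σ ∈ H)
    (hS3 : 3 ≤ S.ncard) (hB : IsBlock H B) {a b : α} (ha : a ∈ B) (hb : b ∈ B)
    (haS : a ∈ S) (hbS : b ∉ S) : Sᶜ ⊆ B := by
  intro c hc
  by_cases hcb : c = b
  · rw [hcb]; exact hb
  obtain ⟨y, hy, hya⟩ := exists_mem_ne1 (S := S) (by omega) a
  obtain ⟨y', hy', hy'a, hyy'⟩ := exists_mem_ne2 hS3 a y
  have hmem : swap b c * swap y y' ∈ H := by
    apply hS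
    · have h1 : b ≠ c := fun h => hcb h.symm
      simp [h1, hyy'.symm]
    · intro z
      simp only [Perm.mul_apply, swap_apply_def]
      simp only [Set.mem_compl_iff] at hc
      grind
  have hfa : (swap b c * swap y y') a = a := by
    simp only [Set.mem_compl_iff] at hc
    simp only [Perm.mul_apply, swap_apply_def]
    grind
  have hfb : (swap b c * swap y y') b = c := by
    simp only [Set.mem_compl_iff] at hc
    simp only [Perm.mul_apply, swap_apply_def]
    grind
  have := block_closed hB hmem ha (by rw [hfa]; exact ha) hb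
  rwa [hfb] at this

theorem block_P_aux {H : Subgroup (Perm α)} {S B : Set α} (t : Perm α)
    (ht2 : ∀ y, t (t y) = y) (htf : ∀ y, t y ≠ y)
    (hS : ∀ σ : Perm α, σ ∈ alternatingGroup α → (∀ z, σ z ∈ S ↔ z ∈ S) → σ ∈ H)
    (hC : ∀ σ : Perm α, σ ∈ alternatingGroup α → (∀ z, σ (t z) = t (σ z)) → σ ∈ H)
    (hS4 : 4 ≤ S.ncard) (hSc4 : 4 ≤ Sᶜ.ncard) (hB : IsBlock H B) {a b : α} (ha : a ∈ B)
    (hb : b ∈ B) (hab : a ≠ b) (haS : a ∈ S) : B = Set.univ := by
  have hS' : ∀ σ : Perm α, σ ∈ alternatingGroup α → (∀ z, σ z ∈ Sᶜ ↔ z ∈ Sᶜ) → σ ∈ H := by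
    intro σ h1 h2
    apply hS σ h1
    intro z
    have := h2 z
    simp only [Set.mem_compl_iff] at this
    exact not_iff_not.mp this
  have hfin : S ⊆ B → Sᶜ ⊆ B → B = Set.univ := by
    intro h1 h2
    apply Set.eq_univ_of_forall
    intro z
    by_cases hz : z ∈ S
    · exact h1 hz
    · exact h2 hz
  by_cases hbS : b ∈ S
  · have h1 := block_S1 hS (by omega) hB ha hb hab haS hbS
    obtain ⟨c, hc1, hc2, ⟨x, hx, hcx⟩, ⟨z, hz, hcz⟩⟩ := exists_cent_break t ht2 htf S hS4
      (by rw [← Set.ncard_pos]; omega)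
    have hcB : c x ∈ B := block_closed hB (hC c hc1 hc2) (h1 hz) (h1 hcz) (h1 hx)
    exact hfin h1 (block_S2 hS (by omega) hB ha hcB haS hcx)
  · have h2 := block_S2 hS (by omega) hB ha hb haS hbS
    have h1 := block_S2 hS' (by omega) hB hb ha hbS (by simpa using haS)
    rw [compl_compl] at h1
    exact hfin h1 h2

/-- Lemma P. A subgroup of `Perm α` containing the even part of the stabiliser of a set `s` with
`4 ≤ |s|, |sᶜ|` and the even part of the centraliser of a fixed point free involution contains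
the alternating group. -/
theorem alternatingGroup_le_of_stabilizer_of_centralizer {H : Subgroup (Perm α)} {s : Set α}
    (t : Perm α) (ht2 : ∀ y, t (t y) = y) (htf : ∀ y, t y ≠ y)
    (hS : ∀ σ : Perm α, σ ∈ alternatingGroup α → (∀ z, σ z ∈ s ↔ z ∈ s) → σ ∈ H)
    (hC : ∀ σ : Perm α, σ ∈ alternatingGroup α → (∀ z, σ (t z) = t (σ z)) → σ ∈ H)
    (hS4 : 4 ≤ s.ncard) (hSc4 : 4 ≤ sᶜ.ncard) : alternatingGroup α ≤ H := by
  have hcard : 8 ≤ Fintype.card α := by
    have := Set.ncard_add_ncard_compl s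
    rw [Nat.card_eq_fintype_card] at this
    omega
  have htrans : IsPretransitive H α := by
    constructor
    intro x y
    obtain ⟨c, hc1, hc2, hc3⟩ := exists_cent_move t ht2 htf (by omega) x y
    exact ⟨⟨c, hC c hc1 hc2⟩, hc3⟩
  have hprim : IsPreprimitive H α := by
    apply IsPreprimitive.mk
    intro B hB
    rw [IsTrivialBlock, or_iff_not_imp_left]
    intro hB'
    rw [Set.not_subsingleton_iff] at hB'
    obtain ⟨a, ha, b, hb, hab⟩ := hB'
    by_cases haS : a ∈ s
    · exact block_P_aux t ht2 htf hS hC hS4 hSc4 hB ha hb hab haS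
    · have hS' : ∀ σ : Perm α, σ ∈ alternatingGroup α → (∀ z, σ z ∈ sᶜ ↔ z ∈ sᶜ) → σ ∈ H := by
        intro σ h1 h2
        apply hS σ h1
        intro z
        have := h2 z
        simp only [Set.mem_compl_iff] at this
        exact not_iff_not.mp this
      exact block_P_aux t ht2 htf hS' hC hSc4 (by rwa [compl_compl]) hB ha hb hab haS
  -- a three-cycle in H
  have h2 : 2 < s.ncard := by omega
  rw [Set.two_lt_ncard_iff] at h2
  obtain ⟨a, b, c, ha, hb, hc, hab, hac, hbc⟩ := h2
  have h3 : (swap a b * swap a c).IsThreeCycle := isThreeCycle_swap_mul_swap_same hab hac hbc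
  apply alternatingGroup_le_of_isPreprimitive_of_isThreeCycle_mem hprim h3
  apply hS _ h3.mem_alternatingGroup
  intro z
  simp only [Perm.mul_apply, swap_apply_def]
  grind

end Cfsg.Agent.Lib.Helper38
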