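import Mathlib
import Cfsg.Agent.Lib.Helper46.Qd3
import Cfsg.Agent.Lib.Helper5.SLGen

/-!
`Qd(p)` and alternating groups.
-/

set_option autoImplicit false

namespace Cfsg.Agent.Lib.Helper38

open Matrix Subgroup Cfsg.Agent.Lib.Helper46.Qd Cfsg.Agent.Lib.Helper46.SL2Nat

section
variable {p : ℕ} [hp : Fact p.Prime]

theorem units_eq_one_of_pow (hp2 : p ≠ 2) (u : ℤˣ) (h : u ^ p = 1) : u = 1 := by
  rcases Int.units_eq_one_or u with h1 | h1
  · exact h1
  · exfalso
    rw [h1] at h
    have hodd : Odd p := hp.out.odd_of_ne_two hp2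
    rw [hodd.neg_one_pow] at h
    exact absurd h (by decide)

theorem sl_transvection_pow {i j : Fin 2} (hij : i ≠ j) (c : ZMod p) (n : ℕ) :
    (SpecialLinearGroup.transvection hij c) ^ n = SpecialLinearGroup.transvection hij (n • c) := by
  induction n with
  | zero => rw [pow_zero, zero_smul, SpecialLinearGroup.transvection_coeff_zero]
  | succ n ih =>
    rw [pow_succ, ih]
    apply Subtype.ext
    show Matrix.transvection i j (n • c) * Matrix.transvection i j c = Matrix.transvection i j ((n + 1) • c)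
    rw [Matrix.transvection_mul_transvection_same _ _ hij, add_smul, one_smul]

/-- `Qd(p)` has no subgroup of index two, `p` odd -/
theorem qd_hom_units_trivial (hp2 : p ≠ 2) (χ : ↥(Cfsg.qdOver (ZMod p)) →* ℤˣ)
    (M : ↥(Cfsg.qdOver (ZMod p))) : χ M = 1 := by
  have h1 : ∀ x : ↥(Cfsg.qdOver (ZMod p)), x ^ p = 1 → χ x = 1 := by
    intro x hx
    apply units_eq_one_of_pow hp2
    rw [← map_pow, hx, map_one]
  have h2 : ∀ v : Fin 2 → ZMod p, χ (mk 1 v) = 1 := by
    intro v
    apply h1
    rw [mk_one_pow]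
    have : p • v = 0 := by
      ext i
      simp
    rw [this, mk_one_zero]
  have hmul : ∀ A B : SpecialLinearGroup (Fin 2) (ZMod p), mk (A * B) 0 = mk A 0 * mk B 0 := by
    intro A B
    rw [mk_mul_mk]
    simp
  have hpow : ∀ (A : SpecialLinearGroup (Fin 2) (ZMod p)) (n : ℕ),
      (mk A (0 : Fin 2 → ZMod p)) ^ n = mk (A ^ n) 0 := by
    intro A n
    induction n with
    | zero => rw [pow_zero, pow_zero, mk_one_zero]
    | succ n ih => rw [pow_succ, ih, pow_succ, hmul]
  have h3 : ∀ A : SpecialLinearGroup (Fin 2) (ZMod p), χ (mk A 0) = 1 := by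
    intro A
    refine Cfsg.Agent.Lib.Helper5.SL_transvection_induction
      (fun A => χ (mk A (0 : Fin 2 → ZMod p)) = 1) ?_ ?_ A
    · intro i j hij c
      apply h1
      rw [hpow, sl_transvection_pow]
      have : p • c = 0 := by simp
      rw [this, SpecialLinearGroup.transvection_coeff_zero, mk_one_zero]
    · intro A B hA hB
      show χ (mk (A * B) 0) = 1
      rw [hmul, map_mul, hA, hB, one_mul]
  have h4 : M = mk 1 (tr M) * mk (blk M) 0 := by
    rw [mk_mul_mk]
    simp [mk_blk_tr]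
  rw [h4, map_mul, h2, h3, one_mul]

/-- `Qd(p)` embeds in `A_n` for `n ≥ p ^ 2` -/
theorem exists_qd_in_alternating (hp2 : p ≠ 2) (n : ℕ) (hn : p ^ 2 ≤ n) :
    ∃ H : Subgroup (alternatingGroup (Fin n)), Nonempty (↥H ≃* ↥(Cfsg.qdOver (ZMod p))) := by
  have hcard : Fintype.card (Fin 2 → ZMod p) ≤ Fintype.card (Fin n) := by
    rw [Fintype.card_fun, ZMod.card, Fintype.card_fin, Fintype.card_fin]
    exact hn
  obtain ⟨e⟩ := Function.Embedding.nonempty_of_card_le hcard
  let φ : ↥(Cfsg.qdOver (ZMod p)) →* Equiv.Perm (Fin n) :=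
    (Equiv.Perm.viaEmbeddingHom e).comp (affHom (ZMod p))
  have hφ : Function.Injective φ :=
    (Equiv.Perm.viaEmbeddingHom_injective e).comp affHom_injective
  have hsign : ∀ M, φ M ∈ alternatingGroup (Fin n) := by
    intro M
    rw [Equiv.Perm.mem_alternatingGroup]
    exact qd_hom_units_trivial hp2 (Equiv.Perm.sign.comp φ) M
  let ψ : ↥(Cfsg.qdOver (ZMod p)) →* alternatingGroup (Fin n) := φ.codRestrict _ hsign
  have hψ : Function.Injective ψ := by
    intro a b hab
    exact hφ (congrArg Subtype.val hab)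
  exact ⟨ψ.range, ⟨(MonoidHom.ofInjective hψ).symm⟩⟩

/-- `p`-subgroups of `S_n`, `n < p ^ 2`, are abelian -/
theorem comm_of_isPGroup_perm {n : ℕ} (hn : n < p ^ 2) (P : Subgroup (Equiv.Perm (Fin n)))
    (hP : IsPGroup p P) : ∀ x ∈ P, ∀ y ∈ P, x * y = y * x := by
  intro x hx y hy
  have key : ∀ i : Fin n, (⟨x, hx⟩ * ⟨y, hy⟩ * ⟨x, hx⟩⁻¹ * ⟨y, hy⟩⁻¹ : P) ∈ MulAction.stabilizer P i := by
    intro i
    set S := MulAction.stabilizer P i with hS
    obtain ⟨k, hk⟩ := hP.card_orbit i
    have hle : Nat.card (MulAction.orbit P i) ≤ n := by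
      have := Nat.card_le_card_of_injective (fun a : MulAction.orbit P i => (a : Fin n))
        Subtype.val_injective
      simpa using this
    have hk1 : k ≤ 1 := by
      by_contra hcon
      have h2 : 2 ≤ k := by omega
      have : p ^ 2 ≤ p ^ k := Nat.pow_le_pow_right hp.out.pos h2
      omega
    have hidx : S.index = p ^ k := by
      rw [hS, MulAction.index_stabilizer, ← Nat.card_coe_set_eq, hk]
    have hnorm : S.Normal := by
      interval_cases k
      · rw [pow_zero, index_eq_one] at hidx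
        rw [hidx]; infer_instance
      · apply normal_of_index_eq_minFac_card
        rw [hidx, pow_one]
        obtain ⟨m, hm⟩ := IsPGroup.iff_card.1 hP
        have hm0 : m ≠ 0 := by
          rintro rfl
          rw [pow_zero] at hm
          have h1 := S.index_dvd_card
          rw [hidx, hm, pow_one, Nat.dvd_one] at h1
          exact hp.out.one_lt.ne' h1
        rw [hm, hp.out.pow_minFac hm0]
    have hq : Nat.card (P ⧸ S) = p ^ k := by rw [← index_eq_card, hidx]
    have hcomm : ∀ a b : P ⧸ S, a * b = b * a := by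
      interval_cases k
      · rw [pow_zero] at hq
        have := (Nat.card_eq_one_iff_unique.1 hq).1
        intro a b; exact Subsingleton.elim _ _
      · rw [pow_one] at hq
        have := isCyclic_of_prime_card hq
        intro a b
        exact (IsCyclic.commGroup (α := P ⧸ S)).mul_comm a b
    rw [← QuotientGroup.eq_one_iff]
    simp only [QuotientGroup.mk_mul, QuotientGroup.mk_inv]
    rw [hcomm (QuotientGroup.mk ⟨x, hx⟩) (QuotientGroup.mk ⟨y, hy⟩)]
    group
  have h1 : x * y * x⁻¹ * y⁻¹ = 1 := by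
    ext i
    have := key i
    rw [MulAction.mem_stabilizer_iff] at this
    have h2 : (x * y * x⁻¹ * y⁻¹) i = i := this
    rw [h2]; rfl
  have h2 : x * y * x⁻¹ = y := mul_inv_eq_one.1 h1
  exact mul_inv_eq_iff_eq_mul.1 h2

/-- the unitriangular subgroup of `Qd(p)` is not abelian -/
theorem exists_noncomm_U3 : ∃ x ∈ U3 (ZMod p), ∃ y ∈ U3 (ZMod p), x * y ≠ y * x := by
  refine ⟨hh 1 0, hh_mem _ _, hh 0 ![0, 1], hh_mem _ _, ?_⟩
  rw [hh_mul, hh_mul]
  intro h
  have h1 := (hh_injective h).2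
  have h2 := congrFun h1 0
  simp at h2

/-- `Qd(p)` is not involved in `A_n` for `n < p ^ 2` -/
theorem not_involves_qd {n : ℕ} (hn : n < p ^ 2) :
    ¬ Cfsg.Involves ↥(Cfsg.qdOver (ZMod p)) ↥(alternatingGroup (Fin n)) := by
  rintro ⟨K, R, hnorm, ⟨e⟩⟩
  let f : K →* ↥(Cfsg.qdOver (ZMod p)) := e.toMonoidHom.comp (QuotientGroup.mk' (R.subgroupOf K))
  have hf : Function.Surjective f := e.surjective.comp (QuotientGroup.mk'_surjective _)
  let P : Sylow p K := default
  have hPcomm : ∀ x ∈ (P : Subgroup K), ∀ y ∈ (P : Subgroup K), x * y = y * x := by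
    intro x hx y hy
    let ι : K →* Equiv.Perm (Fin n) := (alternatingGroup (Fin n)).subtype.comp K.subtype
    have hι : Function.Injective ι := Subtype.val_injective.comp Subtype.val_injective
    have h1 := comm_of_isPGroup_perm hn ((P : Subgroup K).map ι) (P.2.map ι) (ι x) ⟨x, hx, rfl⟩
      (ι y) ⟨y, hy, rfl⟩
    apply hι
    rw [map_mul, map_mul, h1]
  obtain ⟨g, hg⟩ := sylow_eq_conj_U3 p (P.mapSurjective hf)
  rw [Sylow.coe_mapSurjective] at hg
  obtain ⟨x, hx, y, hy, hxy⟩ := exists_noncomm_U3 (p := p)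
  have hx' : (MulAut.conj g).toMonoidHom x ∈ (P : Subgroup K).map f := hg ▸ ⟨x, hx, rfl⟩
  have hy' : (MulAut.conj g).toMonoidHom y ∈ (P : Subgroup K).map f := hg ▸ ⟨y, hy, rfl⟩
  obtain ⟨a, ha, hax⟩ := hx'
  obtain ⟨b, hb, hby⟩ := hy'
  apply hxy
  have h2 := congrArg f (hPcomm a ha b hb)
  rw [map_mul, map_mul, hax, hby, ← map_mul, ← map_mul] at h2
  exact (MulAut.conj g).injective h2

end

end Cfsg.Agent.Lib.Helper38
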