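import Mathlib
import Cfsg.Agent.Lib.Helper38.ChooseParity
import Cfsg.Agent.Lib.Helper38.PrimitiveP
import Cfsg.Agent.Lib.Helper38.BigAction
import Cfsg.Agent.Lib.Helper38.FpfInvolution
import Cfsg.Agent.Lib.Helper38.Halving

set_option autoImplicit false

namespace Cfsg.Agent.Lib.Helper38

open Equiv Equiv.Perm MulAction
open scoped Pointwise

/-- Lemma U -/
theorem le_of_unique_coatom {G : Type*} [Group G] [Finite G] {R M : Subgroup G}
    (huniq : ∀ M', IsCoatom M' ∧ R ≤ M' → M' = M) (H : Subgroup G) (hRH : R ≤ H) (hH : H ≠ ⊤) :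
    H ≤ M := by
  obtain ⟨M', hM', hle⟩ := (eq_top_or_exists_le_coatom H).resolve_left hH
  rw [← huniq M' ⟨hM', hRH.trans hle⟩]; exact hle

variable {G : Type*} {α : Type*} [Group G] [Finite G] [MulAction G α] [FaithfulSMul G α]
  [DecidableEq α] [Fintype α]

/-- the centraliser in `G` of a permutation `t` of `α`. -/
def centG (G : Type*) [Group G] [MulAction G α] (t : Perm α) : Subgroup G :=
  (Subgroup.centralizer {t}).comap (MulAction.toPermHom G α)

omit [Finite G] [FaithfulSMul G α] [DecidableEq α] [Fintype α] in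
theorem mem_centG {t : Perm α} {g : G} : g ∈ centG G t ↔ ∀ z, g • (t z) = t (g • z) := by
  rw [centG, Subgroup.mem_comap, Subgroup.mem_centralizer_singleton_iff]
  constructor
  · intro h z
    have := congrArg (fun f : Perm α => f z) h
    simpa using this
  · intro h
    ext z
    simpa using (h z)

omit [Finite G] [FaithfulSMul G α] in
theorem centG_ne_top (hbig : BigAction G α) (t : Perm α) (ht2 : ∀ y, t (t y) = y)
    (htf : ∀ y, t y ≠ y) (hcard : 3 ≤ Fintype.card α) : centG G t ≠ ⊤ := by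
  intro htop
  have hne : Nonempty α := by rw [← Fintype.card_pos_iff]; omega
  obtain ⟨x⟩ := hne
  obtain ⟨y, -, hy1, hy2⟩ := exists_mem_ne2 (S := (Set.univ : Set α))
      (by rw [Set.ncard_univ, Nat.card_eq_fintype_card]; exact hcard) x (t x)
  have h3 : (swap x (t x) * swap x y).IsThreeCycle :=
    isThreeCycle_swap_mul_swap_same (htf x).symm hy1.symm hy2.symm
  obtain ⟨g, hg⟩ := hbig.hA _ h3.mem_alternatingGroup
  have hmem : g ∈ centG G t := by rw [htop]; exact Subgroup.mem_top g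
  have h4 := mem_centG.mp hmem x
  have e : ∀ z, g • z = (swap x (t x) * swap x y) z := by
    intro z; rw [← hg]; rfl
  rw [e, e] at h4
  have hx := htf x
  have hty : t y ≠ x := by intro h; apply hy2; rw [← h, ht2]
  simp only [Perm.mul_apply, swap_apply_def] at h4
  grind

/-- Case (I): `n` odd with at least three binary digits. -/
theorem not_unique_odd (hbig : BigAction G α) (R : Sylow 2 G) (a r : ℕ)
    (hcard : Fintype.card α = 2 ^ a + r) (hr : r < 2 ^ a) (hr3 : 3 ≤ r)
    (hodd : ¬ 2 ∣ Fintype.card α) :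
    ¬ ∃! M : Subgroup G, IsCoatom M ∧ (R : Subgroup G) ≤ M := by
  rintro ⟨M, -, huniq⟩
  obtain ⟨s₁, hs₁, hR₁⟩ := exists_invariant_subset (α := α) (R : Subgroup G) R.isPGroup' 1
    (by rwa [Nat.choose_one_right])
  obtain ⟨s₂, hs₂, hR₂⟩ := exists_invariant_subset (α := α) (R : Subgroup G) R.isPGroup' r
    (by rw [hcard]; exact not_two_dvd_choose_two_pow_add hr)
  have hc₁ := Set.ncard_add_ncard_compl s₁
  have hc₂ := Set.ncard_add_ncard_compl s₂
  rw [Nat.card_eq_fintype_card] at hc₁ hc₂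
  have hM₁ : IsCoatom (stabilizer G s₁) := hbig.hmax s₁
    (by rw [← Set.ncard_pos]; omega) (by rw [← Set.ncard_pos]; omega)
    (by rw [Nat.card_eq_fintype_card]; omega)
  have hM₂ : IsCoatom (stabilizer G s₂) := hbig.hmax s₂
    (by rw [← Set.ncard_pos]; omega) (by rw [← Set.ncard_pos]; omega)
    (by rw [Nat.card_eq_fintype_card]; omega)
  have heq : stabilizer G s₁ = stabilizer G s₂ :=
    (huniq _ ⟨hM₁, hR₁⟩).trans (huniq _ ⟨hM₂, hR₂⟩).symm
  obtain ⟨x, rfl⟩ := Set.ncard_eq_one.mp hs₁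
  obtain ⟨y, hy, hyx⟩ := exists_mem_ne1 (S := s₂) (by omega) x
  obtain ⟨z, hz, hzx⟩ := exists_mem_ne1 (S := s₂ᶜ) (by omega) x
  obtain ⟨w, hw, hwx, hwz⟩ := exists_mem_ne2 (S := s₂ᶜ) (by omega) x z
  have hyz : y ≠ z := fun h => hz (h ▸ hy)
  have hyw : y ≠ w := fun h => hw (h ▸ hy)
  have h3 : (swap y z * swap y w).IsThreeCycle :=
    isThreeCycle_swap_mul_swap_same hyz hyw hwz.symm
  obtain ⟨g, hg⟩ := hbig.hA _ h3.mem_alternatingGroup
  have e : ∀ u, g • u = (swap y z * swap y w) u := by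
    intro u; rw [← hg]; rfl
  have hg1 : g ∈ stabilizer G ({x} : Set α) := by
    rw [mem_stabilizer_iff, Set.smul_set_singleton, e]
    congr 1
    simp only [Perm.mul_apply, swap_apply_def]
    grind
  rw [heq, mem_stabilizer_iff] at hg1
  have hgy : g • y ∈ s₂ := by
    rw [← hg1]; exact Set.smul_mem_smul_set hy
  rw [e] at hgy
  have : (swap y z * swap y w) y = w := by
    simp only [Perm.mul_apply, swap_apply_def]
    grind
  rw [this] at hgy
  exact hw hgy

/-- Case (II): `n` even, not a power of two. -/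
theorem not_unique_even (hbig : BigAction G α) (R : Sylow 2 G) (a r h : ℕ)
    (hcard : Fintype.card α = 2 ^ a + r) (hr : r < 2 ^ a) (hr0 : 0 < r)
    (heven : Fintype.card α = 2 * (h + 1)) (h3 : 3 ≤ Fintype.card α) :
    ¬ ∃! M : Subgroup G, IsCoatom M ∧ (R : Subgroup G) ≤ M := by
  rintro ⟨M, -, huniq⟩
  obtain ⟨s, hs, hRs⟩ := exists_invariant_subset (α := α) (R : Subgroup G) R.isPGroup' r
    (by rw [hcard]; exact not_two_dvd_choose_two_pow_add hr)
  have hc := Set.ncard_add_ncard_compl s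
  rw [Nat.card_eq_fintype_card] at hc
  have hMs : IsCoatom (stabilizer G s) := hbig.hmax s
    (by rw [← Set.ncard_pos]; omega) (by rw [← Set.ncard_pos]; omega)
    (by rw [Nat.card_eq_fintype_card]; omega)
  have hM : stabilizer G s = M := huniq _ ⟨hMs, hRs⟩
  obtain ⟨t, ht2, htf, hRt⟩ := exists_fpf_involution (α := α) (R : Subgroup G) R.isPGroup' h heven
  have hRc : (R : Subgroup G) ≤ centG G t := fun r hr => mem_centG.mpr (hRt r hr)
  have hle := le_of_unique_coatom huniq (centG G t) hRc (centG_ne_top hbig t ht2 htf h3)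
  rw [← hM] at hle
  obtain ⟨x, hx⟩ : s.Nonempty := by rw [← Set.ncard_pos]; omega
  obtain ⟨y, hy⟩ : sᶜ.Nonempty := by rw [← Set.ncard_pos]; omega
  obtain ⟨c, hc1, hc2, hc3⟩ := exists_cent_move t ht2 htf h3 x y
  obtain ⟨g, hg⟩ := hbig.hA c hc1
  have e : ∀ u, g • u = c u := by
    intro u; rw [← hg]; rfl
  have hgc : g ∈ centG G t := by
    rw [mem_centG]; intro z; rw [e, e, hc2]
  have hgs := hle hgc
  rw [mem_stabilizer_iff] at hgs
  have : g • x ∈ s := by rw [← hgs]; exact Set.smul_mem_smul_set hx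
  rw [e, hc3] at this
  exact hy this

omit [Finite G] [FaithfulSMul G α] [Fintype α] in
theorem smul_finset_eq_of_forall {g : G} {s : Finset α} (h : ∀ z, g • z ∈ s ↔ z ∈ s) :
    g • s = s := by
  ext u
  rw [Finset.mem_smul_finset]
  constructor
  · rintro ⟨y, hy, rfl⟩
    exact (h y).mpr hy
  · intro hu
    refine ⟨g⁻¹ • u, ?_, by simp⟩
    rw [← h]; simpa using hu

theorem not_two_dvd_index_of_sylow_le (R : Sylow 2 G) {M : Subgroup G}
    (h : (R : Subgroup G) ≤ M) : ¬ 2 ∣ M.index := fun hd =>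
  R.not_dvd_index (hd.trans (Subgroup.index_dvd_of_le h))

/-- Case (III): `n = 2^(a+1) ≥ 8`. -/
theorem not_unique_two_pow (hbig : BigAction G α) (R : Sylow 2 G) (a : ℕ) (ha : 2 ≤ a)
    (hcard : Fintype.card α = 2 ^ (a + 1)) :
    ¬ ∃! M : Subgroup G, IsCoatom M ∧ (R : Subgroup G) ≤ M := by
  rintro ⟨M, ⟨hMco, hRM⟩, huniq⟩
  have h4 : 4 ≤ 2 ^ a := by
    calc 4 = 2 ^ 2 := by norm_num
      _ ≤ 2 ^ a := Nat.pow_le_pow_right (by norm_num) ha
  have hcard' : Fintype.card α = 2 * (2 ^ a - 1 + 1) := by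
    rw [hcard, pow_succ]; omega
  have : Nonempty α := by rw [← Fintype.card_pos_iff, hcard]; positivity
  obtain ⟨t, ht2, htf, hRt⟩ :=
    exists_fpf_involution (α := α) (R : Subgroup G) R.isPGroup' (2 ^ a - 1) hcard'
  obtain ⟨s, hs, hRs⟩ := exists_invariant_halving (α := α) (R : Subgroup G) R.isPGroup' a hcard
  have hRc : (R : Subgroup G) ≤ centG G t := fun r hr => mem_centG.mpr (hRt r hr)
  have hle1 := le_of_unique_coatom huniq (centG G t) hRc
    (centG_ne_top hbig t ht2 htf (by omega))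
  have hsn : (s : Set α).ncard = 2 ^ a := by rw [Set.ncard_coe_finset, hs]
  have hscn : ((s : Set α)ᶜ).ncard = 2 ^ a := by
    have := Set.ncard_add_ncard_compl (s : Set α)
    rw [Nat.card_eq_fintype_card, hcard, pow_succ] at this
    omega
  have hne2 : stabilizer G (halv s) ≠ ⊤ := by
    intro htop
    obtain ⟨c, hc1, hc2, ⟨x, hx, hcx⟩, ⟨z, hz, hcz⟩⟩ := exists_cent_break t ht2 htf (s : Set α)
      (by omega) (by rw [← Set.ncard_pos]; omega)
    obtain ⟨g, hg⟩ := hbig.hA c hc1
    have e : ∀ u, g • u = c u := by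
      intro u; rw [← hg]; rfl
    have hmem : g ∈ stabilizer G (halv s) := by rw [htop]; exact Subgroup.mem_top g
    rw [mem_stabilizer_iff, smul_halv, halv_eq_iff] at hmem
    rcases hmem with h | h
    · have : g • x ∈ g • s := Finset.smul_mem_smul_finset (by simpa using hx)
      rw [h, e] at this
      exact hcx (by simpa using this)
    · have : g • z ∈ g • s := Finset.smul_mem_smul_finset (by simpa using hz)
      rw [h, e, Finset.mem_compl] at this
      exact this (by simpa using hcz)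
  have hle2 := le_of_unique_coatom huniq (stabilizer G (halv s)) hRs hne2
  have halt : alternatingGroup α ≤ M.map (MulAction.toPermHom G α) := by
    apply alternatingGroup_le_of_stabilizer_of_centralizer (s := (s : Set α)) t ht2 htf
    · intro σ hσ hσs
      obtain ⟨g, hg⟩ := hbig.hA σ hσ
      have e : ∀ u, g • u = σ u := by
        intro u; rw [← hg]; rfl
      refine ⟨g, hle2 ?_, hg⟩
      rw [mem_stabilizer_iff, smul_halv, smul_finset_eq_of_forall]
      intro z
      rw [e]
      simpa using hσs z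
    · intro σ hσ hσt
      obtain ⟨g, hg⟩ := hbig.hA σ hσ
      have e : ∀ u, g • u = σ u := by
        intro u; rw [← hg]; rfl
      refine ⟨g, hle1 ?_, hg⟩
      rw [mem_centG]; intro z; rw [e, e, hσt]
    · omega
    · omega
  apply hMco.1
  apply eq_top_of_alt_le (α := α) M (not_two_dvd_index_of_sylow_le R hRM)
  intro σ hσ
  obtain ⟨m, hm, hmσ⟩ := halt hσ
  exact ⟨m, hm, hmσ⟩

end Cfsg.Agent.Lib.Helper38
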