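import Mathlib

set_option autoImplicit false

namespace Cfsg.Agent.Lib.Helper38

open Equiv Equiv.Perm MulAction

variable {α : Type*} [DecidableEq α] [Fintype α]

theorem conj_swap_mul_swap (f : Perm α) (a b c d : α) :
    f * (swap a b * swap c d) * f⁻¹ = swap (f a) (f b) * swap (f c) (f d) := by
  rw [swap_apply_apply, swap_apply_apply]; group

theorem swap_pair_mul (p q r s u : α) (h1 : p ≠ r) (h2 : p ≠ s) (h3 : q ≠ r) (h4 : q ≠ s) :
    (swap p q * swap r s) * (swap p q * swap s u) = swap s r * swap s u := by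
  ext z
  simp only [Perm.mul_apply, swap_apply_def]
  grind

theorem swap_pair_mul' (p q r s u : α) (h1 : p ≠ r) (h2 : p ≠ s) (h3 : q ≠ r) (h4 : q ≠ s) :
    (swap p q * swap r s) * (swap p q * swap r u) = swap r s * swap r u := by
  ext z
  simp only [Perm.mul_apply, swap_apply_def]
  grind

/-- Data for Lemma K. -/
structure KData (H : Subgroup (Perm α)) (τ : Perm α) (x a₀ b₀ : α) : Prop where
  h2t : ∀ a b c : α, b ≠ a → c ≠ a → ∃ h ∈ H, h a = a ∧ h b = c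
  hτ2 : ∀ y, τ (τ y) = y
  hτx : ∀ y, τ y = y ↔ y = x
  hd : ∀ a b, a ≠ x → b ≠ x → b ≠ a → b ≠ τ a → swap a (τ a) * swap b (τ b) ∈ H
  ha : a₀ ≠ x
  hb : b₀ ≠ x
  hba : b₀ ≠ a₀
  hbτ : b₀ ≠ τ a₀
  hv : swap a₀ b₀ * swap (τ a₀) (τ b₀) ∈ H
  hex : ∀ d, d ≠ a₀ → d ≠ τ a₀ → d ≠ b₀ → d ≠ τ b₀ → d ≠ x →
    ∃ e, e ≠ a₀ ∧ e ≠ τ a₀ ∧ e ≠ b₀ ∧ e ≠ τ b₀ ∧ e ≠ x ∧ e ≠ d ∧ e ≠ τ d
  h3 : ∀ g ∈ H, ¬ g.IsThreeCycle

namespace KData

variable {H : Subgroup (Perm α)} {τ : Perm α} {x a₀ b₀ : α}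

theorem τ_ne (K : KData H τ x a₀ b₀) {y : α} (hy : y ≠ x) : τ y ≠ y := fun h => hy ((K.hτx y).mp h)

theorem τ_ne_x (K : KData H τ x a₀ b₀) {y : α} (hy : y ≠ x) : τ y ≠ x := by
  intro h
  have h1 : τ (τ y) = τ x := by rw [h]
  rw [K.hτ2, (K.hτx x).mpr rfl] at h1
  exact hy h1

theorem τ_inj (K : KData H τ x a₀ b₀) {y z : α} (h : τ y = τ z) : y = z := τ.injective h

/-- (F1) -/
theorem F1 (K : KData H τ x a₀ b₀) (a d : α) (ha : a ≠ x) (h1 : d ≠ a) (h2 : d ≠ τ a) (h3 : d ≠ x) :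
    swap a (τ a) * swap x d ∉ H := by
  intro hW
  have hD := K.hd a d ha h3 h1 h2
  have hprod := H.mul_mem hW hD
  rw [swap_pair_mul a (τ a) x d (τ d) ha h1.symm (K.τ_ne_x ha) h2.symm] at hprod
  refine K.h3 _ hprod (isThreeCycle_swap_mul_swap_same h3 (K.τ_ne h3).symm (K.τ_ne_x h3).symm)

/-- (F2) -/
theorem F2 (K : KData H τ x a₀ b₀) (d : α) (h1 : d ≠ a₀) (h2 : d ≠ b₀) (h3 : d ≠ x) :
    swap a₀ b₀ * swap x d ∉ H := by
  intro hW
  have hτab : τ a₀ ≠ τ b₀ := fun h => K.hba (K.τ_inj h).symm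
  have hbτ' : a₀ ≠ τ b₀ := by
    intro h
    apply K.hbτ
    rw [h, K.hτ2]
  by_cases hd1 : d = τ a₀
  · subst hd1
    have hprod := H.mul_mem hW K.hv
    rw [swap_pair_mul a₀ b₀ x (τ a₀) (τ b₀) K.ha h1.symm K.hb h2.symm] at hprod
    exact K.h3 _ hprod (isThreeCycle_swap_mul_swap_same h3 hτab (K.τ_ne_x K.hb).symm)
  by_cases hd2 : d = τ b₀
  · subst hd2
    have hprod := H.mul_mem hW K.hv
    rw [swap_comm (τ a₀) (τ b₀),
      swap_pair_mul a₀ b₀ x (τ b₀) (τ a₀) K.ha h1.symm K.hb h2.symm] at hprod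
    exact K.h3 _ hprod (isThreeCycle_swap_mul_swap_same h3 hτab.symm (K.τ_ne_x K.ha).symm)
  obtain ⟨e, e1, e2, e3, e4, e5, e6, e7⟩ := K.hex d h1 hd1 h2 hd2 h3
  have hz := K.hd d e h3 e5 e6 e7
  set z := swap d (τ d) * swap e (τ e) with hzdef
  have hconj := H.mul_mem (H.mul_mem hz hW) (H.inv_mem hz)
  rw [conj_swap_mul_swap] at hconj
  have hτd_a : τ d ≠ a₀ := by intro h; apply hd1; rw [← h, K.hτ2]
  have hτd_b : τ d ≠ b₀ := by intro h; apply hd2; rw [← h, K.hτ2]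
  have hτe_a : τ e ≠ a₀ := by intro h; apply e2; rw [← h, K.hτ2]
  have hτe_b : τ e ≠ b₀ := by intro h; apply e4; rw [← h, K.hτ2]
  have hτe_d : τ e ≠ d := by intro h; apply e7; rw [← h, K.hτ2]
  have hτe_τd : τ e ≠ τ d := fun h => e6 (K.τ_inj h)
  have za : z a₀ = a₀ := by
    simp only [hzdef, Perm.mul_apply, swap_apply_def]; grind
  have zb : z b₀ = b₀ := by
    simp only [hzdef, Perm.mul_apply, swap_apply_def]; grind
  have zx : z x = x := by
    have := K.τ_ne_x h3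
    have := K.τ_ne_x e5
    simp only [hzdef, Perm.mul_apply, swap_apply_def]; grind
  have zd : z d = τ d := by
    simp only [hzdef, Perm.mul_apply, swap_apply_def]; grind
  rw [za, zb, zx, zd] at hconj
  have hprod := H.mul_mem hW hconj
  rw [swap_pair_mul' a₀ b₀ x d (τ d) K.ha h1.symm K.hb h2.symm] at hprod
  exact K.h3 _ hprod (isThreeCycle_swap_mul_swap_same h3.symm (K.τ_ne_x h3).symm (K.τ_ne h3).symm)

/-- (i) every `h ∈ H` fixing `a₀` and `τ a₀` fixes `x`. -/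
theorem fix_x_of_fix (K : KData H τ x a₀ b₀) (h : Perm α) (hh : h ∈ H) (h1 : h a₀ = a₀)
    (h2 : h (τ a₀) = τ a₀) : h x = x := by
  by_contra hne
  set y := h x with hy
  have hya : y ≠ a₀ := by
    intro e; rw [hy, ← h1] at e; exact K.ha (h.injective e).symm
  have hyτ : y ≠ τ a₀ := by
    intro e; rw [hy, ← h2] at e; exact (K.τ_ne_x K.ha) (h.injective e).symm
  have hD := K.hd a₀ y K.ha hne hya hyτ
  have hconj := H.mul_mem (H.mul_mem (H.inv_mem hh) hD) (H.inv_mem (H.inv_mem hh))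
  rw [conj_swap_mul_swap] at hconj
  have e1 : h⁻¹ a₀ = a₀ := by rw [Perm.inv_eq_iff_eq]; exact h1.symm
  have e2 : h⁻¹ (τ a₀) = τ a₀ := by rw [Perm.inv_eq_iff_eq]; exact h2.symm
  have e3 : h⁻¹ y = x := by rw [Perm.inv_eq_iff_eq]
  rw [e1, e2, e3] at hconj
  refine K.F1 a₀ (h⁻¹ (τ y)) K.ha ?_ ?_ ?_ hconj
  · intro e
    rw [Perm.inv_eq_iff_eq, h1] at e
    apply hyτ; rw [← e, K.hτ2]
  · intro e
    rw [Perm.inv_eq_iff_eq, h2] at e
    exact hya (K.τ_inj e)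
  · intro e
    rw [Perm.inv_eq_iff_eq, ← hy] at e
    exact K.τ_ne hne e

/-- (ii) every `h ∈ H` with `h a₀ = a₀` and `h (τ a₀) = b₀` fixes `x`. -/
theorem fix_x_of_move (K : KData H τ x a₀ b₀) (h : Perm α) (hh : h ∈ H) (h1 : h a₀ = a₀)
    (h2 : h (τ a₀) = b₀) : h x = x := by
  by_contra hne
  set w := h⁻¹ x with hw
  have hhw : h w = x := by rw [hw]; simp
  have hwx : w ≠ x := by intro e; rw [e] at hhw; exact hne hhw
  have hwa : w ≠ a₀ := by intro e; rw [e, h1] at hhw; exact K.ha hhw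
  have hwτ : w ≠ τ a₀ := by intro e; rw [e, h2] at hhw; exact K.hb hhw
  have hD := K.hd a₀ w K.ha hwx hwa hwτ
  have hconj := H.mul_mem (H.mul_mem hh hD) (H.inv_mem hh)
  rw [conj_swap_mul_swap, h1, h2, hhw] at hconj
  refine K.F2 (h (τ w)) ?_ ?_ ?_ hconj
  · intro e
    rw [← h1] at e
    apply hwτ; rw [← h.injective e, K.hτ2]
  · intro e
    rw [← h2] at e
    exact hwa (K.τ_inj (h.injective e))
  · intro e
    rw [← hhw] at e
    exact K.τ_ne hwx (h.injective e)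

/-- (iii) the counting contradiction. -/
theorem false (K : KData H τ x a₀ b₀) : False := by
  obtain ⟨g, hg, g1, g2⟩ := K.h2t a₀ (τ a₀) b₀ (K.τ_ne K.ha) K.hba
  have gx := K.fix_x_of_move g hg g1 g2
  let S := stabilizer H a₀
  have horb : ∀ y, y ≠ a₀ → orbit S y = {z | z ≠ a₀} := by
    intro y hy
    ext z
    constructor
    · rintro ⟨⟨⟨s, hs⟩, hs'⟩, rfl⟩
      intro e
      have hs1 : s a₀ = a₀ := hs'
      have e' : s y = a₀ := e
      rw [← hs1] at e'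
      exact hy (s.injective e')
    · intro hz
      obtain ⟨h, hh, h1, h2⟩ := K.h2t a₀ y z hy hz
      exact ⟨⟨⟨h, hh⟩, h1⟩, h2⟩
  have hidx : (stabilizer S x).index = (stabilizer S (τ a₀)).index := by
    rw [index_stabilizer, index_stabilizer, horb x K.ha.symm, horb _ (K.τ_ne K.ha)]
  have hle : stabilizer S (τ a₀) ≤ stabilizer S x := by
    rintro ⟨⟨s, hs⟩, hs'⟩ hs2
    exact K.fix_x_of_fix s hs hs' hs2
  have hge : stabilizer S x ≤ stabilizer S (τ a₀) := by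
    have h1 := Subgroup.relIndex_mul_index hle
    rw [hidx] at h1
    have hne : (stabilizer S (τ a₀)).index ≠ 0 := Subgroup.index_ne_zero_of_finite
    have h2 : (stabilizer S (τ a₀)).relIndex (stabilizer S x) = 1 := by
      have := Nat.eq_of_mul_eq_mul_right (Nat.pos_of_ne_zero hne) (h1.trans (one_mul _).symm)
      exact this
    exact Subgroup.relIndex_eq_one.mp h2
  have hgmem : (⟨⟨g, hg⟩, g1⟩ : S) ∈ stabilizer S x := gx
  have h3 : g (τ a₀) = τ a₀ := hge hgmem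
  rw [g2] at h3
  exact K.hbτ h3

end KData

end Cfsg.Agent.Lib.Helper38
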