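import Mathlib
import Cfsg.Agent.Lib.Helper38.ChooseParity
import Cfsg.Agent.Lib.Helper38.ThreeCycleK
import Cfsg.Agent.Lib.Helper38.InvolutionGroups
import Cfsg.Agent.Lib.Helper38.PrimitiveP
import Cfsg.Agent.Lib.Helper38.BigAction
import Cfsg.Agent.Lib.Helper38.FpfInvolution
import Cfsg.Agent.Lib.Helper38.SylowTwoMaxA

set_option autoImplicit false

namespace Cfsg.Agent.Lib.Helper38

open Equiv Equiv.Perm MulAction
open scoped Pointwise

/-- transport of the "unique coatom above" property along an order isomorphism -/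
theorem existsUnique_coatom_of_orderIso {L : Type*} [PartialOrder L] [OrderTop L] (e : L ≃o L)
    (A : L) (h : ∃! M : L, IsCoatom M ∧ A ≤ M) : ∃! M : L, IsCoatom M ∧ e A ≤ M := by
  obtain ⟨M, ⟨h1, h2⟩, hu⟩ := h
  refine ⟨e M, ⟨(e.isCoatom_iff M).mpr h1, e.monotone h2⟩, ?_⟩
  rintro M' ⟨h1', h2'⟩
  have h3 : e.symm M' = M := by
    apply hu
    refine ⟨(e.symm.isCoatom_iff M').mpr h1', ?_⟩
    rw [e.le_symm_apply]; exact h2'
  rw [← h3]; simp

theorem existsUnique_coatom_smul {G : Type*} [Group G] (R : Sylow 2 G) (c : G)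
    (h : ∃! M : Subgroup G, IsCoatom M ∧ (R : Subgroup G) ≤ M) :
    ∃! M : Subgroup G, IsCoatom M ∧ ((c • R : Sylow 2 G) : Subgroup G) ≤ M :=
  existsUnique_coatom_of_orderIso (MulAut.conj c).mapSubgroup (R : Subgroup G) h

variable {G : Type*} {α : Type*} [Group G] [Finite G] [MulAction G α] [FaithfulSMul G α]
  [DecidableEq α] [Fintype α]

/-- A Sylow `2`-subgroup fixing `x₀` is transitive on the other `2^k` points. -/
theorem sylow_transitive_off_point (hbig : BigAction G α) (R : Sylow 2 G) (k : ℕ) (hk : 2 ≤ k)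
    (hcard : Fintype.card α = 2 ^ k + 1) (x₀ : α)
    (hx₀ : (R : Subgroup G) ≤ stabilizer G ({x₀} : Set α)) (y z : α) (hy : y ≠ x₀) (hz : z ≠ x₀) :
    ∃ r ∈ (R : Subgroup G), r • y = z := by
  have h4 : 4 ≤ 2 ^ k := by
    calc 4 = 2 ^ 2 := by norm_num
      _ ≤ 2 ^ k := Nat.pow_le_pow_right (by norm_num) hk
  have hfix : ∀ r ∈ (R : Subgroup G), r • x₀ = x₀ := by
    intro r hr
    have := hx₀ hr
    rw [mem_stabilizer_iff, Set.smul_set_singleton] at this
    simpa using this
  set O : Set α := orbit (R : Subgroup G) y with hO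
  have hRO : (R : Subgroup G) ≤ stabilizer G O := by
    intro r hr
    rw [mem_stabilizer_iff]
    exact MulAction.smul_orbit (⟨r, hr⟩ : (R : Subgroup G)) y
  have hodd := not_two_dvd_choose_of_le_stabilizer hbig R O hRO
  have hx₀O : x₀ ∉ O := by
    rintro ⟨⟨r, hr⟩, hr'⟩
    have h1 : r • y = x₀ := hr'
    have h2 : r • y = r • x₀ := by rw [h1, hfix r hr]
    exact hy (MulAction.injective r h2)
  have hyO : y ∈ O := mem_orbit_self y
  have hsub : O ⊆ ({x₀} : Set α)ᶜ := by
    intro u hu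
    simp only [Set.mem_compl_iff, Set.mem_singleton_iff]
    intro h; exact hx₀O (h ▸ hu)
  have hcompl : (({x₀} : Set α)ᶜ).ncard = 2 ^ k := by
    have := Set.ncard_add_ncard_compl ({x₀} : Set α)
    rw [Nat.card_eq_fintype_card, hcard, Set.ncard_singleton] at this
    omega
  have hle : O.ncard ≤ 2 ^ k := by
    rw [← hcompl]; exact Set.ncard_le_ncard hsub
  have hpos : 0 < O.ncard := by rw [Set.ncard_pos]; exact ⟨y, hyO⟩
  have hcases : O.ncard = 1 ∨ O.ncard = 2 ^ k := by
    by_contra hcon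
    push Not at hcon
    apply hodd
    rw [hcard]
    exact two_dvd_choose_two_pow_add_one (by omega) (by omega)
  rcases hcases with h1 | h1
  · exfalso
    obtain ⟨w, hw⟩ := Set.ncard_eq_one.mp h1
    have hwy : w = y := by
      have : y ∈ ({w} : Set α) := hw ▸ hyO
      simpa using this.symm
    have hfy : ∀ r ∈ (R : Subgroup G), r • y = y := by
      intro r hr
      have : r • y ∈ O := ⟨⟨r, hr⟩, rfl⟩
      rw [hw, hwy] at this
      simpa using this
    have hR2 : (R : Subgroup G) ≤ stabilizer G ({x₀, y} : Set α) := by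
      intro r hr
      rw [mem_stabilizer_iff, Set.smul_set_insert, Set.smul_set_singleton, hfix r hr, hfy r hr]
    have := not_two_dvd_choose_of_le_stabilizer hbig R _ hR2
    rw [Set.ncard_pair hy.symm, hcard] at this
    exact this (two_dvd_choose_two_pow_add_one (le_refl 2) (by omega))
  · have hOeq : O = ({x₀} : Set α)ᶜ :=
      Set.eq_of_subset_of_ncard_le hsub (by rw [hcompl, h1])
    have hzO : z ∈ O := by rw [hOeq]; simpa using hz
    obtain ⟨⟨r, hr⟩, hr'⟩ := hzO
    exact ⟨r, hr, hr'⟩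

/-- the main step of the direction `n = 2^k+1 ⇒ unique maximal overgroup`, for a Sylow subgroup
containing enough explicit elements. -/
theorem unique_aux (hbig : BigAction G α) (R : Sylow 2 G) (k : ℕ) (hk : 2 ≤ k)
    (hcard : Fintype.card α = 2 ^ k + 1) (τ : Perm α) (x a₀ b₀ : α)
    (hτ2 : ∀ y, τ (τ y) = y) (hτx : ∀ y, τ y = y ↔ y = x) (ha : a₀ ≠ x) (hb : b₀ ≠ x)
    (hba : b₀ ≠ a₀) (hbτ : b₀ ≠ τ a₀)
    (hd : ∀ a b, a ≠ x → b ≠ x → b ≠ a → b ≠ τ a →
      ∃ g ∈ (R : Subgroup G), MulAction.toPerm g = swap a (τ a) * swap b (τ b))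
    (hv : ∃ g ∈ (R : Subgroup G), MulAction.toPerm g = swap a₀ b₀ * swap (τ a₀) (τ b₀)) :
    ∃! M : Subgroup G, IsCoatom M ∧ (R : Subgroup G) ≤ M := by
  have h4 : 4 ≤ 2 ^ k := by
    calc 4 = 2 ^ 2 := by norm_num
      _ ≤ 2 ^ k := Nat.pow_le_pow_right (by norm_num) hk
  have hoddcard : ¬ 2 ∣ Fintype.card α := by
    rw [hcard]
    have : 2 ∣ 2 ^ k := dvd_pow_self 2 (by omega)
    omega
  obtain ⟨s₁, hs₁, hR₁⟩ := exists_invariant_subset (α := α) (R : Subgroup G) R.isPGroup' 1
    (by rwa [Nat.choose_one_right])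
  obtain ⟨x₀, rfl⟩ := Set.ncard_eq_one.mp hs₁
  have hc₁ := Set.ncard_add_ncard_compl ({x₀} : Set α)
  rw [Nat.card_eq_fintype_card] at hc₁
  have hM₀ : IsCoatom (stabilizer G ({x₀} : Set α)) := hbig.hmax _
    (by rw [← Set.ncard_pos]; omega) (by rw [← Set.ncard_pos]; omega)
    (by rw [Nat.card_eq_fintype_card]; omega)
  refine ⟨_, ⟨hM₀, hR₁⟩, ?_⟩
  rintro M ⟨hMco, hRM⟩
  by_contra hne
  have hnle : ¬ M ≤ stabilizer G ({x₀} : Set α) := fun hle =>
    hne ((hMco.le_iff_eq hM₀.1).mp hle).symm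
  obtain ⟨m₀, hm₀, hm₀'⟩ := SetLike.not_le_iff_exists.mp hnle
  have hm₀x : m₀ • x₀ ≠ x₀ := by
    intro h
    apply hm₀'
    rw [mem_stabilizer_iff, Set.smul_set_singleton, h]
  have hfix : ∀ r ∈ (R : Subgroup G), r • x₀ = x₀ := by
    intro r hr
    have := hR₁ hr
    rw [mem_stabilizer_iff, Set.smul_set_singleton] at this
    simpa using this
  have hRt := sylow_transitive_off_point hbig R k hk hcard x₀ hR₁
  -- M is transitive
  have hMt : ∀ y, ∃ m ∈ M, m • x₀ = y := by
    intro y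
    by_cases hy : y = x₀
    · exact ⟨1, M.one_mem, by rw [one_smul, hy]⟩
    · obtain ⟨r, hr, hr'⟩ := hRt _ y hm₀x hy
      exact ⟨r * m₀, M.mul_mem (hRM hr) hm₀, by rw [mul_smul, hr']⟩
  set H : Subgroup (Perm α) := M.map (MulAction.toPermHom G α) with hH
  have hmemH : ∀ m ∈ M, MulAction.toPerm m ∈ H := fun m hm => ⟨m, hm, rfl⟩
  have h2t : ∀ a b c : α, b ≠ a → c ≠ a → ∃ h ∈ H, h a = a ∧ h b = c := by
    intro a b c hba hca
    obtain ⟨m, hm, hma⟩ := hMt a
    have hb' : m⁻¹ • b ≠ x₀ := by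
      intro h; apply hba; rw [← hma, ← h, smul_inv_smul]
    have hc' : m⁻¹ • c ≠ x₀ := by
      intro h; apply hca; rw [← hma, ← h, smul_inv_smul]
    obtain ⟨r, hr, hr'⟩ := hRt _ _ hb' hc'
    refine ⟨_, hmemH (m * r * m⁻¹) (M.mul_mem (M.mul_mem hm (hRM hr)) (M.inv_mem hm)), ?_, ?_⟩
    · change (m * r * m⁻¹) • a = a
      rw [mul_smul, mul_smul, ← hma, inv_smul_smul, hfix r hr]
    · change (m * r * m⁻¹) • b = c
      rw [mul_smul, mul_smul, hr', smul_inv_smul]
  -- there is a three-cycle in H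
  have h3 : ∃ g ∈ H, g.IsThreeCycle := by
    by_contra hcon
    push Not at hcon
    have hτa : τ a₀ ≠ a₀ := fun h => ha ((hτx _).mp h)
    have hτb : τ b₀ ≠ b₀ := fun h => hb ((hτx _).mp h)
    have hτax : τ a₀ ≠ x := by
      intro h
      have h1 : τ (τ a₀) = τ x := by rw [h]
      rw [hτ2, (hτx x).mpr rfl] at h1
      exact ha h1
    have hτbx : τ b₀ ≠ x := by
      intro h
      have h1 : τ (τ b₀) = τ x := by rw [h]
      rw [hτ2, (hτx x).mpr rfl] at h1
      exact hb h1
    have hτab : τ a₀ ≠ τ b₀ := fun h => hba (τ.injective h).symm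
    have haτb : a₀ ≠ τ b₀ := by
      intro h; apply hbτ; rw [h, hτ2]
    have K : KData H τ x a₀ b₀ :=
      { h2t := h2t
        hτ2 := hτ2
        hτx := hτx
        hd := by
          intro a b h1 h2 h3 h4
          obtain ⟨g, hg, hg'⟩ := hd a b h1 h2 h3 h4
          rw [← hg']; exact hmemH g (hRM hg)
        ha := ha
        hb := hb
        hba := hba
        hbτ := hbτ
        hv := by
          obtain ⟨g, hg, hg'⟩ := hv
          rw [← hg']; exact hmemH g (hRM hg)
        hex := by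
          intro d d1 d2 d3 d4 d5
          have h6 : 6 ≤ Fintype.card α := by
            have : ({a₀, τ a₀, b₀, τ b₀, x, d} : Finset α).card = 6 := by
              rw [Finset.card_insert_of_notMem, Finset.card_insert_of_notMem,
                Finset.card_insert_of_notMem, Finset.card_insert_of_notMem,
                Finset.card_insert_of_notMem, Finset.card_singleton]
              · simpa using d5.symm
              · simp only [Finset.mem_insert, Finset.mem_singleton, not_or]
                exact ⟨hτbx, d4.symm⟩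
              · simp only [Finset.mem_insert, Finset.mem_singleton, not_or]
                exact ⟨hτb.symm, hb, d3.symm⟩
              · simp only [Finset.mem_insert, Finset.mem_singleton, not_or]
                exact ⟨hbτ.symm, hτab, hτax, d2.symm⟩
              · simp only [Finset.mem_insert, Finset.mem_singleton, not_or]
                exact ⟨hτa.symm, hba.symm, haτb, ha, d1.symm⟩
            rw [← this]; exact Finset.card_le_univ _
          have hk3 : 3 ≤ k := by
            by_contra hk'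
            have : k = 2 := by omega
            rw [this] at hcard
            omega
          have h8 : 8 ≤ 2 ^ k := by
            calc 8 = 2 ^ 3 := by norm_num
              _ ≤ 2 ^ k := Nat.pow_le_pow_right (by norm_num) hk3
          obtain ⟨e, -, he⟩ := exists_mem_notMem_finset (S := (Set.univ : Set α))
            ({a₀, τ a₀, b₀, τ b₀, x, d, τ d} : Finset α) (by
              rw [Set.ncard_univ, Nat.card_eq_fintype_card, hcard]
              have : ({a₀, τ a₀, b₀, τ b₀, x, d, τ d} : Finset α).card ≤ 7 := by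
                refine (Finset.card_insert_le _ _).trans ?_
                refine Nat.succ_le_succ ((Finset.card_insert_le _ _).trans ?_)
                refine Nat.succ_le_succ ((Finset.card_insert_le _ _).trans ?_)
                refine Nat.succ_le_succ ((Finset.card_insert_le _ _).trans ?_)
                exact Nat.succ_le_succ Finset.card_le_three
              omega)
          simp only [Finset.mem_insert, Finset.mem_singleton, not_or] at he
          exact ⟨e, he.1, he.2.1, he.2.2.1, he.2.2.2.1, he.2.2.2.2.1, he.2.2.2.2.2.1,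
            he.2.2.2.2.2.2⟩
        h3 := hcon }
    exact K.false
  obtain ⟨g, hgH, hg3⟩ := h3
  -- H is primitive
  have hprim : IsPreprimitive H α := by
    apply isPreprimitive_of_is_two_pretransitive
    rw [is_two_pretransitive_iff]
    intro a b c d hab hcd
    obtain ⟨m₁, hm₁, hm₁a⟩ := hMt a
    obtain ⟨m₂, hm₂, hm₂c⟩ := hMt c
    have hmac : (m₂ * m₁⁻¹) • a = c := by
      rw [mul_smul, ← hm₁a, inv_smul_smul, hm₂c]
    have hb' : (m₂ * m₁⁻¹) • b ≠ c := by
      intro h
      rw [← hmac] at h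
      exact hab (MulAction.injective _ h).symm
    obtain ⟨h, hh, hhc, hhb⟩ := h2t c _ d hb' hcd.symm
    refine ⟨⟨h, hh⟩ * ⟨_, hmemH (m₂ * m₁⁻¹) (M.mul_mem hm₂ (M.inv_mem hm₁))⟩, ?_, ?_⟩
    · change h ((m₂ * m₁⁻¹) • a) = c
      rw [hmac, hhc]
    · change h ((m₂ * m₁⁻¹) • b) = d
      exact hhb
  have halt : alternatingGroup α ≤ H :=
    alternatingGroup_le_of_isPreprimitive_of_isThreeCycle_mem hprim hg3 hgH
  apply hMco.1
  apply eq_top_of_alt_le (α := α) M (not_two_dvd_index_of_sylow_le R hRM)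
  intro σ hσ
  obtain ⟨m, hm, hmσ⟩ := halt hσ
  exact ⟨m, hm, hmσ⟩

omit [Fintype α] in
theorem vcomm (t : Perm α) (ht2 : ∀ y, t (t y) = y) (x y : α) (h1 : t x ≠ x) (h2 : t y ≠ y)
    (hyx : y ≠ x) (hyt : y ≠ t x) (z : α) :
    (swap x y * swap (t x) (t y)) (t z) = t ((swap x y * swap (t x) (t y)) z) := by
  have hinj := t.injective
  simp only [Perm.mul_apply, swap_apply_def]
  grind

omit [Fintype α] in
theorem vsq (t : Perm α) (x y : α) (h1 : t x ≠ x) (h2 : t y ≠ y)
    (hyx : y ≠ x) (hyt : y ≠ t x) (hxt : x ≠ t y) :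
    (swap x y * swap (t x) (t y)) ^ 2 = 1 := by
  have hinj := t.injective
  ext z
  simp only [pow_two, Perm.mul_apply, swap_apply_def, Perm.one_apply]
  grind

/-- direction `n = 2^k+1 ⇒ unique maximal overgroup`. -/
theorem unique_of_two_pow_add_one (hbig : BigAction G α) (R : Sylow 2 G) (k : ℕ) (hk : 2 ≤ k)
    (hcard : Fintype.card α = 2 ^ k + 1) :
    ∃! M : Subgroup G, IsCoatom M ∧ (R : Subgroup G) ≤ M := by
  have h4 : 4 ≤ 2 ^ k := by
    calc 4 = 2 ^ 2 := by norm_num
      _ ≤ 2 ^ k := Nat.pow_le_pow_right (by norm_num) hk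
  have hkk : 2 * 2 ^ (k - 1) = 2 ^ k := by
    obtain ⟨j, rfl⟩ : ∃ j, k = j + 1 := ⟨k - 1, by omega⟩
    rw [Nat.add_sub_cancel, pow_succ, mul_comm]
  obtain ⟨τ, hτ⟩ := (exists_with_cycleType_iff α (m := Multiset.replicate (2 ^ (k - 1)) 2)).mpr
    ⟨by rw [Multiset.sum_replicate, smul_eq_mul, mul_comm, hkk, hcard]; omega,
     fun a ha => by rw [Multiset.eq_of_mem_replicate ha]⟩
  have hτ2 := sq_eq_of_cycleType_replicate hτ
  have hsupp := card_support_of_cycleType_replicate hτ
  rw [hkk] at hsupp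
  have hcompl : (τ.supportᶜ).card = 1 := by
    rw [Finset.card_compl, hsupp, hcard]; omega
  obtain ⟨x, hx⟩ := Finset.card_eq_one.mp hcompl
  have hτx : ∀ y, τ y = y ↔ y = x := by
    intro y
    rw [← Perm.notMem_support, ← Finset.mem_compl, hx, Finset.mem_singleton]
  have huniv : (Set.univ : Set α).ncard = 2 ^ k + 1 := by
    rw [Set.ncard_univ, Nat.card_eq_fintype_card, hcard]
  obtain ⟨a₀, -, ha⟩ := exists_mem_ne1 (S := (Set.univ : Set α)) (by omega) x
  obtain ⟨b₀, -, hb, hba, hbτ⟩ := exists_mem_ne3 (S := (Set.univ : Set α)) (by omega) x a₀ (τ a₀)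
  have hτa : τ a₀ ≠ a₀ := fun h => ha ((hτx _).mp h)
  have hτb : τ b₀ ≠ b₀ := fun h => hb ((hτx _).mp h)
  have haτb : a₀ ≠ τ b₀ := by
    intro h; apply hbτ; rw [h, hτ2]
  set v := swap a₀ b₀ * swap (τ a₀) (τ b₀) with hv
  have hQ : IsPGroup 2 (Subgroup.zpowers v ⊔ orbPres τ hτ2 : Subgroup (Perm α)) :=
    isPGroup_sup_orbPres τ hτ2 v (vsq τ a₀ b₀ hτa hτb hba hbτ haτb)
      (vcomm τ hτ2 a₀ b₀ hτa hτb hba hbτ)
  have hQG := hQ.comap_of_injective (MulAction.toPermHom G α) MulAction.toPerm_injective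
  obtain ⟨R₀, hR₀⟩ := hQG.exists_le_sylow
  obtain ⟨c, hc⟩ := MulAction.exists_smul_eq G R₀ R
  rw [← hc]
  apply existsUnique_coatom_smul
  apply unique_aux hbig R₀ k hk hcard τ x a₀ b₀ hτ2 hτx ha hb hba hbτ
  · intro a b h1 h2 h3 h4
    have hτa' : τ a ≠ a := fun h => h1 ((hτx _).mp h)
    have hτb' : τ b ≠ b := fun h => h2 ((hτx _).mp h)
    have heven : swap a (τ a) * swap b (τ b) ∈ alternatingGroup α := by
      simp [hτa'.symm, hτb'.symm]
    obtain ⟨g, hg⟩ := hbig.hA _ heven
    refine ⟨g, hR₀ ?_, hg⟩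
    rw [Subgroup.mem_comap]
    apply Subgroup.mem_sup_right
    change MulAction.toPerm g ∈ _
    rw [hg, mem_orbPres]
    intro y
    have h5 : a ≠ τ b := by intro h; apply h4; rw [h, hτ2]
    simp only [Perm.mul_apply, swap_apply_def]
    grind
  · have heven : v ∈ alternatingGroup α := by
      have h2 : τ a₀ ≠ τ b₀ := fun h => hba (τ.injective h).symm
      simp [hv, hba.symm, h2]
    obtain ⟨g, hg⟩ := hbig.hA _ heven
    refine ⟨g, hR₀ ?_, hg⟩
    rw [Subgroup.mem_comap]
    apply Subgroup.mem_sup_left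
    change MulAction.toPerm g ∈ _
    rw [hg]
    exact Subgroup.mem_zpowers v

end Cfsg.Agent.Lib.Helper38
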