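import Mathlib
import Cfsg.Agent.Lib.Helper38.SylowTwoMaxA
import Cfsg.Agent.Lib.Helper38.SylowTwoMaxB

set_option autoImplicit false

namespace Cfsg.Agent.Lib.Helper38

open Equiv Equiv.Perm MulAction
open scoped Pointwise

theorem sylow_two_unique_coatom_iff {G : Type*} {α : Type*} [Group G] [Finite G] [MulAction G α]
    [FaithfulSMul G α] [DecidableEq α] [Fintype α] (hbig : BigAction G α)
    (hn : 5 ≤ Fintype.card α) (R : Sylow 2 G) :
    (∃! M : Subgroup G, IsCoatom M ∧ (R : Subgroup G) ≤ M) ↔
      ∃ k : ℕ, 2 ≤ k ∧ Fintype.card α = 2 ^ k + 1 := by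
  constructor
  · intro hu
    by_contra hcon
    obtain ⟨a, r, hnar, hr⟩ := exists_two_pow_add (n := Fintype.card α) (by omega)
    rcases Nat.lt_or_ge r 2 with hr2 | hr2
    · interval_cases r
      · -- power of two
        have ha : 3 ≤ a := by
          by_contra h
          have : a ≤ 2 := by omega
          have : 2 ^ a ≤ 2 ^ 2 := Nat.pow_le_pow_right (by norm_num) this
          omega
        obtain ⟨a', rfl⟩ : ∃ a', a = a' + 1 := ⟨a - 1, by omega⟩
        exact not_unique_two_pow hbig R a' (by omega) (by simpa using hnar) hu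
      · apply hcon
        refine ⟨a, ?_, hnar⟩
        by_contra h
        have : a ≤ 1 := by omega
        have : 2 ^ a ≤ 2 ^ 1 := Nat.pow_le_pow_right (by norm_num) this
        omega
    · have ha : 1 ≤ a := by
        by_contra h
        have : a = 0 := by omega
        subst this
        simp at hr
        omega
      have h2a : 2 ∣ 2 ^ a := dvd_pow_self 2 (by omega)
      by_cases heven : 2 ∣ Fintype.card α
      · obtain ⟨h, hh⟩ := heven
        exact not_unique_even hbig R a r (h - 1) hnar hr (by omega) (by omega) (by omega) hu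
      · exact not_unique_odd hbig R a r hnar hr (by omega) heven hu
  · rintro ⟨k, hk, hcard⟩
    exact unique_of_two_pow_add_one hbig R k hk hcard

theorem bigAction_perm (α : Type*) [DecidableEq α] [Fintype α] : BigAction (Perm α) α where
  hA := fun σ _ => ⟨σ, by ext; rfl⟩
  hmax := fun _ h1 h2 h3 => Equiv.Perm.isCoatom_stabilizer h1 h2 h3
  htrans := fun _ => Set.powersetCard.isPretransitive

theorem bigAction_alternatingGroup (α : Type*) [DecidableEq α] [Fintype α]
    (h : 3 ≤ Nat.card α) : BigAction (alternatingGroup α) α where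
  hA := fun σ hσ => ⟨⟨σ, hσ⟩, by ext; rfl⟩
  hmax := fun _ h1 h2 h3 => alternatingGroup.isCoatom_stabilizer h1 h2 h3
  htrans := fun _ => Set.powersetCard.isPretransitive_alternatingGroup h

end Cfsg.Agent.Lib.Helper38
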