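import Mathlib
import Cfsg.Agent.Lib.Helper34.QdAut
import Cfsg.Agent.Lib.Helper46.SL2Nat

/-!
# Groups with trivial-intersection Sylow `p`-subgroups do not involve `Qd(p)` (helper38)
-/

set_option autoImplicit false

namespace Cfsg.Agent.Lib.Helper38.TIQd

open Cfsg
open scoped Pointwise

variable {G : Type*} [Group G] [Finite G] {p : ℕ} [Fact p.Prime]

/-- `p`-elements of the normaliser of a Sylow `p`-subgroup lie in it. -/
theorem mem_sylow_of_mem_normalizer (P : Sylow p G) {h : G}
    (hN : h ∈ Subgroup.normalizer ((P : Subgroup G) : Set G)) (k : ℕ) (hk : h ^ p ^ k = 1) :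
    h ∈ P := by
  have hZ : IsPGroup p (Subgroup.zpowers h) := by
    rintro ⟨x, hx⟩
    obtain ⟨i, rfl⟩ := Subgroup.mem_zpowers_iff.1 hx
    refine ⟨k, Subtype.ext ?_⟩
    show (h ^ i) ^ p ^ k = 1
    rw [← zpow_natCast, ← zpow_mul, mul_comm, zpow_mul, zpow_natCast, hk, one_zpow]
  have hle : Subgroup.zpowers h ≤ Subgroup.normalizer ((P : Subgroup G) : Set G) := by
    rw [Subgroup.zpowers_le]; exact hN
  have hsup := IsPGroup.to_sup_of_normal_right' hZ P.2 hle
  have := P.is_maximal' hsup le_sup_right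
  have h1 : h ∈ Subgroup.zpowers h ⊔ (P : Subgroup G) :=
    (le_sup_left : Subgroup.zpowers h ≤ _) (Subgroup.mem_zpowers h)
  rw [this] at h1
  exact h1

theorem not_involves_qd_of_TI (P : Sylow p G)
    (hTI : ∀ g u : G, u ∈ P → u ≠ 1 → g⁻¹ * u * g ∈ P →
      g ∈ Subgroup.normalizer ((P : Subgroup G) : Set G)) :
    ¬ Involves ↥(qd p) G := by
  apply Cfsg.Agent.Lib.Helper34.not_involves_qd_of_automizers
  rintro Q hQ ⟨H, K, hn, hCK, hKH, hHN, ⟨e⟩⟩
  set f : H →* Matrix.SpecialLinearGroup (Fin 2) (ZMod p) :=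
    e.toMonoidHom.comp (QuotientGroup.mk' (K.subgroupOf H)) with hf
  have hfs : Function.Surjective f := e.surjective.comp (QuotientGroup.mk'_surjective _)
  have hfk : ∀ s : H, (s : G) ∈ K → f s = 1 := by
    intro s hs
    have h1 : QuotientGroup.mk' (K.subgroupOf H) s = 1 :=
      (QuotientGroup.eq_one_iff s).2 (Subgroup.mem_subgroupOf.2 hs)
    show e (QuotientGroup.mk' (K.subgroupOf H) s) = 1
    rw [h1, map_one]
  have hfk' : ∀ s : H, f s = 1 → (s : G) ∈ K := by
    intro s hs
    have h1 : e (QuotientGroup.mk' (K.subgroupOf H) s) = 1 := hs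
    rw [MulEquiv.map_eq_one_iff] at h1
    exact Subgroup.mem_subgroupOf.1 ((QuotientGroup.eq_one_iff s).1 h1)
  -- every p-element of H lies in K
  have key : ∀ h : H, ∀ k : ℕ, h ^ p ^ k = 1 → f h = 1 := by
    intro h k hk
    by_cases hQ1 : Q = ⊥
    · apply hfk
      apply hCK
      rw [hQ1, Subgroup.mem_centralizer_iff]
      intro x hx
      have : x = 1 := hx
      rw [this]; simp
    · obtain ⟨P', hQP'⟩ := hQ.exists_le_sylow
      obtain ⟨c, rfl⟩ := MulAction.exists_smul_eq G P P'
      obtain ⟨u, huQ, hu1⟩ := (Subgroup.ne_bot_iff_exists_ne_one.1 hQ1 |> fun ⟨a, ha⟩ =>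
        (⟨a.1, a.2, fun h => ha (Subtype.ext h)⟩ : ∃ u ∈ Q, u ≠ 1))
      have hmem : ∀ x : G, x ∈ (c • P : Sylow p G) → c⁻¹ * x * c ∈ P := by
        intro x hx
        have h1 : x ∈ (MulAut.conj c • (P : Subgroup G)) := hx
        rw [Subgroup.mem_pointwise_smul_iff_inv_smul_mem] at h1
        have h2 : c⁻¹ * x * c ∈ (P : Subgroup G) := by
          simpa [MulAut.smul_def, MulAut.conj_apply] using h1
        exact h2
      have hHN' : ∀ n ∈ H, c⁻¹ * n * c ∈ Subgroup.normalizer ((P : Subgroup G) : Set G) := by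
        intro n hn'
        have h0 : n⁻¹ ∈ Subgroup.normalizer (Q : Set G) := inv_mem (hHN hn')
        have h1 : n⁻¹ * u * n ∈ Q := by
          have := (Subgroup.mem_normalizer_iff.1 h0 u).1 huQ
          simpa using this
        have hu' : c⁻¹ * u * c ∈ P := hmem u (hQP' huQ)
        have h2 : c⁻¹ * (n⁻¹ * u * n) * c ∈ P := hmem _ (hQP' h1)
        apply hTI (c⁻¹ * n * c) (c⁻¹ * u * c) hu'
        · intro h3
          apply hu1
          have : u = c * (c⁻¹ * u * c) * c⁻¹ := by group
          rw [this, h3]; group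
        · convert h2 using 1
          group
      set φ : H →* G := (MulAut.conj c⁻¹).toMonoidHom.comp H.subtype with hφ
      have hφa : ∀ s : H, φ s = c⁻¹ * (s : G) * c := by
        intro s
        simp [hφ, MulAut.conj_apply]
      have hφi : Function.Injective φ :=
        (MulAut.conj c⁻¹).injective.comp H.subtype_injective
      set S : Subgroup H := (P : Subgroup G).comap φ with hS
      have hSp : IsPGroup p S := P.2.comap_of_injective φ hφi
      have hSn : S.Normal := by
        constructor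
        intro s hs n
        show φ (n * s * n⁻¹) ∈ (P : Subgroup G)
        rw [map_mul, map_mul, map_inv]
        have h1 := hHN' n n.2
        rw [← hφa] at h1
        exact (Subgroup.mem_normalizer_iff.1 h1 (φ s)).1 hs
      have hSfn : (S.map f).Normal := Subgroup.Normal.map hSn f hfs
      have hbot := Cfsg.Agent.Lib.Helper46.SL2Nat.normal_pgroup_eq_bot p (S.map f) (hSp.map f)
      have hhS : h ∈ S := by
        show φ h ∈ (P : Subgroup G)
        have h1 := hHN' h h.2
        rw [← hφa] at h1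
        exact mem_sylow_of_mem_normalizer P h1 k (by rw [← map_pow, hk, map_one])
      have h2 : f h ∈ S.map f := Subgroup.mem_map_of_mem f hhS
      rw [hbot] at h2
      exact h2
  -- contradiction from an element of order p
  obtain ⟨h, hh⟩ := hfs (Cfsg.Agent.Lib.Helper46.SL2Nat.u (1 : ZMod p))
  have hpos : orderOf h ≠ 0 := (orderOf_pos h).ne'
  obtain ⟨a, m, hm, hnm⟩ := Nat.exists_eq_pow_mul_and_not_dvd hpos p (Fact.out : p.Prime).ne_one
  have h1 : (h ^ m) ^ p ^ a = 1 := by
    rw [← pow_mul, mul_comm, ← hnm, pow_orderOf_eq_one]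
  have h2 := key (h ^ m) a h1
  rw [map_pow, hh, Cfsg.Agent.Lib.Helper46.SL2Nat.u_pow,
    Cfsg.Agent.Lib.Helper46.SL2Nat.u_eq_one_iff] at h2
  apply hm
  rw [nsmul_eq_mul, mul_one] at h2
  exact (ZMod.natCast_eq_zero_iff m p).1 h2

end Cfsg.Agent.Lib.Helper38.TIQd
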