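import Mathlib

/-!
Common group-theoretic lemmas for groups with three automorphism orbits.
-/

set_option autoImplicit false

namespace Cfsg.Agent.Lib.Helper38

open scoped IsMulCommutative

theorem card_eq_three_of_reps {Q : Type*} (a b c : Q) (hab : a ≠ b) (hac : a ≠ c) (hbc : b ≠ c)
    (h : ∀ x, x = a ∨ x = b ∨ x = c) : Nat.card Q = 3 := by
  classical
  let _ : Fintype Q := ⟨{a, b, c}, by intro x; simpa using h x⟩
  rw [Nat.card_eq_fintype_card]
  exact Finset.card_eq_three.2 ⟨a, b, c, hab, hac, hbc, rfl⟩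

theorem reps_of_card_eq_three {Q : Type*} (hQ : Nat.card Q = 3) (a b c : Q) (hab : a ≠ b)
    (hac : a ≠ c) (hbc : b ≠ c) : ∀ x, x = a ∨ x = b ∨ x = c := by
  classical
  have : Finite Q := Nat.finite_of_card_ne_zero (by omega)
  have : Fintype Q := Fintype.ofFinite Q
  have h1 : ({a, b, c} : Finset Q) = Finset.univ := by
    apply Finset.eq_univ_of_card
    rw [← Nat.card_eq_fintype_card, hQ]
    exact Finset.card_eq_three.2 ⟨a, b, c, hab, hac, hbc, rfl⟩
  intro x
  have : x ∈ ({a, b, c} : Finset Q) := h1 ▸ Finset.mem_univ x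
  simpa using this

theorem orbit_mk_eq_iff {G : Type*} [Group G] (g h : G) :
    (Quotient.mk'' g : MulAction.orbitRel.Quotient (MulAut G) G) = Quotient.mk'' h ↔
      ∃ α : MulAut G, α h = g := by
  rw [Quotient.eq'', MulAction.orbitRel_apply, MulAction.mem_orbit_iff]
  rfl

section
variable {G : Type*} [Group G] [Finite G] {p q : ℕ} [hp : Fact p.Prime] [hq : Fact q.Prime]

theorem index_sylow_eq (hpq : p ≠ q) {n : ℕ} (hcard : Nat.card G = p ^ n * q) (S : Sylow p G) :
    (S : Subgroup G).index = q ∧ Nat.card S = p ^ n := by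
  have h1 := (S : Subgroup G).card_mul_index
  have h2 := S.not_dvd_index
  obtain ⟨m, hm⟩ := IsPGroup.iff_card.1 S.2
  have hm' : Nat.card (S : Subgroup G) = p ^ m := hm
  rw [hm', hcard] at h1
  have hcq : Nat.Coprime p q := (Nat.coprime_primes hp.out hq.out).2 hpq
  have hci : Nat.Coprime p (S : Subgroup G).index := (Nat.Prime.coprime_iff_not_dvd hp.out).2 h2
  have h3 : p ^ m ∣ p ^ n := (Nat.Coprime.pow_left m hcq).dvd_of_dvd_mul_right ⟨_, h1.symm⟩
  have h4 : p ^ n ∣ p ^ m := (Nat.Coprime.pow_left n hci).dvd_of_dvd_mul_right ⟨_, h1⟩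
  have h5 : p ^ m = p ^ n := Nat.dvd_antisymm h3 h4
  rw [h5] at h1
  exact ⟨Nat.eq_of_mul_eq_mul_left (pow_pos hp.out.pos n) h1, hm'.trans h5⟩

omit [Finite G] hp in
theorem gen_of_index (P : Subgroup G) [P.Normal] (hidx : P.index = q) (y : G) (hy : y ∉ P) :
    ∀ g : G, ∃ u ∈ P, ∃ k : ℕ, g = u * y ^ k := by
  intro g
  have hc : Nat.card (G ⧸ P) = q := by rw [← Subgroup.index_eq_card, hidx]
  have hy1 : (y : G ⧸ P) ≠ 1 := fun h => hy ((QuotientGroup.eq_one_iff y).1 h)
  obtain ⟨k, hk⟩ := mem_powers_of_prime_card (g' := (g : G ⧸ P)) hc hy1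
  refine ⟨g * (y ^ k)⁻¹, ?_, k, by group⟩
  rw [← QuotientGroup.eq_one_iff]
  simp only [QuotientGroup.mk_mul, QuotientGroup.mk_inv, QuotientGroup.mk_pow]
  have hk' : (y : G ⧸ P) ^ k = g := hk
  rw [hk', mul_inv_cancel]

omit [Finite G] hp hq in
theorem norm_eq_one (P : Subgroup G) [P.Normal] [IsMulCommutative P] (y : G) (hy : y ^ q = 1)
    (hfpf : ∀ v ∈ P, y * v * y⁻¹ = v → v = 1) (v : P) :
    ∏ i ∈ Finset.range q, ((MulAut.conjNormal y : MulAut P).toMonoidHom)^[i] v = 1 := by
  set t := (MulAut.conjNormal y : MulAut P).toMonoidHom with ht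
  have hiter : ∀ (k : ℕ) (w : P), t^[k] w = MulAut.conjNormal (y ^ k) w := by
    intro k w
    induction k with
    | zero => simp
    | succ k ih =>
      rw [Function.iterate_succ_apply', ih, pow_succ', map_mul]
      rfl
  have h1 : t (∏ i ∈ Finset.range q, t^[i] v) = ∏ i ∈ Finset.range q, t^[i] v := by
    rw [map_prod]
    have h2 := Finset.prod_range_succ' (fun i => t^[i] v) q
    have h3 := Finset.prod_range_succ (fun i => t^[i] v) q
    rw [h3] at h2
    have h4 : t^[q] v = v := by rw [hiter, hy, map_one]; rfl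
    simp only [h4, Function.iterate_zero, id] at h2
    have h5 := mul_right_cancel h2
    rw [h5]
    refine Finset.prod_congr rfl (fun i _ => ?_)
    rw [Function.iterate_succ_apply']
  have h6 := hfpf _ (∏ i ∈ Finset.range q, t^[i] v).2 (congrArg Subtype.val h1)
  exact Subtype.ext h6

omit [Finite G] hp hq in
theorem restrict_semiconj (P : Subgroup G) [P.Normal] [IsMulCommutative P] (α : MulAut G)
    (hα : ∀ v ∈ P, α v ∈ P) (y u : G) (hu : u ∈ P) (k : ℕ) (hy : α y = u * y ^ k) :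
    ∃ a : P →* P, Function.Injective a ∧ (∀ v : P, (a v : G) = α v) ∧
      ∀ v : P, a ((MulAut.conjNormal y : MulAut P).toMonoidHom v) =
        ((MulAut.conjNormal y : MulAut P).toMonoidHom)^[k] (a v) := by
  have hiter : ∀ (k : ℕ) (w : P), ((MulAut.conjNormal y : MulAut P).toMonoidHom)^[k] w
      = MulAut.conjNormal (y ^ k) w := by
    intro k w
    induction k with
    | zero => simp
    | succ k ih =>
      rw [Function.iterate_succ_apply', ih, pow_succ', map_mul]
      rfl
  refine ⟨(α.toMonoidHom.comp P.subtype).codRestrict P (fun v => hα v v.2), ?_, fun v => rfl, ?_⟩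
  · intro v w hvw
    have := congrArg Subtype.val hvw
    exact Subtype.ext (α.injective this)
  · intro v
    rw [hiter]
    apply Subtype.ext
    change α (y * v * y⁻¹) = y ^ k * α v * (y ^ k)⁻¹
    rw [map_mul, map_mul, map_inv, hy]
    have hc : u * (y ^ k * α v * (y ^ k)⁻¹) = (y ^ k * α v * (y ^ k)⁻¹) * u := by
      have h1 : y ^ k * α v * (y ^ k)⁻¹ ∈ P := ‹P.Normal›.conj_mem _ (hα v v.2) _
      exact congrArg Subtype.val (mul_comm (⟨u, hu⟩ : P) ⟨_, h1⟩)
    calc u * y ^ k * α v * (u * y ^ k)⁻¹ = u * (y ^ k * α v * (y ^ k)⁻¹) * u⁻¹ := by group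
      _ = y ^ k * α v * (y ^ k)⁻¹ := by rw [hc]; group

end

end Cfsg.Agent.Lib.Helper38
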