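import Mathlib

/-!
Extending an automorphism of a normal subgroup `P` with cyclic complement `⟨y⟩` to the whole group.
-/

set_option autoImplicit false

namespace Cfsg.Agent.Lib.Helper38

section
variable {G : Type*} [Group G] (P : Subgroup G) [P.Normal]

theorem conjNormal_iterate (y : G) (k : ℕ) (v : P) :
    ((MulAut.conjNormal y : MulAut P).toMonoidHom)^[k] v = MulAut.conjNormal (y ^ k) v := by
  induction k with
  | zero => simp
  | succ k ih =>
    rw [Function.iterate_succ_apply', ih, pow_succ', map_mul]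
    rfl

theorem exists_hom_extend (y y' : G)
    (hgen : ∀ g : G, ∃ u ∈ P, ∃ k : ℕ, g = u * y ^ k)
    (hdisj : ∀ z ∈ Subgroup.zpowers y, z ∈ P → z = 1)
    (hy' : y' ^ orderOf y = 1)
    (φ : P →* P) (hφ : ∀ v : P, (φ (MulAut.conjNormal y v) : G) = y' * φ v * y'⁻¹) :
    ∃ α : G →* G, ∀ (u : P) (k : ℕ), α (u * y ^ k) = φ u * y' ^ k := by
  choose U hU K hK using hgen
  have hφk : ∀ (k : ℕ) (v : P), (φ (MulAut.conjNormal (y ^ k) v) : G) = y' ^ k * φ v * (y' ^ k)⁻¹ := by
    intro k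
    induction k with
    | zero => intro v; simp
    | succ k ih =>
      intro v
      rw [pow_succ', map_mul, MulAut.mul_apply, hφ, ih, pow_succ']
      group
  have key : ∀ (u : P) (k : ℕ),
      (φ ⟨U (u * y ^ k), hU _⟩ : G) * y' ^ (K (u * y ^ k)) = φ u * y' ^ k := by
    intro u k
    have h1 := hK (u * y ^ k)
    have h2 : (U (u * y ^ k))⁻¹ * u = y ^ (K (u * y ^ k)) * (y ^ k)⁻¹ := by
      rw [eq_mul_inv_iff_mul_eq, mul_assoc, inv_mul_eq_iff_eq_mul]
      exact h1
    have h3 : y ^ (K (u * y ^ k)) * (y ^ k)⁻¹ = 1 := by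
      apply hdisj
      · exact mul_mem (pow_mem (Subgroup.mem_zpowers y) _) (inv_mem (pow_mem (Subgroup.mem_zpowers y) _))
      · rw [← h2]
        exact mul_mem (inv_mem (hU _)) u.2
    have h4 : U (u * y ^ k) = u := by
      rw [h3, inv_mul_eq_one] at h2
      exact h2
    have h5 : y ^ (K (u * y ^ k)) = y ^ k := by
      rwa [mul_inv_eq_one] at h3
    have h6 : y' ^ (K (u * y ^ k)) = y' ^ k := by
      rw [pow_eq_pow_iff_modEq] at h5 ⊢
      exact h5.of_dvd (orderOf_dvd_of_pow_eq_one hy')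
    rw [h6]
    congr 3
    exact Subtype.ext h4
  let f : G → G := fun g => (φ ⟨U g, hU g⟩ : G) * y' ^ (K g)
  have hf : ∀ (u : P) (k : ℕ), f (u * y ^ k) = φ u * y' ^ k := key
  have hmul : ∀ g h, f (g * h) = f g * f h := by
    intro g h
    have e : g * h = ((⟨U g, hU g⟩ * MulAut.conjNormal (y ^ K g) ⟨U h, hU h⟩ : P) : G)
        * y ^ (K g + K h) := by
      conv_lhs => rw [hK g, hK h]
      simp only [Subgroup.coe_mul, MulAut.conjNormal_apply, pow_add]
      group
    rw [e, hf, map_mul, Subgroup.coe_mul, hφk, pow_add]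
    simp only [f]
    group
  exact ⟨MonoidHom.mk' f hmul, hf⟩

theorem exists_aut_extend [Finite G] (y y' : G)
    (hgen : ∀ g : G, ∃ u ∈ P, ∃ k : ℕ, g = u * y ^ k)
    (hdisj : ∀ z ∈ Subgroup.zpowers y, z ∈ P → z = 1)
    (hy' : y' ^ orderOf y = 1) (hy'' : ∀ k : ℕ, y' ^ k ∈ P → y ^ k = 1)
    (φ : P →* P) (hinj : Function.Injective φ)
    (hφ : ∀ v : P, (φ (MulAut.conjNormal y v) : G) = y' * φ v * y'⁻¹) :
    ∃ α : MulAut G, (∀ u : P, α u = φ u) ∧ α y = y' := by
  obtain ⟨α, hα⟩ := exists_hom_extend P y y' hgen hdisj hy' φ hφ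
  have hαinj : Function.Injective α := by
    rw [injective_iff_map_eq_one]
    intro g hg
    obtain ⟨u, hu, k, rfl⟩ := hgen g
    have h1 := hα ⟨u, hu⟩ k
    simp only at h1
    rw [hg] at h1
    have h2 : y' ^ k = ((φ ⟨u, hu⟩)⁻¹ : P) := by
      rw [Subgroup.coe_inv, eq_inv_iff_mul_eq_one]
      exact mul_eq_one_comm.1 h1.symm
    have h3 : y ^ k = 1 := hy'' k (by rw [h2]; exact SetLike.coe_mem _)
    have h4 : y' ^ k = 1 := by
      obtain ⟨c, rfl⟩ := orderOf_dvd_of_pow_eq_one h3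
      rw [pow_mul, hy', one_pow]
    rw [h4, mul_one] at h1
    have h5 : φ ⟨u, hu⟩ = 1 := Subtype.ext h1.symm
    have h6 : (⟨u, hu⟩ : P) = 1 := hinj (by rw [h5, map_one])
    have h7 : u = 1 := congrArg Subtype.val h6
    rw [h7, h3, one_mul]
  have hbij : Function.Bijective α := ⟨hαinj, Finite.surjective_of_injective hαinj⟩
  refine ⟨MulEquiv.ofBijective α hbij, ?_, ?_⟩
  · intro u
    have := hα u 0
    change α u = φ u
    simpa using this
  · have := hα 1 1
    change α y = y'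
    simpa using this

end

end Cfsg.Agent.Lib.Helper38
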