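import Mathlib

/-!
Linear algebra behind groups with three automorphism orbits, part B:
transitivity from a primitive root.
-/

set_option autoImplicit false

namespace Cfsg.Agent.Lib.Helper38

open Polynomial

theorem irreducible_cyclotomic_of_orderOf {p q : ℕ} [hp : Fact p.Prime] [hq : Fact q.Prime]
    (hpq : p ≠ q) (hord : orderOf (p : ZMod q) = q - 1) :
    Irreducible (cyclotomic q (ZMod p)) := by
  have hpn : ¬ p ∣ q := fun h => hpq ((Nat.prime_dvd_prime_iff_eq hp.out hq.out).1 h)
  refine ZMod.irreducible_of_dvd_cyclotomic_of_natDegree hpn dvd_rfl ?_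
  rw [natDegree_cyclotomic, Nat.totient_prime hq.out, ← orderOf_units, ZMod.coe_unitOfCoprime, hord]

theorem exists_semilinear_of_irreducible {p q : ℕ} [hp : Fact p.Prime] [hq : Fact q.Prime]
    (hpq : p ≠ q) (hirr : Irreducible (cyclotomic q (ZMod p)))
    {V : Type*} [AddCommGroup V] [Module (ZMod p) V]
    (T : V →ₗ[ZMod p] V) (hT : aeval T (cyclotomic q (ZMod p)) = 0) :
    (∀ v w : V, v ≠ 0 → w ≠ 0 → ∃ a : V →+ V, Function.Injective a ∧ a v = w ∧
      ∀ u, a (T u) = T (a u)) ∧
    (∀ k : ℕ, ¬ q ∣ k → ∃ a : V →+ V, Function.Injective a ∧ ∀ u, a (T u) = (T ^ k) (a u)) := by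
  have : Fact (Irreducible (cyclotomic q (ZMod p))) := ⟨hirr⟩
  have H : ∀ a ∈ Ideal.span {cyclotomic q (ZMod p)}, (aeval T).toRingHom a = 0 := by
    intro a ha
    obtain ⟨c, rfl⟩ := Ideal.mem_span_singleton.1 ha
    simp [hT]
  let ρ : AdjoinRoot (cyclotomic q (ZMod p)) →+* Module.End (ZMod p) V :=
    Ideal.Quotient.lift (Ideal.span {cyclotomic q (ZMod p)}) (aeval T).toRingHom H
  have hρ : ρ (AdjoinRoot.root (cyclotomic q (ZMod p))) = T :=
    (Ideal.Quotient.lift_mk (a := X) _ _ H).trans (by simp)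
  let _ : Module (AdjoinRoot (cyclotomic q (ZMod p))) V := Module.compHom V ρ
  have hsmul : ∀ (c : AdjoinRoot (cyclotomic q (ZMod p))) (v : V), c • v = ρ c v := fun _ _ => rfl
  have hroot : ∀ v, AdjoinRoot.root (cyclotomic q (ZMod p)) • v = T v := by
    intro v; rw [hsmul, hρ]
  have hrootpow : ∀ (k : ℕ) (v : V), AdjoinRoot.root (cyclotomic q (ZMod p)) ^ k • v = (T ^ k) v := by
    intro k v; rw [hsmul, map_pow, hρ]
  constructor
  · intro v w hv hw
    let f := (LinearEquiv.toSpanNonzeroSingleton (AdjoinRoot (cyclotomic q (ZMod p))) V v hv).symm ≪≫ₗ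
      (LinearEquiv.toSpanNonzeroSingleton (AdjoinRoot (cyclotomic q (ZMod p))) V w hw)
    obtain ⟨g, hg⟩ := Submodule.exists_linearEquiv_restrict_eq f
    refine ⟨g.toLinearMap.toAddMonoidHom, g.injective, ?_, ?_⟩
    · have h1 := hg ⟨v, Submodule.mem_span_singleton_self v⟩
      have h2 : (LinearEquiv.toSpanNonzeroSingleton (AdjoinRoot (cyclotomic q (ZMod p))) V v hv).symm
          ⟨v, Submodule.mem_span_singleton_self v⟩ = 1 := by
        rw [LinearEquiv.symm_apply_eq]
        ext
        simp
      simp only [f, LinearEquiv.trans_apply, h2] at h1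
      simp at h1
      exact h1.symm
    · intro u
      change g (T u) = T (g u)
      rw [← hroot, ← hroot, map_smul]
  · intro k hk
    have hζ : IsPrimitiveRoot (AdjoinRoot.root (cyclotomic q (ZMod p))) q := by
      have : NeZero (q : AdjoinRoot (cyclotomic q (ZMod p))) := by
        suffices NeZero (q : ZMod p) by
          simpa using! NeZero.of_injective
            (algebraMap (ZMod p) (AdjoinRoot (cyclotomic q (ZMod p)))).injective
        refine ⟨fun h0 => ?_⟩
        rw [ZMod.natCast_eq_zero_iff] at h0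
        exact hpq ((Nat.prime_dvd_prime_iff_eq hp.out hq.out).1 h0)
      simpa [← isRoot_cyclotomic_iff] using! (AdjoinRoot.isRoot_root (cyclotomic q (ZMod p)))
    have hζk : IsPrimitiveRoot (AdjoinRoot.root (cyclotomic q (ZMod p)) ^ k) q :=
      hζ.pow_of_coprime k ((Nat.coprime_comm.1 ((Nat.Prime.coprime_iff_not_dvd hq.out).2 hk)))
    have hev : eval₂ (AdjoinRoot.of (cyclotomic q (ZMod p)))
        (AdjoinRoot.root (cyclotomic q (ZMod p)) ^ k) (cyclotomic q (ZMod p)) = 0 := by
      have := hζk.isRoot_cyclotomic hq.out.pos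
      rw [IsRoot.def, ← map_cyclotomic q (AdjoinRoot.of (cyclotomic q (ZMod p))), eval_map] at this
      exact this
    let σ : AdjoinRoot (cyclotomic q (ZMod p)) →+* AdjoinRoot (cyclotomic q (ZMod p)) :=
      AdjoinRoot.lift (AdjoinRoot.of _) (AdjoinRoot.root (cyclotomic q (ZMod p)) ^ k) hev
    have hσ : Function.Injective σ := σ.injective
    have hσroot : σ (AdjoinRoot.root _) = AdjoinRoot.root (cyclotomic q (ZMod p)) ^ k :=
      AdjoinRoot.lift_root hev
    let b := Module.Basis.ofVectorSpace (AdjoinRoot (cyclotomic q (ZMod p))) V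
    let a : V →+ V := (b.repr.symm.toLinearMap.toAddMonoidHom.comp
      (Finsupp.mapRange.addMonoidHom σ.toAddMonoidHom)).comp b.repr.toLinearMap.toAddMonoidHom
    have ha : ∀ u, a u = b.repr.symm (Finsupp.mapRange σ (map_zero σ) (b.repr u)) := fun u => rfl
    refine ⟨a, ?_, ?_⟩
    · intro u u' h
      rw [ha, ha] at h
      have h1 := b.repr.symm.injective h
      have h2 := Finsupp.mapRange_injective σ (map_zero σ) hσ h1
      exact b.repr.injective h2
    · intro u
      rw [← hroot, ← hrootpow, ha, ha, ← LinearEquiv.map_smul b.repr.symm, LinearEquiv.map_smul b.repr]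
      refine congrArg b.repr.symm ?_
      ext i
      simp [hσroot]

end Cfsg.Agent.Lib.Helper38
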