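import Cfsg.Agent.Lib.Helper38.ThreeOrbLinA
import Cfsg.Agent.Lib.Helper38.ThreeOrbLinB

/-!
Multiplicative versions of the linear algebra lemmas of `ThreeOrbLinA`, `ThreeOrbLinB`.
-/

set_option autoImplicit false

namespace Cfsg.Agent.Lib.Helper38

open Polynomial

section
variable {p q : ℕ} [hp : Fact p.Prime] [hq : Fact q.Prime]
  {A : Type*} [CommGroup A]

theorem toAdditive_pow_apply [Module (ZMod p) (Additive A)] (t : A →* A) (k : ℕ) (u : Additive A) :
    (((MonoidHom.toAdditive t).toZModLinearMap p) ^ k) u = Additive.ofMul (t^[k] u.toMul) := by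
  induction k with
  | zero => simp
  | succ k ih =>
    rw [pow_succ', Module.End.mul_apply, ih, Function.iterate_succ_apply']
    rfl

theorem aeval_cyclotomic_toAdditive [Module (ZMod p) (Additive A)] (t : A →* A)
    (ht : ∀ a, ∏ i ∈ Finset.range q, (t^[i]) a = 1) :
    aeval ((MonoidHom.toAdditive t).toZModLinearMap p) (cyclotomic q (ZMod p)) = 0 := by
  rw [cyclotomic_prime]
  ext u
  simp only [map_sum, map_pow, aeval_X, LinearMap.sum_apply, toAdditive_pow_apply,
    LinearMap.zero_apply]
  rw [← ofMul_prod, ht]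
  rfl

theorem orderOf_eq_of_transitive_mul (hpq : p ≠ q) [Nontrivial A] (hexp : ∀ a : A, a ^ p = 1)
    (t : A →* A) (ht : ∀ a, ∏ i ∈ Finset.range q, (t^[i]) a = 1)
    (h1 : ∀ v w : A, v ≠ 1 → w ≠ 1 → ∃ (a : A →* A) (k : ℕ),
      Function.Injective a ∧ a v = w ∧ ∀ u, a (t u) = (t^[k]) (a u))
    (h2 : ∀ k, 0 < k → k < q → ∃ a : A →* A,
      Function.Injective a ∧ ∀ u, a (t u) = (t^[k]) (a u)) :
    orderOf (p : ZMod q) = q - 1 := by
  let _ : Module (ZMod p) (Additive A) := AddCommGroup.zmodModule (n := p)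
    (fun x => congrArg Additive.ofMul (hexp x.toMul))
  refine orderOf_eq_of_transitive (V := Additive A) hpq ((MonoidHom.toAdditive t).toZModLinearMap p)
    (aeval_cyclotomic_toAdditive t ht) ?_ ?_
  · intro v w hv hw
    obtain ⟨a, k, ha, hav, hak⟩ := h1 v.toMul w.toMul (fun h => hv (by simpa using h))
      (fun h => hw (by simpa using h))
    refine ⟨(MonoidHom.toAdditive a).toZModLinearMap p, k, ?_, ?_, ?_⟩
    · intro x x' hx
      exact Additive.toMul.injective (ha (congrArg Additive.toMul hx))
    · exact congrArg Additive.ofMul hav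
    · intro u
      rw [toAdditive_pow_apply]
      exact congrArg Additive.ofMul (hak u.toMul)
  · intro k hk0 hkq
    obtain ⟨a, ha, hak⟩ := h2 k hk0 hkq
    refine ⟨(MonoidHom.toAdditive a).toZModLinearMap p, ?_, ?_⟩
    · intro x x' hx
      exact Additive.toMul.injective (ha (congrArg Additive.toMul hx))
    · intro u
      rw [toAdditive_pow_apply]
      exact congrArg Additive.ofMul (hak u.toMul)

theorem exists_semilinear_mul (hpq : p ≠ q) (hord : orderOf (p : ZMod q) = q - 1)
    (hexp : ∀ a : A, a ^ p = 1)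
    (t : A →* A) (ht : ∀ a, ∏ i ∈ Finset.range q, (t^[i]) a = 1) :
    (∀ v w : A, v ≠ 1 → w ≠ 1 → ∃ a : A →* A, Function.Injective a ∧ a v = w ∧
      ∀ u, a (t u) = t (a u)) ∧
    (∀ k : ℕ, ¬ q ∣ k → ∃ a : A →* A, Function.Injective a ∧ ∀ u, a (t u) = (t^[k]) (a u)) := by
  let _ : Module (ZMod p) (Additive A) := AddCommGroup.zmodModule (n := p)
    (fun x => congrArg Additive.ofMul (hexp x.toMul))
  obtain ⟨H1, H2⟩ := exists_semilinear_of_irreducible (V := Additive A) hpq
    (irreducible_cyclotomic_of_orderOf hpq hord) ((MonoidHom.toAdditive t).toZModLinearMap p)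
    (aeval_cyclotomic_toAdditive t ht)
  constructor
  · intro v w hv hw
    obtain ⟨a, ha, hav, hat⟩ := H1 (Additive.ofMul v) (Additive.ofMul w)
      (fun h => hv (by simpa using h)) (fun h => hw (by simpa using h))
    refine ⟨MonoidHom.toAdditive.symm a, ?_, ?_, ?_⟩
    · intro x x' hx
      exact Additive.ofMul.injective (ha (congrArg Additive.ofMul hx))
    · exact congrArg Additive.toMul hav
    · intro u
      exact congrArg Additive.toMul (hat (Additive.ofMul u))
  · intro k hk
    obtain ⟨a, ha, hat⟩ := H2 k hk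
    refine ⟨MonoidHom.toAdditive.symm a, ?_, ?_⟩
    · intro x x' hx
      exact Additive.ofMul.injective (ha (congrArg Additive.ofMul hx))
    · intro u
      have := hat (Additive.ofMul u)
      rw [toAdditive_pow_apply] at this
      exact congrArg Additive.toMul this

end

end Cfsg.Agent.Lib.Helper38
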