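import Cfsg.Prelude.Def_Transfer
import Cfsg.Agent.Lib.Helper38.ThreeOrbCommon
import Cfsg.Agent.Lib.Helper38.ThreeOrbMul
import Cfsg.Agent.Lib.Helper38.ThreeOrbExt

/-!
Groups with three automorphism orbits: the backward direction.
-/

set_option autoImplicit false

namespace Cfsg.Agent.Lib.Helper38

open scoped IsMulCommutative

section
variable {G : Type*} [Group G] [Finite G] {p q : ℕ} [hp : Fact p.Prime] [hq : Fact q.Prime]

theorem backward_aux (hpq : p ≠ q) (P : Subgroup G) [P.Normal] [IsMulCommutative P]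
    (hexp : ∀ a ∈ P, a ^ p = 1) (hidx : P.index = q) (v0 : G) (hv0P : v0 ∈ P) (hv01 : v0 ≠ 1)
    (y : G) (hy : orderOf y = q)
    (hord : orderOf (p : ZMod q) = q - 1)
    (hfpf0 : ∀ x y : G, orderOf x = q → orderOf y = p → x * y * x⁻¹ ≠ y) :
    Nat.card (MulAction.orbitRel.Quotient (MulAut G) G) = 3 := by
  have hyP : y ∉ P := by
    intro h
    have h1 := orderOf_dvd_of_pow_eq_one (hexp y h)
    rw [hy] at h1
    exact hpq ((Nat.prime_dvd_prime_iff_eq hq.out hp.out).1 h1).symm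
  have hgen := gen_of_index P hidx y hyP
  have hfpf : ∀ x v : G, orderOf x = q → v ∈ P → x * v * x⁻¹ = v → v = 1 := by
    intro x v hx hv hxv
    by_contra h1
    exact hfpf0 x v hx (orderOf_eq_prime (hexp v hv) h1) hxv
  have hyq : y ^ q = 1 := by rw [← hy, pow_orderOf_eq_one]
  have hnorm := norm_eq_one (q := q) P y hyq (fun v hv => hfpf y v hy hv)
  obtain ⟨H1, H2⟩ := exists_semilinear_mul (A := P) hpq hord (fun a => Subtype.ext (hexp a a.2))
    (MulAut.conjNormal y : MulAut P).toMonoidHom hnorm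
  have hdisj : ∀ z ∈ Subgroup.zpowers y, z ∈ P → z = 1 := by
    intro z hz hzP
    have h1 : orderOf z ∣ p := orderOf_dvd_of_pow_eq_one (hexp z hzP)
    have h2 : orderOf z ∣ q := by
      obtain ⟨k, rfl⟩ := hz
      apply orderOf_dvd_of_pow_eq_one
      rw [← zpow_natCast, ← zpow_mul, mul_comm, zpow_mul, zpow_natCast, hyq, one_zpow]
    have h3 : orderOf z ∣ Nat.gcd p q := Nat.dvd_gcd h1 h2
    rw [(Nat.coprime_primes hp.out hq.out).2 hpq, Nat.dvd_one, orderOf_eq_one_iff] at h3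
    exact h3
  have hpowP : ∀ k : ℕ, y ^ k ∈ P → y ^ k = 1 := fun k hk =>
    hdisj _ (pow_mem (Subgroup.mem_zpowers y) k) hk
  have hT1 : ∀ g ∈ P, g ≠ 1 → ∃ α : MulAut G, α v0 = g := by
    intro g hg hg1
    obtain ⟨a, ha, hav, hat⟩ := H1 ⟨v0, hv0P⟩ ⟨g, hg⟩ (fun h => hv01 (congrArg Subtype.val h))
      (fun h => hg1 (congrArg Subtype.val h))
    obtain ⟨α, hα, -⟩ := exists_aut_extend P y y hgen hdisj (pow_orderOf_eq_one y) hpowP a ha
      (fun v => congrArg Subtype.val (hat v))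
    exact ⟨α, (hα ⟨v0, hv0P⟩).trans (congrArg Subtype.val hav)⟩
  have hT2 : ∀ k : ℕ, ¬ q ∣ k → ∃ α : MulAut G, α y = y ^ k := by
    intro k hk
    obtain ⟨a, ha, hat⟩ := H2 k hk
    obtain ⟨α, -, hα⟩ := exists_aut_extend P y (y ^ k) hgen hdisj
      (by rw [← pow_mul, mul_comm, pow_mul, pow_orderOf_eq_one, one_pow])
      (by
        intro j hj
        rw [← pow_mul] at hj
        have h1 := orderOf_dvd_of_pow_eq_one (hpowP _ hj)
        rw [hy] at h1
        rcases (Nat.Prime.dvd_mul hq.out).1 h1 with h2 | h2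
        · exact absurd h2 hk
        · obtain ⟨c, rfl⟩ := h2
          rw [pow_mul, hyq, one_pow])
      a ha
      (fun v => by
        have := hat v
        rw [conjNormal_iterate] at this
        exact congrArg Subtype.val this)
    exact ⟨α, hα⟩
  have hT3 : ∀ g, g ∉ P → ∃ α : MulAut G, α y = g := by
    intro g hg
    obtain ⟨u, hu, k, rfl⟩ := hgen g
    have hk : ¬ q ∣ k := by
      rintro ⟨c, rfl⟩
      apply hg
      rw [pow_mul, hyq, one_pow, mul_one]
      exact hu
    have hyk : orderOf (y ^ k) = q := by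
      rw [Nat.Coprime.orderOf_pow, hy]
      rw [hy]
      exact (Nat.Prime.coprime_iff_not_dvd hq.out).2 hk
    let ψ : P →* P := MonoidHom.id P / (MulAut.conjNormal (y ^ k) : MulAut P).toMonoidHom
    have hψ : ∀ w : P, ((ψ w : P) : G) = w * (y ^ k * w * (y ^ k)⁻¹)⁻¹ := by
      intro w
      simp only [ψ, div_eq_mul_inv]
      rfl
    have hψinj : Function.Injective ψ := by
      rw [injective_iff_map_eq_one]
      intro w hw
      have h1 := hψ w
      rw [hw, Subgroup.coe_one] at h1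
      have h2 : y ^ k * w * (y ^ k)⁻¹ = w := by
        rw [eq_comm, mul_inv_eq_one] at h1
        exact h1.symm
      exact Subtype.ext (hfpf _ _ hyk w.2 h2)
    obtain ⟨w, hw⟩ := Finite.surjective_of_injective hψinj ⟨u, hu⟩
    obtain ⟨α, hα⟩ := hT2 k hk
    refine ⟨MulAut.conj (w : G) * α, ?_⟩
    rw [MulAut.mul_apply, hα, MulAut.conj_apply]
    have h1 := hψ w
    rw [hw] at h1
    simp only at h1
    rw [h1]
    group
  have hv0o : orderOf v0 = p := orderOf_eq_prime (hexp v0 hv0P) hv01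
  have hy1 : y ≠ 1 := by
    rintro rfl
    exact hyP (one_mem _)
  refine card_eq_three_of_reps (Quotient.mk'' 1) (Quotient.mk'' v0) (Quotient.mk'' y) ?_ ?_ ?_ ?_
  · rw [Ne, orbit_mk_eq_iff]
    rintro ⟨α, hα⟩
    exact hv01 ((MulEquiv.map_eq_one_iff α).1 hα)
  · rw [Ne, orbit_mk_eq_iff]
    rintro ⟨α, hα⟩
    exact hy1 ((MulEquiv.map_eq_one_iff α).1 hα)
  · rw [Ne, orbit_mk_eq_iff]
    rintro ⟨α, hα⟩
    have h1 := MulEquiv.orderOf_eq α y
    rw [hα, hv0o, hy] at h1
    exact hpq h1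
  · intro x
    induction x using Quotient.inductionOn' with
    | h g =>
      by_cases hg1 : g = 1
      · left; rw [hg1]
      · by_cases hgP : g ∈ P
        · right; left
          rw [orbit_mk_eq_iff]
          exact hT1 g hgP hg1
        · right; right
          rw [orbit_mk_eq_iff]
          exact hT3 g hgP

theorem backward (hpq : p ≠ q) {n : ℕ} (hn : 1 ≤ n) (hcard : Nat.card G = p ^ n * q)
    (hS : ∀ P : Sylow p G, (P : Subgroup G).Normal ∧ Cfsg.IsElementaryAbelian p (P : Subgroup G))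
    (hord : orderOf (p : ZMod q) = q - 1)
    (hfpf0 : ∀ x y : G, orderOf x = q → orderOf y = p → x * y * x⁻¹ ≠ y) :
    Nat.card (MulAction.orbitRel.Quotient (MulAut G) G) = 3 := by
  obtain ⟨S⟩ : Nonempty (Sylow p G) := inferInstance
  obtain ⟨hnormal, hcomm, hexp⟩ := hS S
  obtain ⟨hidx, hPcard⟩ := index_sylow_eq hpq hcard S
  obtain ⟨y, hy⟩ := exists_prime_orderOf_dvd_card' (G := G) q (by rw [hcard]; exact dvd_mul_left _ _)
  have hne : (S : Subgroup G) ≠ ⊥ := by
    intro h
    have h1 : Nat.card (S : Subgroup G) = p ^ n := hPcard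
    rw [h, Subgroup.card_bot] at h1
    have := Nat.one_lt_pow (by omega : n ≠ 0) hp.out.one_lt
    omega
  obtain ⟨v0, hv01⟩ := (Subgroup.ne_bot_iff_exists_ne_one).1 hne
  exact backward_aux hpq (S : Subgroup G) hexp hidx v0 v0.2 (fun h => hv01 (Subtype.ext h)) y hy
    hord hfpf0

end

end Cfsg.Agent.Lib.Helper38
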