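import Cfsg.Prelude.Def_Transfer
import Cfsg.Agent.Lib.Helper38.ThreeOrbCommon
import Cfsg.Agent.Lib.Helper38.ThreeOrbMul
import Cfsg.Agent.Lib.Helper52.FPF
import Cfsg.Agent.S0144

/-!
Groups with three automorphism orbits: the forward direction.
-/

set_option autoImplicit false

namespace Cfsg.Agent.Lib.Helper38

open scoped IsMulCommutative

section
variable {G : Type*} [Group G] [Finite G] {p q : ℕ} [hp : Fact p.Prime] [hq : Fact q.Prime]

omit [Finite G] hp hq in
theorem aut_mem_iff {P : Subgroup G} (hPmem : ∀ g, g ∈ P ↔ g ^ p = 1) (α : MulAut G) (g : G) :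
    α g ∈ P ↔ g ∈ P := by
  rw [hPmem, hPmem, ← map_pow, MulEquiv.map_eq_one_iff]

omit hq in
theorem isMulCommutative_of_transitive {P : Subgroup G} (hPmem : ∀ g, g ∈ P ↔ g ^ p = 1)
    (hP : ∀ g h : G, orderOf g = p → orderOf h = p → ∃ α : MulAut G, α g = h) :
    IsMulCommutative P := by
  have hpg : IsPGroup p P := fun g => ⟨1, by rw [pow_one]; exact Subtype.ext ((hPmem g).1 g.2)⟩
  refine ⟨⟨fun a b => ?_⟩⟩
  by_cases ha : a = 1
  · simp [ha]
  have : Nontrivial P := ⟨a, 1, ha⟩
  have := hpg.center_nontrivial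
  obtain ⟨z, hz⟩ := exists_ne (1 : Subgroup.center P)
  have hz1 : ((z : P) : G) ≠ 1 := fun h => hz (Subtype.ext (Subtype.ext h))
  have hzo : orderOf ((z : P) : G) = p := orderOf_eq_prime ((hPmem _).1 (z : P).2) hz1
  have hao : orderOf (a : G) = p :=
    orderOf_eq_prime ((hPmem _).1 a.2) (fun h => ha (Subtype.ext h))
  obtain ⟨α, hα⟩ := hP _ _ hzo hao
  have hb' : α.symm b ∈ P := by
    rw [← aut_mem_iff hPmem α, MulEquiv.apply_symm_apply]; exact b.2
  have h1 := Subgroup.mem_center_iff.1 z.2 ⟨α.symm b, hb'⟩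
  have h2 : α.symm b * ((z : P) : G) = ((z : P) : G) * α.symm b := congrArg Subtype.val h1
  have h3 := congrArg α h2
  rw [map_mul, map_mul, MulEquiv.apply_symm_apply, hα] at h3
  exact Subtype.ext h3.symm

omit [Finite G] in
theorem sylow_eq_of_mem_iff (hpq : p ≠ q) {P : Subgroup G} (hPmem : ∀ g, g ∈ P ↔ g ^ p = 1)
    (hord : ∀ g : G, g = 1 ∨ orderOf g = p ∨ orderOf g = q) (S : Sylow p G) :
    (S : Subgroup G) = P := by
  have hpg : IsPGroup p P := fun g => ⟨1, by rw [pow_one]; exact Subtype.ext ((hPmem g).1 g.2)⟩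
  have hle : (S : Subgroup G) ≤ P := by
    intro g hg
    rw [hPmem]
    obtain ⟨k, hk⟩ := S.2 ⟨g, hg⟩
    have hk' : g ^ (p ^ k) = 1 := congrArg Subtype.val hk
    rcases hord g with h | h | h
    · simp [h]
    · rw [← h, pow_orderOf_eq_one]
    · exfalso
      have h1 := orderOf_dvd_of_pow_eq_one hk'
      rw [h] at h1
      exact hpq ((Nat.prime_dvd_prime_iff_eq hq.out hp.out).1 (hq.out.dvd_of_dvd_pow h1)).symm
  exact (S.3 hpg hle).symm

omit hp in
theorem card_sylow_eq_of_fpf (P : Subgroup G) [P.Normal] [IsMulCommutative P] [Nontrivial P]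
    (hfpf : ∀ x v : G, orderOf x = q → v ∈ P → x * v * x⁻¹ = v → v = 1)
    (Q : Sylow q G) (hQ : ∀ g ∈ Q, g = 1 ∨ orderOf g = q) (hQn : Nontrivial Q) :
    Nat.card Q = q := by
  let _ : MulDistribMulAction Q P :=
    MulDistribMulAction.compHom P ((MulAut.conjNormal (H := P)).comp (Q : Subgroup G).subtype)
  have hsm : ∀ (a : Q) (v : P), ((a • v : P) : G) = (a : G) * v * (a : G)⁻¹ := fun a v => rfl
  have hf : ∀ a : Q, a ≠ 1 → ∀ v : P, a • v = v → v = 1 := by
    intro a ha v hv
    have hao : orderOf (a : G) = q := by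
      rcases hQ a a.2 with h | h
      · exact absurd (Subtype.ext h) ha
      · exact h
    have := hfpf a v hao v.2 (by rw [← hsm, hv])
    exact Subtype.ext this
  have := Q.2.center_nontrivial
  obtain ⟨d, hd⟩ := exists_ne (1 : Subgroup.center Q)
  have hd1 : (d : Q) ≠ 1 := fun h => hd (Subtype.ext h)
  have hpowq : ∀ c : Q, c ^ q = 1 := by
    intro c
    apply Subtype.ext
    rcases hQ c c.2 with h | h
    · simp [h]
    · have h2 : (c : G) ^ q = 1 := by
        have := pow_orderOf_eq_one (c : G)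
        rwa [h] at this
      exact h2
  have hdo : orderOf (d : Q) = q := orderOf_eq_prime (hpowq _) hd1
  have hall : ∀ c : Q, c ∈ Subgroup.zpowers (d : Q) := by
    intro c
    by_contra hc
    have hcd : Commute c (d : Q) := Subgroup.mem_center_iff.1 d.2 c
    have := Cfsg.Agent.Lib.Helper52.subsingleton_of_fpf hf c (d : Q) hcd q hq.out (hpowq c) hdo hc
    exact not_subsingleton P this
  have htop : Subgroup.zpowers (d : Q) = ⊤ := by
    rw [eq_top_iff]; intro c _; exact hall c
  have h1 := Nat.card_zpowers (d : Q)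
  rw [htop, Subgroup.card_top, hdo] at h1
  exact h1

theorem forward_aux (hpq : p ≠ q)
    (hord : ∀ g : G, g = 1 ∨ orderOf g = p ∨ orderOf g = q)
    (hP : ∀ g h : G, orderOf g = p → orderOf h = p → ∃ α : MulAut G, α g = h)
    (hQ : ∀ g h : G, orderOf g = q → orderOf h = q → ∃ α : MulAut G, α g = h)
    (xq : ∃ g : G, orderOf g = q)
    (hc : ∃ g ∈ commutator G, orderOf g = p) (hsolv : commutator G ≠ ⊤) :
    ∃ n : ℕ, 1 ≤ n ∧ Nat.card G = p ^ n * q ∧
      (∀ P : Sylow p G, (P : Subgroup G).Normal ∧ Cfsg.IsElementaryAbelian p (P : Subgroup G)) ∧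
      orderOf (p : ZMod q) = q - 1 ∧
      ∀ x y : G, orderOf x = q → orderOf y = p → x * y * x⁻¹ ≠ y := by
  obtain ⟨g0, hg0, hg0o⟩ := hc
  obtain ⟨y, hy⟩ := xq
  have hchar : ∀ (α : MulAut G) (g : G), g ∈ commutator G → α g ∈ commutator G := by
    intro α g hg
    have h1 := (inferInstance : (commutator G).Characteristic).fixed α
    rw [← h1] at hg
    exact hg
  have hallp : ∀ g : G, orderOf g = p → g ∈ commutator G := by
    intro g hg
    obtain ⟨α, rfl⟩ := hP g0 g hg0o hg
    exact hchar α g0 hg0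
  have hPmem : ∀ g, g ∈ commutator G ↔ g ^ p = 1 := by
    intro g
    constructor
    · intro hg
      rcases hord g with h | h | h
      · simp [h]
      · rw [← h, pow_orderOf_eq_one]
      · exfalso
        apply hsolv
        rw [eq_top_iff]
        intro x _
        rcases hord x with hx | hx | hx
        · rw [hx]; exact one_mem _
        · exact hallp x hx
        · obtain ⟨α, rfl⟩ := hQ g x h hx
          exact hchar α g hg
    · intro hg
      by_cases h1 : g = 1
      · rw [h1]; exact one_mem _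
      · exact hallp g (orderOf_eq_prime hg h1)
  have hfpf0 : ∀ x v : G, orderOf x = q → orderOf v = p → x * v * x⁻¹ ≠ v := by
    intro x v hx hv hxv
    have hcomm : Commute x v := by
      rw [mul_inv_eq_iff_eq_mul] at hxv
      exact hxv
    have h1 := hcomm.orderOf_mul_eq_mul_orderOf_of_coprime
      (by rw [hx, hv]; exact (Nat.coprime_primes hq.out hp.out).2 hpq.symm)
    rw [hx, hv] at h1
    have hp2 := hp.out.two_le
    have hq2 := hq.out.two_le
    rcases hord (x * v) with h | h | h
    · rw [h, orderOf_one] at h1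
      nlinarith
    · rw [h] at h1
      nlinarith
    · rw [h] at h1
      nlinarith
  have hfpf : ∀ x v : G, orderOf x = q → v ∈ commutator G → x * v * x⁻¹ = v → v = 1 := by
    intro x v hx hv hxv
    by_contra h1
    exact hfpf0 x v hx (orderOf_eq_prime ((hPmem v).1 hv) h1) hxv
  have hcommP : IsMulCommutative (commutator G) := isMulCommutative_of_transitive hPmem hP
  have hg01 : g0 ≠ 1 := by
    rintro rfl
    rw [orderOf_one] at hg0o
    exact hp.out.one_lt.ne hg0o
  have hnt : Nontrivial (commutator G) := ⟨⟨g0, hg0⟩, 1, fun h => hg01 (congrArg Subtype.val h)⟩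
  have hSyl : ∀ S : Sylow p G, (S : Subgroup G) = commutator G :=
    fun S => sylow_eq_of_mem_iff hpq hPmem hord S
  -- the Sylow q-subgroup
  obtain ⟨Q⟩ : Nonempty (Sylow q G) := inferInstance
  have hQel : ∀ g ∈ Q, g = 1 ∨ orderOf g = q := by
    intro g hg
    obtain ⟨k, hk⟩ := Q.2 ⟨g, hg⟩
    have hk' : g ^ (q ^ k) = 1 := congrArg Subtype.val hk
    rcases hord g with h | h | h
    · exact Or.inl h
    · exfalso
      have h1 := orderOf_dvd_of_pow_eq_one hk'
      rw [h] at h1
      exact hpq ((Nat.prime_dvd_prime_iff_eq hp.out hq.out).1 (hp.out.dvd_of_dvd_pow h1))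
    · exact Or.inr h
  have hqdvd : q ∣ Nat.card G := hy ▸ orderOf_dvd_natCard y
  have hQn : Nontrivial Q := by
    have h1 := Q.ne_bot_of_dvd_card hqdvd
    exact (Subgroup.nontrivial_iff_ne_bot _).2 h1
  have hQcard : Nat.card Q = q := card_sylow_eq_of_fpf (commutator G) hfpf Q hQel hQn
  have hidx : ∃ n, (Q : Subgroup G).index = p ^ n := by
    refine ⟨_, Nat.eq_prime_pow_of_unique_prime_dvd (Q : Subgroup G).index_ne_zero_of_finite ?_⟩
    intro r hr hrd
    have : Fact r.Prime := ⟨hr⟩
    obtain ⟨x, hx⟩ := exists_prime_orderOf_dvd_card' (G := G) r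
      (hrd.trans (Q : Subgroup G).index_dvd_card)
    rcases hord x with h | h | h
    · rw [h, orderOf_one] at hx
      exact absurd hx.symm hr.one_lt.ne'
    · rw [← hx, h]
    · exfalso
      rw [hx] at h
      exact Q.not_dvd_index (h ▸ hrd)
  obtain ⟨n, hn⟩ := hidx
  have hcard : Nat.card G = p ^ n * q := by
    rw [← (Q : Subgroup G).card_mul_index, hn, mul_comm]
    congr 1
  have hn1 : 1 ≤ n := by
    rcases Nat.eq_zero_or_pos n with h0 | h0
    · exfalso
      rw [h0, pow_zero, one_mul] at hcard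
      have h1 : p ∣ q := by rw [← hcard, ← hg0o]; exact orderOf_dvd_natCard g0
      exact hpq ((Nat.prime_dvd_prime_iff_eq hp.out hq.out).1 h1)
    · exact h0
  refine ⟨n, hn1, hcard, ?_, ?_, hfpf0⟩
  · intro S
    rw [hSyl S]
    exact ⟨inferInstance, hcommP, fun a ha => (hPmem a).1 ha⟩
  · obtain ⟨S⟩ : Nonempty (Sylow p G) := inferInstance
    have hindex : (commutator G).index = q := by
      rw [← hSyl S]; exact (index_sylow_eq hpq hcard S).1
    have hyP : y ∉ commutator G := by
      intro h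
      have h1 := orderOf_dvd_of_pow_eq_one ((hPmem y).1 h)
      rw [hy] at h1
      exact hpq ((Nat.prime_dvd_prime_iff_eq hq.out hp.out).1 h1).symm
    have hgen := gen_of_index (commutator G) hindex y hyP
    have hnorm := norm_eq_one (q := q) (commutator G) y (by rw [← hy, pow_orderOf_eq_one])
      (fun v hv => hfpf y v hy hv)
    refine orderOf_eq_of_transitive_mul (A := commutator G) hpq
      (fun a => Subtype.ext ((hPmem a).1 a.2))
      (MulAut.conjNormal y : MulAut (commutator G)).toMonoidHom hnorm ?_ ?_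
    · intro v w hv hw
      have hvo : orderOf (v : G) = p :=
        orderOf_eq_prime ((hPmem _).1 v.2) (fun h => hv (Subtype.ext h))
      have hwo : orderOf (w : G) = p :=
        orderOf_eq_prime ((hPmem _).1 w.2) (fun h => hw (Subtype.ext h))
      obtain ⟨α, hα⟩ := hP _ _ hvo hwo
      obtain ⟨u, hu, k, hk⟩ := hgen (α y)
      obtain ⟨a, ha, hav, hat⟩ := restrict_semiconj (commutator G) α (fun v hv => hchar α v hv)
        y u hu k hk
      exact ⟨a, k, ha, Subtype.ext ((hav v).trans hα), hat⟩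
    · intro k hk0 hkq
      have hyk : orderOf (y ^ k) = q := by
        rw [Nat.Coprime.orderOf_pow, hy]
        rw [hy]
        exact (Nat.Prime.coprime_iff_not_dvd hq.out).2 (fun h => by
          have := Nat.le_of_dvd hk0 h; omega)
      obtain ⟨α, hα⟩ := hQ _ _ hy hyk
      obtain ⟨a, ha, hav, hat⟩ := restrict_semiconj (commutator G) α (fun v hv => hchar α v hv)
        y 1 (one_mem _) k (by rw [hα, one_mul])
      exact ⟨a, ha, hat⟩

end

end Cfsg.Agent.Lib.Helper38
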