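import Mathlib

/-!
Linear algebra behind groups with three automorphism orbits, part A:
a primitive root from transitivity.
-/

set_option autoImplicit false

namespace Cfsg.Agent.Lib.Helper38

open Polynomial

section
variable {F V : Type*} [Field F] [AddCommGroup V] [Module F V]

/-- The ideal of polynomials `g` with `g(T) w = 0`. -/
def annIdeal (T : V →ₗ[F] V) (w : V) : Ideal F[X] where
  carrier := {g | aeval T g w = 0}
  add_mem' := by
    intro a b ha hb
    simp only [Set.mem_ofPred_eq, map_add, LinearMap.add_apply] at *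
    rw [ha, hb, add_zero]
  zero_mem' := by simp
  smul_mem' := by
    intro c g hg
    simp only [Set.mem_ofPred_eq, smul_eq_mul, map_mul, Module.End.mul_apply] at *
    rw [hg, map_zero]

theorem mem_annIdeal (T : V →ₗ[F] V) (w : V) (g : F[X]) :
    g ∈ annIdeal T w ↔ aeval T g w = 0 := Iff.rfl

theorem pow_semiconj (T S a : V →ₗ[F] V) (h : ∀ u, a (T u) = S (a u)) (n : ℕ) (u : V) :
    a ((T ^ n) u) = (S ^ n) (a u) := by
  induction n generalizing u with
  | zero => simp
  | succ n ih => rw [pow_succ, pow_succ, Module.End.mul_apply, Module.End.mul_apply, ih, h]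

theorem aeval_semiconj (T S a : V →ₗ[F] V) (h : ∀ u, a (T u) = S (a u)) (g : F[X]) (u : V) :
    a (aeval T g u) = aeval S g (a u) := by
  induction g using Polynomial.induction_on' with
  | add p q hp hq => simp [hp, hq]
  | monomial n c =>
    simp only [aeval_monomial, Module.End.mul_apply, Module.algebraMap_end_apply, map_smul]
    rw [pow_semiconj T S a h]

theorem annIdeal_eq_comap (T a : V →ₗ[F] V) (k : ℕ) (ha : Function.Injective a)
    (h : ∀ u, a (T u) = (T ^ k) (a u)) (w : V) :
    annIdeal T w = Ideal.comap (expand F k) (annIdeal T (a w)) := by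
  ext g
  rw [Ideal.mem_comap, mem_annIdeal, mem_annIdeal, expand_aeval, ← aeval_semiconj T (T ^ k) a h]
  constructor
  · intro h0; rw [h0, map_zero]
  · intro h0; exact ha (by rw [h0, map_zero])

theorem annIdeal_ne_top (T : V →ₗ[F] V) {w : V} (hw : w ≠ 0) : annIdeal T w ≠ ⊤ := by
  intro h
  have : (1 : F[X]) ∈ annIdeal T w := h ▸ Submodule.mem_top
  rw [mem_annIdeal] at this
  simp at this
  exact hw this

theorem annIdeal_add_le (T : V →ₗ[F] V) (w1 w2 : V) (h2 : (annIdeal T w2).IsPrime)
    (hne : ¬ annIdeal T w1 ≤ annIdeal T w2) : annIdeal T (w1 + w2) ≤ annIdeal T w2 := by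
  obtain ⟨h, hh1, hh2⟩ := SetLike.not_le_iff_exists.1 hne
  intro g hg
  rw [mem_annIdeal] at hg hh1
  have h3 : h * g ∈ annIdeal T w2 := by
    rw [mem_annIdeal]
    have h4 : aeval T (h * g) (w1 + w2) = 0 := by
      rw [map_mul, Module.End.mul_apply, hg, map_zero]
    have h5 : aeval T (h * g) w1 = 0 := by
      rw [mul_comm, map_mul, Module.End.mul_apply, hh1, map_zero]
    rw [map_add, h5, zero_add] at h4
    exact h4
  rcases h2.mem_or_mem h3 with h6 | h6
  · exact absurd h6 hh2
  · exact h6

/-- There is a nonzero vector whose annihilator is generated by an irreducible polynomial. -/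
theorem exists_annIdeal_irreducible [Nontrivial V] (T : V →ₗ[F] V) (Φ : F[X]) (hΦ : Φ ≠ 0)
    (hT : aeval T Φ = 0) :
    ∃ (w : V) (f : F[X]), w ≠ 0 ∧ Irreducible f ∧ annIdeal T w = Ideal.span {f} := by
  obtain ⟨w, hw⟩ := exists_ne (0 : V)
  have hprin : (annIdeal T w).IsPrincipal := IsPrincipalIdealRing.principal _
  obtain ⟨g, hg⟩ := hprin
  have hg' : annIdeal T w = Ideal.span {g} := hg
  have hΦmem : Φ ∈ annIdeal T w := by rw [mem_annIdeal, hT]; rfl
  have hg0 : g ≠ 0 := by
    rintro rfl
    rw [hg', Ideal.mem_span_singleton, zero_dvd_iff] at hΦmem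
    exact hΦ hΦmem
  have hgu : ¬ IsUnit g := by
    intro hu
    apply annIdeal_ne_top T hw
    rw [hg', Ideal.span_singleton_eq_top]
    exact hu
  obtain ⟨f, hf, h, rfl⟩ := WfDvdMonoid.exists_irreducible_factor hgu hg0
  refine ⟨aeval T h w, f, ?_, hf, ?_⟩
  · intro h0
    have : h ∈ annIdeal T w := h0
    rw [hg', Ideal.mem_span_singleton] at this
    obtain ⟨c, hc⟩ := this
    have hh0 : h ≠ 0 := right_ne_zero_of_mul hg0
    have : h * 1 = h * (f * c) := by rw [mul_one]; conv_lhs => rw [hc]
                                     ring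
    have h1 := mul_left_cancel₀ hh0 this
    exact hf.not_isUnit (IsUnit.of_mul_eq_one _ h1.symm)
  · have hmax : (Ideal.span {f}).IsMaximal := PrincipalIdealRing.isMaximal_of_irreducible hf
    have hw0 : aeval T h w ≠ 0 := by
      intro h0
      have : h ∈ annIdeal T w := h0
      rw [hg', Ideal.mem_span_singleton] at this
      obtain ⟨c, hc⟩ := this
      have hh0 : h ≠ 0 := right_ne_zero_of_mul hg0
      have : h * 1 = h * (f * c) := by rw [mul_one]; conv_lhs => rw [hc]
                                       ring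
      have h1 := mul_left_cancel₀ hh0 this
      exact hf.not_isUnit (IsUnit.of_mul_eq_one _ h1.symm)
    refine (hmax.eq_of_le (annIdeal_ne_top T hw0) ?_).symm
    rw [Ideal.span_singleton_le_iff_mem, mem_annIdeal, ← Module.End.mul_apply, ← map_mul]
    have : f * h ∈ annIdeal T w := by rw [hg']; exact Ideal.mem_span_singleton_self _
    exact this

end

theorem orderOf_eq_of_transitive {p q : ℕ} [hp : Fact p.Prime] [hq : Fact q.Prime] (hpq : p ≠ q)
    {V : Type*} [AddCommGroup V] [Module (ZMod p) V] [Nontrivial V]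
    (T : V →ₗ[ZMod p] V) (hT : aeval T (cyclotomic q (ZMod p)) = 0)
    (h1 : ∀ v w : V, v ≠ 0 → w ≠ 0 → ∃ (a : V →ₗ[ZMod p] V) (k : ℕ),
      Function.Injective a ∧ a v = w ∧ ∀ u, a (T u) = (T ^ k) (a u))
    (h2 : ∀ k, 0 < k → k < q → ∃ a : V →ₗ[ZMod p] V,
      Function.Injective a ∧ ∀ u, a (T u) = (T ^ k) (a u)) :
    orderOf (p : ZMod q) = q - 1 := by
  have hΦ0 : cyclotomic q (ZMod p) ≠ 0 := cyclotomic_ne_zero q _
  obtain ⟨w0, f, hw0, hf, hI0⟩ := exists_annIdeal_irreducible T _ hΦ0 hT
  have hΦmem : ∀ w, cyclotomic q (ZMod p) ∈ annIdeal T w := by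
    intro w; rw [mem_annIdeal, hT]; rfl
  have hmax0 : (annIdeal T w0).IsMaximal := by
    rw [hI0]; exact PrincipalIdealRing.isMaximal_of_irreducible hf
  have hmax : ∀ w, w ≠ 0 → (annIdeal T w).IsMaximal := by
    intro w hw
    obtain ⟨a, k, ha, haw, hak⟩ := h1 w w0 hw hw0
    have h3 := annIdeal_eq_comap T a k ha hak w
    rw [haw] at h3
    have hprime : (annIdeal T w).IsPrime := by
      rw [h3]
      exact Ideal.comap_isPrime _ _
    refine hprime.isMaximal ?_
    intro hbot
    have := hΦmem w
    rw [hbot, Ideal.mem_bot] at this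
    exact hΦ0 this
  have hall : ∀ w, w ≠ 0 → annIdeal T w = annIdeal T w0 := by
    intro w hw
    by_contra hne
    have hA : ¬ annIdeal T w ≤ annIdeal T w0 := fun hle =>
      hne ((hmax w hw).eq_of_le (hmax0.ne_top) hle)
    have hB : ¬ annIdeal T w0 ≤ annIdeal T w := fun hle =>
      hne ((hmax0).eq_of_le ((hmax w hw).ne_top) hle).symm
    have hC := annIdeal_add_le T w w0 hmax0.isPrime hA
    have hD := annIdeal_add_le T w0 w (hmax w hw).isPrime hB
    rw [add_comm] at hD
    by_cases hz : w + w0 = 0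
    · apply hmax0.ne_top
      rw [eq_top_iff]
      refine le_trans ?_ hC
      intro g _
      rw [mem_annIdeal, hz, map_zero]
    · have e1 := (hmax _ hz).eq_of_le hmax0.ne_top hC
      have e2 := (hmax _ hz).eq_of_le (hmax w hw).ne_top hD
      exact hne (e2.symm.trans e1)
  have hfΦ : f ∣ cyclotomic q (ZMod p) := by
    have := hΦmem w0
    rwa [hI0, Ideal.mem_span_singleton] at this
  have hexp : ∀ k, 0 < k → k < q → f ∣ expand (ZMod p) k f := by
    intro k hk0 hkq
    obtain ⟨a, ha, hak⟩ := h2 k hk0 hkq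
    have h3 := annIdeal_eq_comap T a k ha hak w0
    have haw : a w0 ≠ 0 := fun h => hw0 (ha (by rw [h, map_zero]))
    rw [hall _ haw] at h3
    have : f ∈ annIdeal T w0 := by rw [hI0]; exact Ideal.mem_span_singleton_self _
    rw [h3, Ideal.mem_comap, hI0, Ideal.mem_span_singleton] at this
    exact this
  have hcop : p.Coprime q := (Nat.coprime_primes hp.out hq.out).2 hpq
  have hdeg := natDegree_of_dvd_cyclotomic_of_irreducible (K := ZMod p) (p := p) (f := 1) (n := q)
    (by simp) hcop hfΦ hf
  have : Fact (Irreducible f) := ⟨hf⟩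
  have hζ : IsPrimitiveRoot (AdjoinRoot.root f) q := by
    have : NeZero (q : AdjoinRoot f) := by
      suffices NeZero (q : ZMod p) by
        simpa using! NeZero.of_injective (algebraMap (ZMod p) (AdjoinRoot f)).injective
      refine ⟨fun h0 => ?_⟩
      rw [ZMod.natCast_eq_zero_iff] at h0
      exact hpq ((Nat.prime_dvd_prime_iff_eq hp.out hq.out).1 h0)
    simpa [← isRoot_cyclotomic_iff] using! (AdjoinRoot.isRoot_root f).dvd
      (by simpa using! map_dvd (algebraMap (ZMod p) (AdjoinRoot f)) hfΦ)
  have hroot : ∀ k, 0 < k → k < q →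
      AdjoinRoot.root f ^ k ∈ (f.map (algebraMap (ZMod p) (AdjoinRoot f))).roots := by
    intro k hk0 hkq
    rw [mem_roots (map_ne_zero hf.ne_zero), IsRoot.def, eval_map_algebraMap, ← expand_aeval]
    obtain ⟨c, hc⟩ := hexp k hk0 hkq
    rw [hc, map_mul]
    have : aeval (AdjoinRoot.root f) f = 0 := by
      rw [AdjoinRoot.aeval_eq, AdjoinRoot.mk_self]
    rw [this, zero_mul]
  have hcard : q - 1 ≤ f.natDegree := by
    have hZ := card_le_degree_of_subset_roots
      (p := f.map (algebraMap (ZMod p) (AdjoinRoot f)))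
      (Z := (Finset.range (q - 1)).image (fun i => AdjoinRoot.root f ^ (i + 1))) (by
        intro x hx
        simp only [Finset.image_val, Multiset.mem_dedup, Multiset.mem_map, Finset.mem_val,
          Finset.mem_range] at hx
        obtain ⟨i, hi, rfl⟩ := hx
        exact hroot (i + 1) (Nat.succ_pos i) (by omega))
    rw [Finset.card_image_of_injOn, Finset.card_range, natDegree_map] at hZ
    · exact hZ
    · intro i hi j hj hij
      simp only [Finset.coe_range, Set.mem_Iio] at hi hj
      have := hζ.pow_inj (by omega) (by omega) hij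
      omega
  have hle : orderOf (ZMod.unitOfCoprime _ (hcop.pow_left 1)) ≤ q - 1 := by
    have h3 := orderOf_dvd_card (x := ZMod.unitOfCoprime _ (hcop.pow_left 1))
    rw [ZMod.card_units] at h3
    exact Nat.le_of_dvd (by have := hq.out.two_le; omega) h3
  have heq : orderOf (ZMod.unitOfCoprime _ (hcop.pow_left 1)) = q - 1 := by omega
  rw [← orderOf_units, ZMod.coe_unitOfCoprime] at heq
  simpa using heq

end Cfsg.Agent.Lib.Helper38
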